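import Cfsg.Agent.Lib.Nd4.Gen
import Cfsg.Agent.Lib.FGS.Regular
import Cfsg.Agent.Lib.Coprime.Gaschutz

/-!
# Case α: basic facts and the lower central series
-/

set_option autoImplicit false

namespace Cfsg.Lib.Nd4
open Cfsg.Lib.Char Cfsg.Lib.CharDeg Cfsg.Lib.Clifford Cfsg.Lib.Induce Cfsg.Lib.Core Cfsg.Lib.Gar
  Cfsg.Lib.RelGraph Cfsg.Lib.Nda Cfsg.Lib.BG Subgroup MulAction
open scoped commutatorElement

variable {G : Type*} [Group G] [Fintype G] {N P H : Subgroup G} [N.Normal] [P.Normal] {p : ℕ}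
  {χ : G → ℂ} {φ : P → ℂ}

omit [Fintype G] [N.Normal] [P.Normal] in
theorem sup_comm_le {A B C J : Subgroup G} [J.Normal] (h1 : ⁅A, C⁆ ≤ J) (h2 : ⁅B, C⁆ ≤ J) :
    ⁅A ⊔ B, C⁆ ≤ J :=
  Core.commutator_sup_le le_normalizer_of_normal le_normalizer_of_normal h1 h2

namespace Al
variable (h : Al G N P H p)
include h

/-- `G ⧸ P` is the image of the abelian group `H`. -/
theorem GP : _root_.commutator G ≤ P := by
  rw [_root_.commutator_def, ← h.sup]
  refine sup_comm_le (commutator_le_left _ _) ?_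
  rw [commutator_comm]
  refine sup_comm_le (commutator_le_left _ _) (commutator_le.2 fun a ha b hb => ?_)
  rw [commutatorElement_eq_one_iff_mul_comm.2 (h.cH a ha b hb)]
  exact one_mem _

/-- `P.index ∣ |H|`. -/
theorem idx : ¬ p ∣ P.index := by
  rw [← relIndex_top_right, ← h.sup, relIndex_sup_left]
  exact fun e => h.pH (e.trans (index_dvd_card _))

theorem cop : (Nat.card P).Coprime P.index := by
  have := Fact.mk h.hp
  obtain ⟨n, e⟩ := IsPGroup.iff_card.1 h.pP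
  rw [e]
  exact ((Nat.Prime.coprime_iff_not_dvd h.hp).2 h.idx).pow_left _

theorem copH {X : Subgroup G} (hX : X ≤ P) : (Nat.card H).Coprime (Nat.card X) := by
  have := Fact.mk h.hp
  obtain ⟨n, e⟩ := IsPGroup.iff_card.1 (h.pP.to_le hX)
  rw [e]
  exact (((Nat.Prime.coprime_iff_not_dvd h.hp).2 h.pH).pow_left _).symm

theorem cenZ : N ⊓ H ≤ center G := by
  refine fun x hx => mem_center_iff.2 fun g => ?_
  obtain ⟨y, hy, z, hz, rfl⟩ := mem_sup_of_normal_left.1 (h.sup.ge (mem_top g))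
  rw [mul_assoc, h.cH z hz x hx.2, ← mul_assoc, h.cn hx y hy, mul_assoc]

/-- Dedekind. -/
theorem eq_sup {T : Subgroup G} (hT : P ≤ T) : T = P ⊔ (T ⊓ H) := by
  refine le_antisymm (fun t ht => ?_) (sup_le hT inf_le_left)
  obtain ⟨y, hy, z, hz, rfl⟩ := mem_sup_of_normal_left.1 (h.sup.ge (mem_top t))
  exact mul_mem_sup hy ⟨(mul_mem_cancel_left (hT hy)).1 ht, hz⟩

theorem exists_H {T E : Subgroup G} (hT : P ≤ T) (hE : P ≤ E) (hn : ¬ T ≤ E) :
    ∃ x ∈ H, x ∈ T ∧ x ∉ E := by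
  by_contra c
  push Not at c
  exact hn ((h.eq_sup hT).le.trans (sup_le hE fun x hx => c x hx.2 hx.1))

theorem NN : ⁅N, N⁆ = P.lowerCentralSeries 1 := by
  have a : ∀ X : Subgroup G, ⁅N ⊓ H, X⁆ ≤ ⁅P, P⁆ := fun X => commutator_le.2 fun a ha b _ => by
    rw [commutatorElement_eq_one_iff_mul_comm.2 (mem_center_iff.1 (h.cenZ ha) b).symm]
    exact one_mem _
  refine le_antisymm ?_ (commutator_mono h.PN h.PN)
  refine (commutator_mono (h.eq_sup h.PN).le le_rfl).trans (sup_comm_le ?_ (a _))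
  rw [commutator_comm]
  exact (commutator_mono (h.eq_sup h.PN).le le_rfl).trans (sup_comm_le le_rfl (a _))

/-- `centralizer_le_inertia`. -/
theorem le_inertia {X : Subgroup G} [X.Normal] {θ : X → ℂ} (hP : P ≤ inertia X θ) :
    N ≤ inertia X θ := by
  exact (h.eq_sup h.PN).le.trans (sup_le hP (h.cenZ.trans
    ((center_le_centralizer _).trans (centralizer_le_inertia X θ))))

/-- `P = C_P(H) ⁅P, H⁆` (Lib/Coprime/Action). -/
theorem dec {g : G} (hg : g ∈ P) : ∃ b ∈ P ⊓ 𝐂(H), ∃ r ∈ _root_.commutator G, g = b * r := by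
  have := h.sol
  obtain ⟨b, hb, r, hr, e⟩ := Coprime.exists_centralizer_mul_commutator (A := H)
    le_normalizer_of_normal (h.copH le_rfl) (.inl inferInstance) hg
  exact ⟨b, hb, r, commutator_mono le_top le_top hr, e⟩

theorem le_BR : P ≤ (P ⊓ 𝐂(H)) ⊔ _root_.commutator G := fun _ hg => by
  obtain ⟨b, hb, r, hr, rfl⟩ := h.dec hg
  exact mul_mem_sup hb hr

/-- `g = b r` (`dec`); `b ∈ Lc N` as `G = P H`, so `r ∈ G' ∩ Lc N ≤ N'`. -/
theorem Lc_le : P ⊓ Lc N ≤ (P ⊓ 𝐂(H)) ⊔ P.lowerCentralSeries 1 := by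
  intro g hg
  obtain ⟨b, hb, r, hr, rfl⟩ := h.dec hg.1
  have c : b ∈ Lc N := mem_Lc.2 fun x => by
    obtain ⟨y, hy, z, hz, rfl⟩ := mem_sup_of_normal_left.1 (h.sup.ge (mem_top x))
    have : ⁅y * z, b⁆ = ⁅y, b⁆ := by
      rw [commutatorElement_def, commutatorElement_def, mul_assoc y, hb.2 z hz]; group
    exact this ▸ commutator_mem_commutator (h.PN hy) (h.PN hb.1)
  exact mul_mem_sup hb (h.NN.le (h.inf_le ⟨hr, (mul_mem_cancel_left c).1 hg.2⟩))

theorem deg (hφ : IsIrrCharacter P φ) (hχ : IsIrrCharacter G χ) (ho : ov P χ φ) :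
    charDegree χ = (inertia P φ).index * charDegree φ :=
  deg_cop h.GP h.cop hφ hχ ho

theorem mem_cd (hφ : IsIrrCharacter P φ) : (inertia P φ).index * charDegree φ ∈ cd G := by
  obtain ⟨χ, h1, h2, -⟩ := ex_over P hφ.isCharacter (m := 0) (by
    rw [zero_dvd_iff]; exact mul_ne_zero index_ne_zero_of_finite hφ.charDegree_pos.ne')
  exact h.deg hφ h1 h2 ▸ charDegree_mem_cd h1

/-- The degree is a power of `p`; `not_le`. -/
theorem nl (hφ : IsIrrCharacter P φ) (h1 : charDegree φ ≠ 1) : ¬ inertia P φ ≤ N := by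
  have := Fact.mk h.hp
  obtain ⟨n, e⟩ := IsPGroup.iff_card.1 h.pP
  obtain ⟨k, -, e'⟩ := (Nat.dvd_prime_pow h.hp).1 (e ▸ hφ.charDegree_dvd_card)
  refine h.not_le hφ (e' ▸ dvd_pow_self p ?_)
  rintro rfl
  exact h1 e'

theorem van (hφ : IsIrrCharacter P φ) (h1 : charDegree φ ≠ 1) {g : P} (hg : (g : G) ∉ Lc N) :
    φ g = 0 :=
  h.van' h.PN (fun _ c1 c2 => ⟨h.le_inertia (Clifford.le_inertia P c1.isClassFunction), h.nl c1 c2⟩)
    hφ h1 hg

omit h [N.Normal] in
/-- `le_inertia_of`: `P` acts trivially on `Tr (P i) (P (i+1))`. -/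
theorem le_Kn (i : ℕ) : P ≤ Kn (P.lowerCentralSeries i) (P.lowerCentralSeries (i + 1)) := by
  exact fun g hg => mem_Kn.2 fun a ha => mem_inertia_lin.1 (le_inertia_of (μ := a.hom)
    (K := P.lowerCentralSeries (i + 1)) (commutator_comm _ _).le
    (fun n hn => Units.ext (ha n hn)) hg)

omit h [N.Normal] in
/-- A linear `φ` is trivial on `P' ≥ P (i+1)` (`kr_lin`, `Ly.apply_eq_iff`). -/
theorem ne_one {i : ℕ} {μ : Lin (P.lowerCentralSeries (i + 1))} (hφ : IsIrrCharacter P φ)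
    (hl : Ly (lcs_le P _) φ μ) (h0 : μ ≠ 1) : charDegree φ ≠ 1 := by
  refine fun e => h0 (MonoidHom.ext fun u => Units.ext ((hl.apply_eq_iff hφ u).1 ?_))
  exact kr_lin hφ.isCharacter e _ (P.lowerCentralSeries_antitone (Nat.le_add_left 1 i) u.2)

/-- `φ` over `κ` (`exists_over`, `le_Kn`), `ne_one`, `nl`, `Ly.inertia_le`, `exists_H`. -/
theorem exists_fix {i : ℕ} {κ : Lin (P.lowerCentralSeries (i + 1))}
    (hκ : κ ∈ Tr _ (P.lowerCentralSeries (i + 2))) (h0 : κ ≠ 1) : ∃ x ∈ H, x ∉ N ∧ cj x κ = κ := by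
  obtain ⟨φ, h1, h2⟩ := exists_over (μ := κ) (lcs_le P _)
    fun g hg => mem_inertia_lin.2 (mem_Kn.1 (le_Kn _ hg) κ hκ)
  obtain ⟨x, a, b, c⟩ := h.exists_H (Clifford.le_inertia P h1.isClassFunction) h.PN
    (h.nl h1 (ne_one h1 h2 h0))
  exact ⟨x, a, c, mem_inertia_lin.1 (h2.inertia_le h1 b)⟩

/-- If `⁅b, r⁆ ∉ P 2` take `κ ∈ Tr (P 1) (P 2)` nontrivial on it (`sep`) and `x` from `exists_fix`.
`a = κ ⁅b, ·⁆ ∈ Lin G'` (`exists_pair`) is trivial on `N' = P 1` and fixed by `x`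
(`⁅b, x r x⁻¹⁆ = x ⁅b, r⁆ x⁻¹`), so `a = 1` (`fix_eq_one`). -/
theorem BR : ⁅P ⊓ 𝐂(H), _root_.commutator G⁆ ≤ P.lowerCentralSeries 2 := by
  refine commutator_le.2 fun b hb r hr => by_contra fun c => ?_
  have m : ∀ s ∈ _root_.commutator G, ⁅b, s⁆ ∈ P.lowerCentralSeries 1 := fun s hs =>
    commutator_mem_commutator hb.1 (h.GP hs)
  obtain ⟨κ, k1, k2⟩ := sep (X := P.lowerCentralSeries 1) (Y := P.lowerCentralSeries 2)
    (commutator_mono le_rfl (lcs_le P 1)) (x := ⟨_, m r hr⟩) c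
  obtain ⟨x, x1, x2, x3⟩ := h.exists_fix (i := 0) k1 (by rintro rfl; exact k2 (map_one _))
  obtain ⟨a, ha⟩ := exists_pair k1 m
    ((commutator_comm _ _).le.trans (commutator_mono le_rfl h.GP))
  have e : a = 1 := h.fix_eq_one x2 (fun n hn => (ha n).trans (k1 _ (by
      change ⁅b, (n : G)⁆ ∈ ⁅P.lowerCentralSeries 1, P⁆
      rw [commutator_comm]
      exact commutator_mem_commutator hb.1 (h.NN.le hn))))
    (MonoidHom.ext fun s => Units.ext (by
      change ev s (cj x a) = ev s a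
      rw [ev_cj, ha, ha]
      conv_rhs => rw [← x3, ev_cj]
      congr 2
      ext
      change ⁅b, x * s * x⁻¹⁆ = x * ⁅b, (s : G)⁆ * x⁻¹
      rw [conjugate_commutatorElement, hb.2 x x1, mul_inv_cancel_right]))
  exact k2 ((ha ⟨r, hr⟩).symm.trans (e ▸ map_one _))

theorem BRi (i : ℕ) :
    ⁅P ⊓ 𝐂(H), (_root_.commutator G).lowerCentralSeries i⁆ ≤ P.lowerCentralSeries (i + 2) := by
  induction i with
  | zero => exact h.BR
  | succ i ih =>
    rw [commutator_comm]
    refine three_subgroups_normal _ ?_ (commutator_mono ih h.GP)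
    refine (commutator_mono ((commutator_comm _ _).le.trans h.BR) (lowerCentralSeries_mono i h.GP)).trans ?_
    exact (RegP.comm_lcs_le P 2 i).trans (by rw [show 2 + i + 1 = i + 1 + 2 by omega])

omit h in
/-- In the nilpotent group `P`: for `J` normal in `G`, `P i ≤ J ⊔ P (i+1)` gives `P (i+k) ≤ J ⊔ P (i+k+1)`
by taking commutators with `P`, so `P i ≤ J ⊔ P (i+k)` for all `k`. -/
theorem le_of_le_sup (hp : p.Prime) (hP : IsPGroup p P) {J : Subgroup G} [J.Normal] {i : ℕ}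
    (h1 : P.lowerCentralSeries i ≤ J ⊔ P.lowerCentralSeries (i + 1)) : P.lowerCentralSeries i ≤ J := by
  have := Fact.mk hp
  have a : ∀ k, P.lowerCentralSeries (i + k) ≤ J ⊔ P.lowerCentralSeries (i + k + 1) := fun k => by
    induction k with
    | zero => exact h1
    | succ k ih =>
      exact (commutator_mono ih le_rfl).trans
        (sup_comm_le ((commutator_le_left _ _).trans le_sup_left) le_sup_right)
  have b : ∀ k, P.lowerCentralSeries i ≤ J ⊔ P.lowerCentralSeries (i + k) := fun k => by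
    induction k with
    | zero => exact le_sup_right
    | succ k ih => exact ih.trans (sup_le le_sup_left (a k))
  obtain ⟨n, hn⟩ := (isNilpotent_iff_lowerCentralSeries P).1 hP.isNilpotent
  exact (b n).trans (sup_le le_rfl
    (((P.lowerCentralSeries_antitone (Nat.le_add_left n i)).trans hn.le).trans bot_le))

/-- `R = G'`, `J = R' ⊔ P 2`. `⁅P, R⁆ ≤ J` (`dec`, `BR`), so `R ≤ ⁅R, ⊤⁆ ≤ ⁅R, H⁆ J` (`nq`). Every
`a ∈ Tr R J` fixed by `H` is fixed by `G`, so trivial. For `b, b' ∈ B = C_P(H)`, `z = ⁅b, b'⁆ ∈ R` is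
centralized by `H`; claim `z ∈ J`: `R / J` is an abelian `p`-group with `R/J = ⁅R/J, H⁆`, so coprime
action gives `C_{R/J}(H) = 1` (Lib/Coprime/Action in `G ⧸ J`; or for `a ∈ Tr R J`,
`∏ h ∈ H, cj h a` is `H`-fixed so trivial, and its value at `z` is `a(z) ^ |H|`). Then
`P' ≤ ⁅B,B⁆ ⁅B,R⁆ R' ≤ J`, and `le_of_le_sup`. -/
theorem R1 : (_root_.commutator G).lowerCentralSeries 1 = P.lowerCentralSeries 1 := by
  refine le_antisymm (commutator_mono h.GP h.GP) (le_of_le_sup h.hp h.pP ?_)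
  have := h.sol
  set R := _root_.commutator G
  set J := R.lowerCentralSeries 1 ⊔ P.lowerCentralSeries (1 + 1)
  have a : ⁅P, R⁆ ≤ J := (commutator_mono h.le_BR le_rfl).trans
    (sup_comm_le (h.BR.trans le_sup_right) le_sup_left)
  have j : J ≤ R := sup_le (lcs_le R 1) (commutator_mono le_top le_top)
  have w : ⁅R, H⁆ ⊔ J ≤ R := sup_le (commutator_le_left _ _) j
  have b : R ≤ ⁅R, H⁆ ⊔ J := by
    refine h.nq.trans ?_
    rw [← h.sup, commutator_comm]
    exact Core.commutator_sup_le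
      (Coprime.le_normalizer_of_commutator_le w (((commutator_comm _ _).le.trans a).trans le_sup_right))
      (Coprime.le_normalizer_of_commutator_le w le_sup_left) (a.trans le_sup_right)
      ((commutator_comm _ _).le.trans le_sup_left)
  have c : ⁅P ⊓ 𝐂(H), P ⊓ 𝐂(H)⁆ ≤ J := fun z hz => by
    obtain ⟨x, hx, y, hy, rfl⟩ := mem_sup_of_normal_right.1 (b (commutator_mono le_top le_top hz))
    obtain ⟨x', hx', y', hy', e⟩ := Coprime.exists_centralizer_mul_centralizer (K := R)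
      (h.copH h.GP) (.inl inferInstance) (commutator_le_left R H)
      (Coprime.le_normalizer_of_commutator_le (commutator_le_left R H) le_rfl) le_normalizer_of_normal hx hy
      ((commutator_mono inf_le_right inf_le_right).trans (commutator_le_self _) hz)
    rw [e]
    exact mul_mem (mem_sup_left (Coprime.centralizer_inf_commutator_le le_normalizer_of_normal
      (h.copH h.GP) ⟨hx'.2, hx'.1⟩)) hy'.1
  refine (commutator_mono h.le_BR le_rfl).trans (sup_comm_le ?_ ((commutator_comm _ _).le.trans a))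
  rw [commutator_comm]
  exact (commutator_mono h.le_BR le_rfl).trans
    (sup_comm_le c ((commutator_comm _ _).le.trans (h.BR.trans le_sup_right)))

/-- Simultaneous induction, `R i = R.lowerCentralSeries i`. `⁅B, R (i+1)⁆ ≤ P (i+3)` by the three
subgroups lemma from `⁅B, R⁆ ≤ P 2` and `⁅B, R i⁆ ≤ P (i+2)` (`RegP.comm_lcs_le`:
`⁅P i, P j⁆ ≤ P (i+j+1)`); `P (i+2) = ⁅R (i+1), B R⁆ ≤ R (i+2) ⊔ P (i+3)`, and `le_of_le_sup`. -/
theorem lcs_eq (i : ℕ) :
    (_root_.commutator G).lowerCentralSeries (i + 1) = P.lowerCentralSeries (i + 1) ∧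
      ⁅P ⊓ 𝐂(H), P.lowerCentralSeries (i + 1)⁆ ≤ P.lowerCentralSeries (i + 3) := by
  have e : ∀ j, (_root_.commutator G).lowerCentralSeries (j + 1) = P.lowerCentralSeries (j + 1) := fun j => by
    induction j with
    | zero => exact h.R1
    | succ j ih =>
      refine le_antisymm (commutator_mono ih.le h.GP) (le_of_le_sup h.hp h.pP ?_)
      refine (commutator_comm _ _).le.trans ((commutator_mono h.le_BR ih.ge).trans (sup_comm_le ?_ ?_))
      · exact (h.BRi (j + 1)).trans le_sup_right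
      · exact (commutator_comm _ _).le.trans le_sup_left
  exact ⟨e i, e i ▸ h.BRi (i + 1)⟩

end Al

end Cfsg.Lib.Nd4
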