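import Cfsg.Agent.Lib.Nd4.Al1

/-!
# Case α: degrees at one level of the lower central series; level two
-/

set_option autoImplicit false

namespace Cfsg.Lib.Nd4
open Cfsg.Lib.Char Cfsg.Lib.CharDeg Cfsg.Lib.Clifford Cfsg.Lib.Induce Cfsg.Lib.Core Cfsg.Lib.Gar
  Cfsg.Lib.RelGraph Cfsg.Lib.Nda Cfsg.Lib.BG Subgroup MulAction
open scoped commutatorElement

variable {G : Type*} [Group G] [Fintype G] {N P H : Subgroup G} [N.Normal] [P.Normal] {p : ℕ}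
  {χ : G → ℂ} {φ : P → ℂ}

omit [Fintype G] in
theorem le_inr {X Y : Subgroup G} [X.Normal] {a : Lin X} (ha : a ∈ Tr X Y) : Kn X Y ≤ inertia X (lin a) :=
  fun _ hg => mem_inertia_lin.2 (mem_Kn.1 hg a ha)

namespace Al
variable (h : Al G N P H p)
include h

/-- Write `P i = P.lowerCentralSeries i`. If `x ∈ I(a) \ Kn`, `exists_H` (`le_Kn`) gives such `k ∈ H`,
and `ν ∈ Tr` with `cj k ν ≠ ν`. With `μ = cj k ν / ν` (trivial on `𝐂(H)`), `a' = a μ ∈ Tr`, `orb` gives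
`k ∉ I(a')` (so `a' ≠ 1`) and `I(a') ≤ I(a)` (`eq_sup`). Take `φ, φ'` over `a, a'` (`exists_over`): equal
degrees `≠ 1` (`hd`, `ne_one`), `index I(a) * deg ∣ index I(a') * deg`, both in `cd G` (`mem_cd`, `hi`),
so `nd` gives equal indices, `I(a') = I(a) ∋ k`. -/
theorem sr_lev (i : ℕ)
    (hi : ∀ (φ : P → ℂ) (μ : Lin (P.lowerCentralSeries (i + 1))), IsIrrCharacter P φ →
      Ly (lcs_le P _) φ μ → μ ≠ 1 → μ ∈ Tr _ (P.lowerCentralSeries (i + 2)) →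
        inertia P φ = inertia _ (lin μ))
    (hd : ∀ (φ φ' : P → ℂ) (μ μ' : Lin (P.lowerCentralSeries (i + 1))), IsIrrCharacter P φ →
      IsIrrCharacter P φ' → Ly (lcs_le P _) φ μ → Ly (lcs_le P _) φ' μ' → μ ≠ 1 → μ' ≠ 1 →
        μ ∈ Tr _ (P.lowerCentralSeries (i + 2)) → μ' ∈ Tr _ (P.lowerCentralSeries (i + 2)) →
          μ' / μ ∈ Tr _ 𝐂(H) → charDegree φ = charDegree φ') :
    Sr (P.lowerCentralSeries (i + 1)) (P.lowerCentralSeries (i + 2)) := by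
  intro a ha h1
  by_contra hn
  have kI : ∀ b ∈ Tr (P.lowerCentralSeries (i + 1)) (P.lowerCentralSeries (i + 2)), P ≤ inertia _ (lin b) :=
    fun b hb => (le_Kn (i + 1)).trans (le_inr hb)
  obtain ⟨k, hk, hkI, hkK⟩ := h.exists_H (kI a ha) (le_Kn (i + 1)) hn
  obtain ⟨ν, hν, e⟩ : ∃ ν ∈ Tr (P.lowerCentralSeries (i + 1)) (P.lowerCentralSeries (i + 2)), cj k ν ≠ ν := by
    by_contra! c
    exact hkK (mem_Kn.2 c)
  obtain ⟨o1, o2⟩ := orb h.cH (h.copH (lcs_le P _)) hk (mem_inertia_lin.1 hkI) e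
  have ha' := mul_mem ha (div_mem (cj_mem_Tr k hν) hν)
  have h1' : a * (cj k ν / ν) ≠ 1 := fun c => o1 (by rw [c, map_one])
  have le : inertia _ (lin (a * (cj k ν / ν))) ≤ inertia _ (lin a) := (h.eq_sup (kI _ ha')).le.trans
    (sup_le (kI a ha) fun g hg => mem_inertia_lin.2 (o2 g hg.2 (mem_inertia_lin.1 hg.1)))
  obtain ⟨φ, c1, c2⟩ := exists_over (lcs_le P _) (kI a ha)
  obtain ⟨φ', c1', c2'⟩ := exists_over (lcs_le P _) (kI _ ha')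
  have d := hd φ φ' _ _ c1 c1' c2 c2' h1 h1' ha ha' fun n hn => by
    rw [mul_div_cancel_left, map_div, ev_cj, div_eq_one_iff_eq (ev_ne_zero ν n)]
    congr 2
    exact Subtype.ext (mul_inv_eq_iff_eq_mul.2 (hn k hk))
  have m := h.mem_cd c1
  have m' := h.mem_cd c1'
  rw [hi φ a c1 c2 h1 ha] at m
  rw [hi φ' _ c1' c2' h1' ha', ← d] at m'
  have q := Nat.eq_of_mul_eq_mul_right c1.charDegree_pos (h.nd _ m _ m'
    (fun c => ne_one c1 c2 h1 (Nat.eq_one_of_mul_eq_one_left c)) (Nat.mul_dvd_mul_right (index_dvd_of_le le) _))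
  have r := relIndex_mul_index le
  rw [← q, Nat.mul_eq_right index_ne_zero_of_finite, relIndex_eq_one] at r
  exact o1 (mem_inertia_lin.1 (r hkI))

/-- For `χ` take `φ ∈ Irr P` below it (`exists_irr_below`); `φ` is trivial on `P (i+2)` (`const_kr`), so
`exists_Ly` gives `μ ∈ Tr`, `μ ≠ 1` (`kr_of_const`), and `χ(1) = index Kn * φ(1)` (`deg`, `hi`, `hs`;
`Kn ≤ I(μ)` by `mem_Kn`) with `φ(1) ≠ 1` a power of `p` (`exists_eq_pow_of_mem_cd`). Two such degrees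
divide one another; `nd`. (If there is no such `χ` take `d = 0`.) -/
theorem deg_lev (i : ℕ)
    (hi : ∀ (φ : P → ℂ) (μ : Lin (P.lowerCentralSeries (i + 1))), IsIrrCharacter P φ →
      Ly (lcs_le P _) φ μ → μ ≠ 1 → μ ∈ Tr _ (P.lowerCentralSeries (i + 2)) →
        inertia P φ = inertia _ (lin μ))
    (hs : Sr (P.lowerCentralSeries (i + 1)) (P.lowerCentralSeries (i + 2))) :
    ∃ d, ∀ χ : G → ℂ, IsIrrCharacter G χ → Kr χ (P.lowerCentralSeries (i + 2)) →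
      ¬ Kr χ (P.lowerCentralSeries (i + 1)) → charDegree χ = d := by
  have key : ∀ χ : G → ℂ, IsIrrCharacter G χ → Kr χ (P.lowerCentralSeries (i + 2)) →
      ¬ Kr χ (P.lowerCentralSeries (i + 1)) → charDegree χ ≠ 1 ∧
        ∃ k, charDegree χ = (Kn (P.lowerCentralSeries (i + 1)) (P.lowerCentralSeries (i + 2))).index * p ^ k := by
    intro χ c1 c2 c3
    have := Fintype.ofFinite P
    obtain ⟨φ, d1, d2⟩ := exists_irr_below P c1
    have d2 : ov P χ φ := by convert d2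
    have d3 := const_kr c1.isCharacter c2 d1 d2
    obtain ⟨μ, hl⟩ := exists_Ly (lcs_le P (i + 1)) d1 fun u y hu => d3 _ (commutator_mem_commutator hu y.2)
    have m : μ ∈ Tr _ (P.lowerCentralSeries (i + 2)) := fun n hn => (Ly.apply_eq_iff d1 hl n).1 (d3 _ hn)
    have m1 : μ ≠ 1 := fun e => c3 (kr_of_const (lcs_le P _) c1 d1 d2 fun x hx =>
      (Ly.apply_eq_iff d1 hl ⟨x, hx⟩).2 (by rw [e, map_one]))
    obtain ⟨k, hk⟩ := exists_charDegree_eq_pow h.hp h.pP d1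
    have e := h.deg d1 c1 d2
    refine ⟨fun c => ne_one d1 hl m1 (Nat.eq_one_of_mul_eq_one_left (e.symm.trans c)), k, ?_⟩
    rw [e, hk, hi φ μ d1 hl m1 m, le_antisymm (hs μ m m1) (le_inr m)]
  by_cases ex : ∃ χ : G → ℂ, IsIrrCharacter G χ ∧ Kr χ (P.lowerCentralSeries (i + 2)) ∧
      ¬ Kr χ (P.lowerCentralSeries (i + 1))
  · obtain ⟨ψ, c1, c2, c3⟩ := ex
    refine ⟨charDegree ψ, fun χ d1 d2 d3 => ?_⟩
    obtain ⟨n1, k, hk⟩ := key ψ c1 c2 c3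
    obtain ⟨n2, l, hl⟩ := key χ d1 d2 d3
    rcases le_total k l with e | e
    · exact (h.nd _ (charDegree_mem_cd c1) _ (charDegree_mem_cd d1) n1
        (by rw [hk, hl]; exact Nat.mul_dvd_mul_left _ (pow_dvd_pow p e))).symm
    · exact h.nd _ (charDegree_mem_cd d1) _ (charDegree_mem_cd c1) n2
        (by rw [hk, hl]; exact Nat.mul_dvd_mul_left _ (pow_dvd_pow p e))
  · exact ⟨0, fun χ d1 d2 d3 => absurd ⟨χ, d1, d2, d3⟩ ex⟩

/-- `Ly.inertia_eq`, `van`, `Lc_le`, `ne_one`. -/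
theorem in2 {μ : Lin (P.lowerCentralSeries 1)} (hφ : IsIrrCharacter P φ) (hl : Ly (lcs_le P _) φ μ)
    (h0 : μ ≠ 1) : inertia P φ = inertia _ (lin μ) := by
  exact Ly.inertia_eq hφ hl h.sup fun g hg =>
    h.Lc_le ⟨g.2, by_contra fun c => hg (h.van hφ (ne_one hφ hl h0) c)⟩

/-- `cl2_deg`: `φ(1)² = |P : D|`, `D = {x | ∀ y, μ ⁅x, y⁆ = 1} = {x | φ x ≠ 0} ≤ B P'` (`van`, `Lc_le`),
likewise `D'`. For `x = b u ∈ B P'`, `y = b' r` (`dec`): `⁅x, y⁆ ≡ ⁅b, b'⁆` mod `P 2` (`BR`), and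
`⁅b, b'⁆ ∈ 𝐂(H)`, where `μ = μ'`. So `D = D'`. -/
theorem deg2 {φ' : P → ℂ} {μ μ' : Lin (P.lowerCentralSeries 1)} (hφ : IsIrrCharacter P φ)
    (hφ' : IsIrrCharacter P φ') (hl : Ly (lcs_le P _) φ μ) (hl' : Ly (lcs_le P _) φ' μ') (h0 : μ ≠ 1)
    (h0' : μ' ≠ 1) (h1 : μ ∈ Tr _ (P.lowerCentralSeries 2)) (h1' : μ' ∈ Tr _ (P.lowerCentralSeries 2))
    (h2 : μ' / μ ∈ Tr _ 𝐂(H)) : charDegree φ = charDegree φ' := by
  have m1 : ∀ x y : P, ((⁅x, y⁆ : P) : G) ∈ P.lowerCentralSeries 1 := fun x y => commutator_mem_commutator x.2 y.2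
  have cl : ∀ {φ : P → ℂ} {μ : Lin (P.lowerCentralSeries 1)}, IsIrrCharacter P φ → Ly (lcs_le P _) φ μ → μ ≠ 1 →
      μ ∈ Tr _ (P.lowerCentralSeries 2) → ∃ D : Subgroup P, charDegree φ ^ 2 = D.index ∧
        (∀ x, x ∈ D ↔ ∀ y, ev ⟨_, m1 x y⟩ μ = 1) ∧ ∀ x ∈ D, (x : G) ∈ (P ⊓ 𝐂(H)) ⊔ P.lowerCentralSeries 1 := by
    intro φ μ c1 c2 c3 c4
    obtain ⟨D, d1, d2, d3⟩ := cl2_deg c1 fun x y z =>
      (Ly.apply_eq_iff c1 c2 ⟨_, m1 _ z⟩).2 (c4 _ (commutator_mem_commutator (m1 x y) z.2))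
    exact ⟨D, d1, fun x => (d2 x).trans (forall_congr' fun y => Ly.apply_eq_iff c1 c2 ⟨_, m1 x y⟩), fun x hx =>
      h.Lc_le ⟨x.2, by_contra fun c => (d3 x).1 hx (h.van c1 (ne_one c1 c2 c3) c)⟩⟩
  obtain ⟨D, d1, d2, d3⟩ := cl hφ hl h0 h1
  obtain ⟨D', d1', d2', d3'⟩ := cl hφ' hl' h0' h1'
  have b1 : ⁅P ⊓ 𝐂(H), P ⊓ 𝐂(H)⁆ ≤ P.lowerCentralSeries 1 := commutator_mono inf_le_left inf_le_left
  have b2 : ⁅P ⊓ 𝐂(H), P ⊓ 𝐂(H)⁆ ≤ 𝐂(H) := (commutator_le_self _).trans inf_le_right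
  have : (⁅P ⊓ 𝐂(H), P ⊓ 𝐂(H)⁆ ⊔ P.lowerCentralSeries 2).Normal := by
    rw [← normalizer_eq_top_iff, eq_top_iff, ← h.sup]
    exact sup_le (Coprime.le_normalizer_of_commutator_le (sup_le b1 (P.lowerCentralSeries_antitone one_le_two))
      le_sup_right) (Coprime.le_normalizer_sup ((le_centralizer_iff.1 b2).trans (centralizer_le_normalizer _))
        le_normalizer_of_normal)
  have j1 : ⁅(P ⊓ 𝐂(H)) ⊔ P.lowerCentralSeries 1, P⁆ ≤ ⁅P ⊓ 𝐂(H), P ⊓ 𝐂(H)⁆ ⊔ P.lowerCentralSeries 2 := by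
    refine sup_comm_le ((commutator_mono le_rfl h.le_BR).trans ?_) le_sup_right
    rw [Subgroup.commutator_comm]
    exact sup_comm_le le_sup_left ((Subgroup.commutator_comm _ _).le.trans (h.BR.trans le_sup_right))
  have j2 : ⁅P ⊓ 𝐂(H), P ⊓ 𝐂(H)⁆ ⊔ P.lowerCentralSeries 2 ≤ (μ' / μ).hom.ker.map (P.lowerCentralSeries 1).subtype :=
    sup_le (fun n hn => ⟨⟨n, b1 hn⟩, Units.ext (h2 _ (b2 hn)), rfl⟩) fun n hn =>
      ⟨⟨n, P.lowerCentralSeries_antitone one_le_two hn⟩, Units.ext (div_mem h1' h1 _ hn), rfl⟩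
  have key : ∀ x : P, (x : G) ∈ (P ⊓ 𝐂(H)) ⊔ P.lowerCentralSeries 1 → ∀ y, ev ⟨_, m1 x y⟩ μ' = ev ⟨_, m1 x y⟩ μ := by
    intro x hx y
    obtain ⟨n, hn, e⟩ := j2 (j1 (commutator_mem_commutator hx y.2))
    obtain rfl : n = ⟨_, m1 x y⟩ := Subtype.ext e
    rw [← div_eq_one_iff_eq (ev_ne_zero μ _), ← map_div]
    exact congrArg Units.val hn
  obtain rfl : D = D' := Subgroup.ext fun x =>
    ⟨fun hx => (d2' x).2 fun y => (key x (d3 x hx) y).trans ((d2 x).1 hx y),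
      fun hx => (d2 x).2 fun y => (key x (d3' x hx) y).symm.trans ((d2' x).1 hx y)⟩
  exact Nat.pow_left_injective two_ne_zero (d1.trans d1'.symm)

theorem sr2 : Sr (P.lowerCentralSeries 1) (P.lowerCentralSeries 2) :=
  h.sr_lev 0 (fun _ _ c1 c2 c3 _ => h.in2 c1 c2 c3) fun _ _ _ _ => h.deg2

/-- `P 1 ≰ P 2` (`le_of_le_sup` with `J = ⊥`), `sep`, `exists_over`, `in2`, `sr2`. -/
theorem exists2 (h0 : ⁅P, P⁆ ≠ ⊥) : ∃ φ : P → ℂ, IsIrrCharacter P φ ∧ charDegree φ ≠ 1 ∧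
    (∀ g : P, (g : G) ∈ P.lowerCentralSeries 2 → φ g = φ 1) ∧
      inertia P φ = Kn (P.lowerCentralSeries 1) (P.lowerCentralSeries 2) := by
  obtain ⟨x, hx, hx'⟩ := SetLike.not_le_iff_exists.1 fun c : P.lowerCentralSeries 1 ≤ P.lowerCentralSeries 2 =>
    h0 (le_bot_iff.1 (le_of_le_sup h.hp h.pP (J := ⊥) (i := 1) (c.trans le_sup_right)))
  obtain ⟨a, ha, e⟩ := sep (X := P.lowerCentralSeries 1) (Y := P.lowerCentralSeries 2)
    (commutator_mono le_rfl (lcs_le P 1)) (x := ⟨x, hx⟩) hx'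
  have a1 : a ≠ 1 := fun c => e (by rw [c, map_one])
  obtain ⟨φ, c1, c2⟩ := exists_over (lcs_le P _) ((le_Kn 1).trans (le_inr ha))
  exact ⟨φ, c1, ne_one c1 c2 a1, fun g hg => (Ly.apply_eq_iff c1 c2
    ⟨g, P.lowerCentralSeries_antitone one_le_two hg⟩).2 (ha _ hg),
      (h.in2 c1 c2 a1).trans (le_antisymm (h.sr2 a ha a1) (le_inr ha))⟩

end Al

end Cfsg.Lib.Nd4
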