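import Cfsg.Agent.Lib.Nd4.L4
import Cfsg.Agent.Lib.Lie.Assoc

/-!
# Camina-type `p`-groups: from groups to the Lie theorems `L3.two_le`, `L3.four`
-/

set_option autoImplicit false

namespace Cfsg.Lib.Nd4

open Subgroup
open scoped commutatorElement

variable {G : Type*} [Group G]

/-- With `R i = R.lowerCentralSeries i` (`R 0 = R`, `R 1 = R'`): for `u ∈ R i \ R (i+1)` the
commutators `⁅u, R⁆` cover `R (i+1)` modulo `R j`. -/
def Cv (R : Subgroup G) (i j : ℕ) : Prop :=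
  ∀ u ∈ R.lowerCentralSeries i, u ∉ R.lowerCentralSeries (i + 1) →
    ∀ z ∈ R.lowerCentralSeries (i + 1), ∃ g ∈ R, z⁻¹ * ⁅u, g⁆ ∈ R.lowerCentralSeries j

/-- Biadditive maps of `ZMod p`-modules. -/
def mk2 (p : ℕ) {A B C : Type*} [AddCommGroup A] [AddCommGroup B] [AddCommGroup C] [Module (ZMod p) A]
    [Module (ZMod p) B] [Module (ZMod p) C] (f : A → B → C) (h1 : ∀ a a' b, f (a + a') b = f a b + f a' b)
    (h2 : ∀ a b b', f a (b + b') = f a b + f a b') : A →ₗ[ZMod p] B →ₗ[ZMod p] C :=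
  LinearMap.mk₂ _ f h1 (fun c a b => ZMod.map_smul (AddMonoidHom.mk' (f · b) (h1 · · b)) c a) h2
    fun c a b => ZMod.map_smul (AddMonoidHom.mk' (f a) (h2 a)) c b

section gr

open Cfsg.Lib.Lie Cfsg.Lib.Lie.Ser

variable (p : ℕ) (S : Ser G) [Module (ZMod p) S.Gr] {i j k : ℕ} {g x : G}

/-- The graded pieces. -/
noncomputable def gr (i : ℕ) : Submodule (ZMod p) S.Gr := AddSubgroup.toZModSubmodule p
  { carrier := {x | ∃ g ∈ S.H i, S.sym i g = x}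
    add_mem' := by rintro _ _ ⟨g, hg, rfl⟩ ⟨h, hh, rfl⟩; exact ⟨_, mul_mem hg hh, sym_mul hg hh⟩
    zero_mem' := ⟨1, one_mem _, sym_one⟩
    neg_mem' := by rintro _ ⟨g, hg, rfl⟩; exact ⟨_, inv_mem hg, sym_inv hg⟩ }

/-- The class of an element. -/
noncomputable def sy (i : ℕ) (g : G) : gr p S i :=
  ⟨S.sym i g, (em (g ∈ S.H i)).elim (fun h => ⟨g, h, rfl⟩) fun h => sym_of_not h ▸ zero_mem _⟩

/-- The bracket on the graded pieces. -/
noncomputable def br (i j k : ℕ) (e : i + j + 1 = k := by rfl) : gr p S i →ₗ[ZMod p] gr p S j →ₗ[ZMod p] gr p S k :=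
  mk2 p (fun x y => ⟨⁅x.1, y.1⁆, by
    obtain ⟨_, g, hg, rfl⟩ := x
    obtain ⟨_, h, hh, rfl⟩ := y
    exact e ▸ ⟨_, S.comm hg hh, (lie_sym hg hh).symm⟩⟩) (fun _ _ _ => Subtype.ext (add_lie ..))
    fun _ _ _ => Subtype.ext (lie_add ..)

variable {p S}

theorem br_coe (e : i + j + 1 = k) (a : gr p S i) (b : gr p S j) : (br p S i j k e a b).1 = ⁅a.1, b.1⁆ := rfl

theorem br_sy (e : i + j + 1 = k) (hg : g ∈ S.H i) (hx : x ∈ S.H j) :
    br p S i j k e (sy p S i g) (sy p S j x) = sy p S k ⁅g, x⁆ := Subtype.ext (e ▸ lie_sym hg hx)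

theorem sy_surj (a : gr p S i) : ∃ g ∈ S.H i, sy p S i g = a := let ⟨g, hg, e⟩ := a.2; ⟨g, hg, Subtype.ext e⟩

theorem sy_mul (hg : g ∈ S.H i) (hx : x ∈ S.H i) : sy p S i (g * x) = sy p S i g + sy p S i x :=
  Subtype.ext (sym_mul hg hx)

theorem sy_inv (hg : g ∈ S.H i) : sy p S i g⁻¹ = -sy p S i g := Subtype.ext (sym_inv hg)

theorem sy_zero (hg : g ∈ S.H i) : sy p S i g = 0 ↔ g ∈ S.H (i + 1) :=
  ⟨fun h => mem_of_sym_eq_zero hg (congrArg Subtype.val h), fun h => Subtype.ext (sym_of_succ h)⟩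

theorem sy_eq (hg : g ∈ S.H i) (h : g⁻¹ * x ∈ S.H (i + 1)) : sy p S i x = sy p S i g := by
  have := S.anti i.le_succ h
  rw [← mul_inv_cancel_left g x, sy_mul hg this, (sy_zero this).2 h, add_zero]

instance gr_finite [Finite G] : Finite (gr p S i) :=
  .of_surjective (sy p S i) fun a => let ⟨g, _, e⟩ := sy_surj a; ⟨g, e⟩

theorem gr_nontrivial (h : ¬ S.H i ≤ S.H (i + 1)) : Nontrivial (gr p S i) :=
  let ⟨g, a, b⟩ := SetLike.not_le_iff_exists.1 h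
  ⟨⟨_, _, fun e => b ((sy_zero a).1 e)⟩⟩

end gr

section l3

open Cfsg.Lib.Lie Cfsg.Lib.Lie.Ser

variable {R : Subgroup G} {p : ℕ}

theorem lcs_step {i : ℕ} (h : R.lowerCentralSeries i ≤ R.lowerCentralSeries (i + 1)) :
    R.lowerCentralSeries (i + 1) ≤ R.lowerCentralSeries (i + 2) := commutator_mono h le_rfl

theorem Cv.surj [Module (ZMod p) (lcsSer R).Gr] {i j : ℕ} (h : Cv R i j) (hj : i + 2 ≤ j) (a : gr p (lcsSer R) i)
    (ha : a ≠ 0) : Function.Surjective (br p (lcsSer R) i 0 (i + 1) rfl a) := fun z => by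
  obtain ⟨u, hu, rfl⟩ := sy_surj a
  obtain ⟨z, hz, rfl⟩ := sy_surj z
  obtain ⟨g, hg, e⟩ := h u hu (fun k => ha ((sy_zero hu).2 k)) z hz
  exact ⟨sy p _ 0 g, (br_sy rfl hu hg).trans (sy_eq hz ((lcsSer R).anti hj e))⟩

/-- The first three factors of the lower central series. -/
noncomputable def camL3 [Fact p.Prime] [Module (ZMod p) (lcsSer R).Gr] (h1 : Cv R 0 3) (h2 : Cv R 1 3) :
    L3 (ZMod p) (gr p (lcsSer R) 0) (gr p (lcsSer R) 1) (gr p (lcsSer R) 2) where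
  b := br p _ 0 0 1
  c := br p _ 1 0 2
  alt a := Subtype.ext (lie_self a.1)
  J1 x y z := Subtype.ext (by
    change ⁅⁅x.1, y.1⁆, z.1⁆ + ⁅⁅y.1, z.1⁆, x.1⁆ + ⁅⁅z.1, x.1⁆, y.1⁆ = 0
    rw [← lie_skew ⁅x.1, y.1⁆, ← lie_skew ⁅y.1, z.1⁆, ← lie_skew ⁅z.1, x.1⁆, ← neg_add, ← neg_add, lie_jacobi,
      neg_zero])
  g1 := h1.surj (by omega)
  g2 := h2.surj le_rfl
  N S T0 hS hT := by
    choose r r0 rs using fun a : S => sy_surj a.1
    let Q : G → Prop := fun g => g ∈ (lcsSer R).H 0 ∧ sy p (lcsSer R) 0 g ∈ S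
    let τ : G → G → gr p (lcsSer R) 2 ⧸ T0 := fun g x => T0.mkQ (sy p (lcsSer R) 2 ⁅g, x⁆)
    have rQ : ∀ a, Q (r a) := fun a => ⟨r0 a, rs a ▸ a.2⟩
    have c2 : ∀ {g x}, Q g → Q x → ⁅g, x⁆ ∈ (lcsSer R).H 2 := fun {g x} hg hx =>
      (sy_zero (p := p) ((lcsSer R).comm hg.1 hx.1)).1 ((br_sy rfl hg.1 hx.1).symm.trans (by
        by_cases e : sy p (lcsSer R) 0 g = 0
        · rw [e, map_zero, LinearMap.zero_apply]
        · exact (hS _ hg.2 e).ge hx.2))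
    have ml : ∀ {g h x}, Q g → Q h → Q x → τ (g * h) x = τ g x + τ h x := fun {g h x} hg hh hx => by
      rw [← map_add, add_comm, show sy p (lcsSer R) 2 ⁅h, x⁆ = sy p (lcsSer R) 2 (g * ⁅h, x⁆ * g⁻¹) from
        Subtype.ext (sym_conj hg.1 (c2 hh hx)).symm, ← sy_mul (conj_mem hg.1 (c2 hh hx)) (c2 hg hx)]
      simp only [τ]
      congr 2
      group
    have sk : ∀ {g x}, Q g → Q x → τ x g = -τ g x := fun {g x} hg hx => by
      rw [← map_neg, ← sy_inv (c2 hg hx), commutatorElement_inv]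
    have wd : ∀ {g g' x}, Q g → Q g' → Q x → sy p (lcsSer R) 0 g' = sy p (lcsSer R) 0 g → τ g' x = τ g x := fun {g g' x} hg hg' hx e => by
      have m := mul_mem (inv_mem hg.1) hg'.1
      have z : sy p (lcsSer R) 0 (g⁻¹ * g') = 0 := by rw [sy_mul (inv_mem hg.1) hg'.1, sy_inv hg.1, e, neg_add_cancel]
      rw [← mul_inv_cancel_left g g', ml hg ⟨m, z ▸ zero_mem _⟩ hx, add_eq_left]
      refine (Submodule.Quotient.mk_eq_zero _).2 ?_
      rw [← br_sy (i := 1) (j := 0) rfl ((sy_zero m).1 z) hx.1]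
      exact hT _ _ hx.2
    have ad : ∀ a a' b, τ (r (a + a')) (r b) = τ (r a) (r b) + τ (r a') (r b) := fun a a' b => by
      have e := sy_mul (p := p) (r0 a) (r0 a')
      rw [rs, rs] at e
      rw [← ml (rQ a) (rQ a') (rQ b)]
      exact wd ⟨mul_mem (r0 a) (r0 a'), e ▸ (a + a').2⟩ (rQ _) (rQ b) ((rs _).trans e.symm)
    refine ⟨mk2 p (fun a b => τ (r a) (r b)) ad fun a b b' => by
      rw [sk (rQ _) (rQ a), ad, neg_add, ← sk (rQ _) (rQ a), ← sk (rQ _) (rQ a)], fun a => ?_, fun a ha z => ?_⟩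
    · change T0.mkQ (sy p (lcsSer R) 2 ⁅r a, r a⁆) = 0
      rw [commutatorElement_self, (sy_zero (one_mem _)).2 (one_mem _), map_zero]
    obtain ⟨z, rfl⟩ := T0.mkQ_surjective z
    obtain ⟨z, hz, rfl⟩ := sy_surj z
    have a0 : a.1 ≠ 0 := fun e => ha (Subtype.ext e)
    obtain ⟨x, hx, e⟩ := h1 _ (r0 a) (fun k => a0 ((rs a).symm.trans ((sy_zero (r0 a)).2 k))) z ((lcsSer R).anti one_le_two hz)
    have x2 : ⁅r a, x⁆ ∈ (lcsSer R).H 2 :=
      (mul_mem_cancel_left (inv_mem hz)).1 ((lcsSer R).anti (Nat.le_succ 2) e)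
    have xQ : Q x := ⟨hx, (hS _ a.2 a0).le (LinearMap.mem_ker.2 (by
      rw [← rs a, br_sy (i := 0) (j := 0) (k := 1) rfl (r0 a) hx]
      exact (sy_zero ((lcsSer R).anti one_le_two x2)).2 x2))⟩
    refine ⟨⟨_, xQ.2⟩, ?_⟩
    change τ (r a) (r _) = _
    rw [sk (rQ _) (rQ a), wd xQ (rQ _) (rQ a) (rs _), ← sk xQ (rQ a)]
    exact congrArg T0.mkQ (sy_eq hz e)

variable [Finite G] [Fact p.Prime] [Module (ZMod p) (lcsSer R).Gr] (h1 : Cv R 0 3) (h2 : Cv R 1 3)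
include p h1 h2

theorem cam3' {u : G} (hu : u ∈ R.lowerCentralSeries 1)
    (hc : R.lowerCentralSeries 1 ≤ zpowers u ⊔ R.lowerCentralSeries 2)
    (n2 : ¬ R.lowerCentralSeries 2 ≤ R.lowerCentralSeries 3) : False := by
  have := gr_nontrivial (p := p) (S := lcsSer R) (i := 1) fun h => n2 (lcs_step h)
  have := gr_nontrivial (p := p) (S := lcsSer R) (i := 2) n2
  let X : Subgroup G :=
    { carrier := {z | z ∈ (lcsSer R).H 1 ∧ sy p (lcsSer R) 1 z ∈ ZMod p ∙ sy p (lcsSer R) 1 u}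
      mul_mem' := fun a b => ⟨mul_mem a.1 b.1, by rw [sy_mul a.1 b.1]; exact add_mem a.2 b.2⟩
      one_mem' := ⟨one_mem _, by rw [(sy_zero (one_mem _)).2 (one_mem _)]; exact zero_mem _⟩
      inv_mem' := fun a => ⟨inv_mem a.1, by rw [sy_inv a.1]; exact neg_mem a.2⟩ }
  have hX : R.lowerCentralSeries 1 ≤ X := hc.trans (sup_le (zpowers_le.2 ⟨hu, Submodule.mem_span_singleton_self _⟩)
    fun z hz => have a : z ∈ (lcsSer R).H 1 := R.lowerCentralSeries_antitone one_le_two hz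
      ⟨a, by rw [(sy_zero a).2 hz]; exact zero_mem _⟩)
  have k := finrank_le_one (R := ZMod p) (sy p (lcsSer R) 1 u) fun w => by
    obtain ⟨z, hz, rfl⟩ := sy_surj w
    exact Submodule.mem_span_singleton.1 (hX hz).2
  have := (camL3 (p := p) h1 h2).two_le
  omega

theorem cam4' (h3 : Cv R 2 4) (n3 : ¬ R.lowerCentralSeries 3 ≤ R.lowerCentralSeries 4) : False := by
  have := gr_nontrivial (p := p) (S := lcsSer R) (i := 1) fun h => n3 (lcs_step (lcs_step h))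
  have := gr_nontrivial (p := p) (S := lcsSer R) (i := 2) fun h => n3 (lcs_step h)
  have := gr_nontrivial (p := p) (S := lcsSer R) (i := 3) n3
  refine (camL3 (p := p) h1 h2).four (br p _ 2 0 3) (br p _ 1 1 3) (fun u => Subtype.ext (lie_self u.1))
    (fun u x y => Subtype.ext ?_) (h3.surj le_rfl)
  change ⁅u.1, ⁅x.1, y.1⁆⁆ = ⁅⁅u.1, x.1⁆, y.1⁆ - ⁅⁅u.1, y.1⁆, x.1⁆
  rw [leibniz_lie, sub_eq_add_neg, lie_skew]

end l3

variable [Finite G] {R : Subgroup G} {p : ℕ}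

/-- `R i / R (i+1)` is elementary abelian for `i ≤ 3`, if `R 1 ≠ R 2`. Take `a ∉ R 1` with `a ^ p ∈ R 1`
(exists since `R ≠ R 1`, `p`-group): every `z ∈ R 1` is `⁅a, g⁆` mod `R 2`, and
`⁅a, g⁆ ^ p ≡ ⁅a ^ p, g⁆ ∈ R 2` (use `Ser.sym`: `sym_comm_mul_left`, `sym_pow`, `mem_of_sym_eq_zero` for
`Lie.lcsSer R`). For `a ∈ R`: `⁅a ^ p, g⁆ ≡ ⁅a, g⁆ ^ p ∈ R 2` for all `g`, so `a ^ p ∈ R 1` (else `h1`
gives `R 1 ≤ R 2`). For `i + 1 ≥ 2`: `R (i+1)` is generated mod `R (i+2)` by `⁅u, g⁆`, `u ∈ R i`, and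
`p • sym ⁅u, g⁆ = sym ⁅u ^ p, g⁆ = 0` (induction, `closure_induction`). -/
theorem Cv.pow_mem (hp : p.Prime) (hR : IsPGroup p R) (h1 : Cv R 0 3)
    (hne : ¬ R.lowerCentralSeries 1 ≤ R.lowerCentralSeries 2) (i : ℕ) {x : G}
    (hx : x ∈ R.lowerCentralSeries i) : x ^ p ∈ R.lowerCentralSeries (i + 1) := by
  have pw : ∀ {j u g}, u ∈ (Lie.lcsSer R).H j → g ∈ (Lie.lcsSer R).H 0 →
      p • (Lie.lcsSer R).sym (j + 1) ⁅u, g⁆ = ⁅(Lie.lcsSer R).sym j (u ^ p), (Lie.lcsSer R).sym 0 g⁆ :=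
    fun hu hg => by rw [Lie.Ser.sym_pow hu, nsmul_lie, Lie.Ser.lie_sym hu hg]
  have cv : ∀ u ∈ R, u ∉ R.lowerCentralSeries 1 → ∀ z ∈ R.lowerCentralSeries 1,
      ∃ g ∈ R, (Lie.lcsSer R).sym 1 z = (Lie.lcsSer R).sym 1 ⁅u, g⁆ := fun u hu n z hz => by
    obtain ⟨g, hg, e⟩ := h1 u hu n z hz
    have e := R.lowerCentralSeries_antitone (Nat.le_succ 2) e
    refine ⟨g, hg, ?_⟩
    rw [← mul_inv_cancel_left z ⁅u, g⁆, Lie.Ser.sym_mul hz (R.lowerCentralSeries_antitone one_le_two e),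
      Lie.Ser.sym_of_succ (i := 1) (g := z⁻¹ * ⁅u, g⁆) e, add_zero]
  obtain ⟨a, ha, a1, ap⟩ : ∃ a ∈ R, a ∉ R.lowerCentralSeries 1 ∧ a ^ p ∈ R.lowerCentralSeries 1 := by
    by_contra! k
    refine hne (lcs_step (i := 0) fun b hb => by_contra fun n => ?_)
    obtain ⟨m, hm⟩ := hR ⟨b, hb⟩
    have : ∀ m, b ^ p ^ m ∉ R.lowerCentralSeries 1 := fun m => by
      induction m with
      | zero => simpa using n
      | succ m ih => rw [pow_succ, pow_mul]; exact k _ (R.pow_mem hb _) ih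
    exact this m (by rw [show b ^ p ^ m = 1 from congrArg Subtype.val hm]; exact one_mem _)
  induction i generalizing x with
  | zero =>
    by_contra n
    refine hne fun z hz => ?_
    obtain ⟨g, hg, e⟩ := cv _ (R.pow_mem hx p) n z hz
    obtain ⟨g', hg', e'⟩ := cv a ha a1 _ ((Lie.lcsSer R).comm (i := 0) (j := 0) hx hg)
    refine Lie.Ser.mem_of_sym_eq_zero (S := Lie.lcsSer R) hz ?_
    rw [e, ← Lie.Ser.lie_sym (i := 0) (j := 0) (R.pow_mem hx p) hg, ← pw hx hg, e', pw (j := 0) ha hg',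
      Lie.Ser.sym_of_succ (i := 0) ap, zero_lie]
  | succ i ih =>
    refine Lie.Ser.mem_of_sym_eq_zero (S := Lie.lcsSer R) (Subgroup.pow_mem _ hx p) ?_
    rw [Lie.Ser.sym_pow hx]
    rw [Subgroup.lowerCentralSeries_succ, Subgroup.commutator_def] at hx
    induction hx using closure_induction with
    | mem x hx =>
      obtain ⟨u, hu, g, hg, rfl⟩ := hx
      rw [pw hu hg, Lie.Ser.sym_of_succ (ih hu), zero_lie]
    | one => rw [Lie.Ser.sym_one, smul_zero]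
    | mul x y hx hy h h' => rw [Lie.Ser.sym_mul hx hy, smul_add, h, h', add_zero]
    | inv x hx h => rw [Lie.Ser.sym_inv hx, smul_neg, h, neg_zero]

theorem Cv.smul_eq (hp : p.Prime) (hR : IsPGroup p R) (h1 : Cv R 0 3)
    (hne : ¬ R.lowerCentralSeries 1 ≤ R.lowerCentralSeries 2) (x : (Lie.lcsSer R).Gr) : p • x = 0 :=
  Lie.Ser.induction (p := fun x => p • x = 0) x (smul_zero _)
    (fun i g hg => by rw [← Lie.Ser.sym_pow hg, Lie.Ser.sym_of_succ (h1.pow_mem hp hR hne i hg)])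
    fun x y hx hy => by rw [smul_add, hx, hy, add_zero]

/-- Suppose not. `S = Lie.lcsSer R`; let `gr i : AddSubgroup S.Gr` be `{S.sym i g | g ∈ R i}` (finite,
killed by `p` by `Cv.pow_mem`, so a `ZMod p`-module via `AddCommGroup.zmodModule`); `W, U, T = gr 0, gr 1,
gr 2`, `b, c` the Lie bracket (`lie_sym`, `AddMonoidHom.toZModLinearMap`), `J1` is the Jacobi identity,
`g1, g2` are `h1, h2`. `N`: for `s ∈ S` choose `g ∈ R` with `sym 0 g = s`; for `g, g'` over `S`,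
`⁅g, g'⁆ ∈ R 2` as `b s s' = 0`; put `t s s' = mk (sym 2 ⁅g, g'⁆)`. It is additive in each variable since
`⁅g h, x⁆ = g ⁅h, x⁆ g⁻¹ ⁅g, x⁆` (`sym_conj`), and does not depend on the choice since for `u ∈ R 1`,
`sym 2 ⁅u, x⁆ = c (sym u) (sym x) ∈ T0`. Onto: for `z ∈ R 2`, `h1` gives `g` with `⁅a, g⁆ ≡ z` mod `R 3`,
then `b a g = 0`, `sym 0 g ∈ ker (b a) = S`. Best: one `def`/lemma building the `L3` structure, used in
both theorems. Here `L3.two_le` contradicts that `U` is generated by `sym 1 u`. -/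
theorem cam3 (hp : p.Prime) (hR : IsPGroup p R) (h1 : Cv R 0 3) (h2 : Cv R 1 3) {u : G}
    (hu : u ∈ R.lowerCentralSeries 1)
    (hc : R.lowerCentralSeries 1 ≤ zpowers u ⊔ R.lowerCentralSeries 2) :
    R.lowerCentralSeries 2 ≤ R.lowerCentralSeries 3 := by
  by_contra n2
  have := Fact.mk hp
  let := AddCommGroup.zmodModule (h1.smul_eq hp hR fun h => n2 (lcs_step h))
  exact cam3' (p := p) h1 h2 hu hc n2

/-- Suppose not; then `R 2 ≰ R 3`, `R 1 ≰ R 2`. Add `Y = gr 3`, `e, f` the bracket, `J2` is Jacobi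
(`⁅u, ⁅x, y⁆⁆ = ⁅⁅u, x⁆, y⁆ - ⁅⁅u, y⁆, x⁆`), and apply `L3.four`. -/
theorem cam4 (hp : p.Prime) (hR : IsPGroup p R) (h1 : Cv R 0 3) (h2 : Cv R 1 3) (h3 : Cv R 2 4) :
    R.lowerCentralSeries 3 ≤ R.lowerCentralSeries 4 := by
  by_contra n3
  have := Fact.mk hp
  let := AddCommGroup.zmodModule (h1.smul_eq hp hR fun h => n3 (lcs_step (lcs_step h)))
  exact cam4' (p := p) h1 h2 h3 n3

end Cfsg.Lib.Nd4
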