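import Cfsg.Agent.Lib.Nd4.Al1
import Cfsg.Agent.Lib.Nd4.Cam

/-!
# Case α: from semiregularity at one level to the covering property
-/

set_option autoImplicit false

namespace Cfsg.Lib.Nd4
open Cfsg.Lib.Char Cfsg.Lib.CharDeg Cfsg.Lib.Clifford Cfsg.Lib.Induce Cfsg.Lib.Core Cfsg.Lib.Gar
  Cfsg.Lib.RelGraph Cfsg.Lib.Nda Cfsg.Lib.BG Subgroup MulAction
open scoped commutatorElement

variable {G : Type*} [Group G] [Fintype G] {N P H : Subgroup G} [N.Normal] [P.Normal] {p : ℕ}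
  {χ : G → ℂ} {φ : P → ℂ}

omit [Fintype G] in
theorem al3_step {U V : Subgroup G} [U.Normal] {κ : Lin U} (hκ : κ ∈ Tr U V) {b y : G} (hb : cj b κ = κ)
    (hy : y ∈ V) (w z : U) (e : (z : G) = b * w * b⁻¹ * y) : ev z κ = ev w κ := by
  have m := Normal.conj_mem inferInstance _ w.2 b
  have m' : y ∈ U := (mul_mem_cancel_left m).1 (e ▸ z.2)
  rw [show z = ⟨_, m⟩ * ⟨y, m'⟩ from Subtype.ext e, ev_mul, hκ ⟨y, m'⟩ hy, mul_one, ← ev_cj, hb]

omit [Fintype G] in
theorem al3_ext {U : Subgroup G} {a b : Lin U} (e : ∀ u, ev u a = ev u b) : a = b :=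
  lin_injective (funext e)

namespace Al
variable (h : Al G N P H p)
include h

/-- Write `P i = P.lowerCentralSeries i`, `R = G'`. Suppose `x ∈ Kn`, so `⁅x, u⁆ ∈ P (i+2)` for
`u ∈ P (i+1)` (`mem_Kn_iff`). For such `u`, `a = κ ⁅u, ·⁆ ∈ Lin R` (`exists_pair`) is trivial on
`N' = P 1` (`RegP.comm_lcs_le`) and fixed by `x`: `⁅u, x r x⁻¹⁆ = x ⁅x⁻¹ u x, r⁆ x⁻¹` and
`⁅x⁻¹ u x, r⁆ ≡ ⁅u, r⁆` mod `P (i+3)`. So `a = 1` (`fix_eq_one`), and `κ` is trivial on
`⁅P (i+1), R⁆ = R (i+2) = P (i+2)` (`lcs_eq`). -/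
theorem lev_a (i : ℕ) {κ : Lin (P.lowerCentralSeries (i + 2))}
    (hκ : κ ∈ Tr _ (P.lowerCentralSeries (i + 3))) (h0 : κ ≠ 1) {x : G} (hx : x ∉ N)
    (h1 : cj x κ = κ) : x ∉ Kn (P.lowerCentralSeries (i + 1)) (P.lowerCentralSeries (i + 2)) := by
  intro hk
  have k := (mem_Kn_iff (commutator_mono le_rfl (lcs_le P _))).1 (inv_mem hk)
  have m : ∀ u ∈ P.lowerCentralSeries (i + 1), ∀ s ∈ _root_.commutator G,
      ⁅u, s⁆ ∈ P.lowerCentralSeries (i + 2) := fun u hu s hs => commutator_mem_commutator hu (h.GP hs)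
  have c : P.lowerCentralSeries (i + 2) ≤ κ.hom.ker.map (P.lowerCentralSeries (i + 2)).subtype := by
    refine (h.lcs_eq (i + 1)).1.ge.trans (commutator_le.2 fun u hu r hr => ?_)
    rw [(h.lcs_eq i).1] at hu
    obtain ⟨a, ha⟩ := exists_pair hκ (m u hu) ((commutator_comm _ _).le.trans (commutator_mono le_rfl h.GP))
    have e : a = 1 := h.fix_eq_one hx (fun n hn => (ha n).trans (hκ _
      (RegP.comm_lcs_le P (i + 1) 1 (commutator_mem_commutator hu (h.NN.le hn))))) (al3_ext fun s => by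
        have z := k u hu
        have u' : x⁻¹ * u * x ∈ P.lowerCentralSeries (i + 1) := Normal.conj_mem' inferInstance _ hu x
        rw [ev_cj, ha, ha, al3_step hκ h1 (one_mem _) ⟨_, m _ u' s s.2⟩ _ (by
          simp only [commutatorElement_def]; group)]
        exact al3_step hκ (cj_of_mem z κ) (commutator_mem_commutator z (h.GP s.2)) _ _ (by
          simp only [commutatorElement_def]; group))
    exact ⟨⟨_, m u hu r hr⟩, Units.ext ((ha ⟨r, hr⟩).symm.trans (e ▸ map_one _)), rfl⟩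
  refine h0 (al3_ext fun u => ?_)
  obtain ⟨v, hv, e⟩ := c u.2
  rw [← show v = u from Subtype.ext e, map_one]
  exact congrArg Units.val hv

/-- `X = P (i+1)`, `⁅X, X⁆ ≤ P (i+3)`; `ν ∈ Tr X (P (i+3))` extends `κ` (`exists_ext`). Apply `pig` with
`Λ = Tr X (P (i+2))`, `S = {cj g ν / ν | g ∈ P}` (the range of a homomorphism `P →* Lin X`, as `P` acts
trivially on `Λ ∋ cj g ν / ν`; its value at `v` is `κ ⁅g, v⁆`), `T a = I(a ν) ⊔ P`, whose elements are
the `x = t g` with `cj x (a ν) = cj g (a ν) = a ν s`, `s ∈ S`. `N ≤ T a` (`le_inertia`-like: `N = P (N ∩ H)`,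
`N ∩ H` central). `T a ≰ N`: take `φ ∈ Irr P` over `a ν` (for `X.subgroupOf P`); it is not linear as
`κ ≠ 1` on `P (i+2) ≤ P'`; `x ∈ I(φ) \ N` (`nl`) maps `a ν` to another constituent, which is
`P`-conjugate (`exists_conjChar_eq_of_constituents_le`). `x ∈ T a` fixes `κ` (restrict to `P (i+2)`), so
normalizes `S` (`cj x (s g) = s (x⁻¹ g x)`), and `lev_a`, `hs` make `x ∉ N` fixed point free on `Λ`.
So `Λ ≤ S`; `sep` gives `a = s g` with `κ ⁅g, u⁆ ≠ 1`; `g = b r` (`dec`), `⁅b, u⁆ ∈ P (i+3)` (`lcs_eq`). -/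
theorem lev_b (i : ℕ) (hs : Sr (P.lowerCentralSeries (i + 1)) (P.lowerCentralSeries (i + 2)))
    {κ : Lin (P.lowerCentralSeries (i + 2))} (hκ : κ ∈ Tr _ (P.lowerCentralSeries (i + 3)))
    (h0 : κ ≠ 1) {u : G} (hu : u ∈ P.lowerCentralSeries (i + 1))
    (hu' : u ∉ P.lowerCentralSeries (i + 2)) :
    ∃ r ∈ _root_.commutator G, ∃ hz : ⁅u, r⁆ ∈ P.lowerCentralSeries (i + 2),
      ev (⟨_, hz⟩ : P.lowerCentralSeries (i + 2)) κ ≠ 1 := by
  classical
  have XP := lcs_le P (i + 1)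
  have UX : P.lowerCentralSeries (i + 2) ≤ P.lowerCentralSeries (i + 1) :=
    P.lowerCentralSeries_antitone (Nat.le_succ _)
  have WU : P.lowerCentralSeries (i + 3) ≤ P.lowerCentralSeries (i + 2) :=
    P.lowerCentralSeries_antitone (Nat.le_succ _)
  have XX : ⁅P.lowerCentralSeries (i + 1), P.lowerCentralSeries (i + 1)⁆ ≤ P.lowerCentralSeries (i + 3) :=
    (RegP.comm_lcs_le P _ _).trans (P.lowerCentralSeries_antitone (by omega))
  obtain ⟨ν, -, hν⟩ := exists_ext UX WU XX hκ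
  have cm : ∀ j, ∀ g ∈ P, ∀ v ∈ P.lowerCentralSeries j, ⁅g, v⁆ ∈ P.lowerCentralSeries (j + 1) :=
    fun j g hg v hv => (commutator_comm _ _).le (commutator_mem_commutator hg hv)
  have sv : ∀ g (hg : g ∈ P) (v : P.lowerCentralSeries (i + 1)),
      ev v (cj g ν / ν) = ev (⟨_, cm _ g hg v v.2⟩ : P.lowerCentralSeries (i + 2)) κ := fun g hg v => by
    rw [map_div, div_eq_iff (ev_ne_zero _ _), ← hν, ← ev_mul, ev_cj]
    exact congrArg (ev · ν) (Subtype.ext (show g * v * g⁻¹ = ⁅g, (v : G)⁆ * v by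
      rw [commutatorElement_def]; group))
  have sΛ : ∀ g ∈ P, cj g ν / ν ∈ Tr (P.lowerCentralSeries (i + 1)) (P.lowerCentralSeries (i + 2)) :=
    fun g hg v hv => (sv g hg v).trans (hκ _ (cm _ g hg v hv))
  have PK : ∀ g ∈ P, ∀ a ∈ Tr (P.lowerCentralSeries (i + 1)) (P.lowerCentralSeries (i + 2)), cj g a = a :=
    fun g hg => mem_Kn.1 (le_Kn _ hg)
  let f : P →* Lin (P.lowerCentralSeries (i + 1)) := MonoidHom.mk' (fun g => cj g.1 ν / ν) fun g g' => by
    have := PK _ g'.2 _ (sΛ _ g.2)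
    rw [map_div] at this
    rw [coe_mul, cj_mul, div_eq_iff_eq_mul.1 this, mul_div_assoc]
  have res : ∀ a ∈ Tr (P.lowerCentralSeries (i + 1)) (P.lowerCentralSeries (i + 2)),
      ∀ v : P.lowerCentralSeries (i + 2), ev (⟨v, UX v.2⟩ : P.lowerCentralSeries (i + 1)) (a * ν) = ev v κ :=
    fun a ha v => by rw [map_mul, ha _ v.2, one_mul, hν]
  have tt : ∀ a ∈ Tr (P.lowerCentralSeries (i + 1)) (P.lowerCentralSeries (i + 2)),
      ∀ x ∈ inertia _ (lin (a * ν)) ⊔ P, ∃ g : P, cj x (a * ν) = a * f g * ν := fun a ha x hx => by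
    obtain ⟨t, ht, g, hg, rfl⟩ := mem_sup_of_normal_right.1 hx
    refine ⟨⟨g, hg⟩, ?_⟩
    rw [cj_mul, mem_inertia_lin.1 ht, map_mul, PK g hg a ha, mul_assoc]
    exact congrArg _ (div_mul_cancel _ _).symm
  have fx : ∀ a ∈ Tr (P.lowerCentralSeries (i + 1)) (P.lowerCentralSeries (i + 2)),
      ∀ x ∈ inertia _ (lin (a * ν)) ⊔ P, cj x κ = κ := fun a ha x hx => al3_ext fun v => by
    obtain ⟨g, e⟩ := tt a ha x hx
    rw [← res _ (mul_mem ha (sΛ _ g.2)) v, ev_cj, ← res a ha]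
    exact congrArg (ev (⟨v, UX v.2⟩ : P.lowerCentralSeries (i + 1))) e
  have key := pig h.cyc (Tr (P.lowerCentralSeries (i + 1)) (P.lowerCentralSeries (i + 2))) f.range
    (fun g a ha => cj_mem_Tr g ha)
    (fun g hg a ha => mem_inertia_lin.1 (h.le_inertia (fun g hg => mem_inertia_lin.2 (PK g hg a ha)) hg))
    (fun a => inertia _ (lin (a * ν)) ⊔ P) (fun a ha => ⟨(h.eq_sup h.PN).le.trans (sup_le le_sup_right
      ((h.cenZ.trans ((center_le_centralizer _).trans (centralizer_le_inertia _ _))).trans le_sup_left)),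
      fun l => ?_⟩) (fun a ha x hx xn => ⟨?_, fun b hb e => by_contra fun b1 =>
        h.lev_a i hκ h0 xn (fx a ha x hx) (hs b hb b1 (mem_inertia_lin.2 e))⟩) fun a ha b hb x xa xb => ?_
  · obtain ⟨a, ha, a1⟩ := sep (XX.trans WU) (x := ⟨u, hu⟩) hu'
    obtain ⟨g, rfl⟩ := key ha
    obtain ⟨b, hb, r, hr, e⟩ := h.dec g.2
    refine ⟨r, hr, commutator_mem_commutator hu (h.GP hr), fun c => a1 ((sv _ g.2 _).trans ?_)⟩
    rw [al3_step hκ (mem_Kn.1 (le_Kn _ hb.1) κ hκ) ((h.lcs_eq i).2 (commutator_mem_commutator hb hu))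
      ⟨_, cm _ r (h.GP hr) u hu⟩ _ (by simp only [e, commutatorElement_def]; group)]
    have := ev_mul κ ⟨_, cm _ r (h.GP hr) u hu⟩ ⟨_, commutator_mem_commutator hu (h.GP hr)⟩
    rw [c, mul_one] at this
    rw [← this, ← ev_one κ]
    exact congrArg (ev · κ) (Subtype.ext (show ⁅r, u⁆ * ⁅u, r⁆ = 1 by
      simp only [commutatorElement_def]; group))
  · have := Fintype.ofFinite (P.lowerCentralSeries (i + 1))
    have := Fintype.ofFinite ((P.lowerCentralSeries (i + 1)).subgroupOf P)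
    obtain ⟨φ, p1, p2⟩ := exists_irr_above _ ((isIrrCharacter_subgroupOf_iff XP).2 (irr_lin (a * ν)))
    rw [classInner_res_subgroupOf XP] at p2
    have d : charDegree φ ≠ 1 := fun d => h0 (al3_ext fun v => by
      have o : φ 1 = 1 := p1.isCharacter.charDegree_eq_one_iff.1 d
      have e : (fun n : P.lowerCentralSeries (i + 1) => φ ⟨n, XP n.2⟩) = lin (a * ν) := by_contra fun n =>
        p2 (((isCharacter_res_le XP p1.isCharacter).isIrrCharacter_of_apply_one o).inner_eq_zero_of_ne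
          (irr_lin _) n)
      rw [map_one, ← res a ha, ← o]
      exact (congrFun e _).symm.trans (kr_lin p1.isCharacter d _
        (P.lowerCentralSeries_antitone (show 1 ≤ i + 2 by omega) v.2)))
    refine h.nl p1 d fun x hx => l ?_
    have p3 : classInner (fun n : P.lowerCentralSeries (i + 1) => φ ⟨n, XP n.2⟩)
        (conjChar _ x (lin (a * ν))) ≠ 0 := by
      rw [← classInner_conjChar _ x] at p2
      convert p2 using 2
      exact funext fun n => ((mem_inertia_iff P).1 hx ⟨n, XP n.2⟩).symm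
    obtain ⟨t, ht, e⟩ := exists_conjChar_eq_of_constituents_le _ XP p1 (irr_lin _)
      (isIrrCharacter_conjChar _ (irr_lin _) x) p2 p3
    rw [← inv_mul_cancel_right x t]
    exact mul_mem_sup ((conjChar_eq_conjChar_iff _).1 e.symm) ht
  · rintro _ ⟨g, rfl⟩
    refine ⟨⟨_, Normal.conj_mem' inferInstance _ g.2 x⟩, al3_ext fun v => ?_⟩
    rw [ev_cj]
    refine (sv _ (Normal.conj_mem' inferInstance _ g.2 x) _).trans (Eq.trans ?_ (sv _ g.2 _).symm)
    exact (al3_step hκ (fx a ha x hx) (one_mem _) _ _ (by simp only [commutatorElement_def]; group)).symm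
  · obtain ⟨g, e⟩ := tt a ha x xa
    obtain ⟨g', e'⟩ := tt b hb x xb
    refine ⟨g / g', ?_⟩
    rw [← mul_div_mul_right_eq_div a b ν, map_div (cj x), e, e', map_div, mul_div_mul_right_eq_div,
      mul_div_mul_right_eq_div, mul_div_mul_comm, mul_div_cancel_left]

/-- `J = {z | ∃ g ∈ R, z⁻¹ ⁅u, g⁆ ∈ P (i+3)}` is a subgroup containing `P (i+3)` (`g ↦ ⁅u, g⁆` is a
homomorphism modulo `P (i+3)`); if `z ∉ J`, `sep` gives `κ ∈ Tr (P (i+2)) J`, against `lev_b`. -/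
theorem cv_lev (i : ℕ) (hs : Sr (P.lowerCentralSeries (i + 1)) (P.lowerCentralSeries (i + 2))) :
    Cv (_root_.commutator G) (i + 1) (i + 3) := by
  intro u hu hu' z hz
  rw [(h.lcs_eq i).1] at hu
  rw [(h.lcs_eq (i + 1)).1] at hu' hz
  rw [(h.lcs_eq (i + 2)).1]
  have m : ∀ s ∈ _root_.commutator G, ⁅u, s⁆ ∈ P.lowerCentralSeries (i + 2) := fun s hs =>
    commutator_mem_commutator hu (h.GP hs)
  let f : _root_.commutator G →* G ⧸ P.lowerCentralSeries (i + 3) :=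
    MonoidHom.mk' (fun g => (⁅u, g.1⁆ : G)) fun g g' => by
      rw [← QuotientGroup.mk_mul, QuotientGroup.eq]
      rw [show ⁅u, (g * g').1⁆⁻¹ * (⁅u, g.1⁆ * ⁅u, g'.1⁆) = ⁅g.1, ⁅u, g'.1⁆⁻¹⁆ by
        simp only [coe_mul, commutatorElement_def]; group]
      exact (commutator_comm _ _).le (commutator_mem_commutator (h.GP g.2) (inv_mem (m _ g'.2)))
  have WJ : P.lowerCentralSeries (i + 3) ≤ f.range.comap (QuotientGroup.mk' _) := fun w hw =>
    ⟨1, (map_one f).trans ((QuotientGroup.eq_one_iff w).2 hw).symm⟩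
  by_contra c
  obtain ⟨κ, k1, k2⟩ := sep (X := P.lowerCentralSeries (i + 2)) (Y := f.range.comap (QuotientGroup.mk' _))
    ((commutator_mono le_rfl (lcs_le P _)).trans WJ) (x := ⟨z, hz⟩) fun ⟨g, e⟩ =>
      c ⟨g, g.2, QuotientGroup.eq.1 e.symm⟩
  obtain ⟨r, hr, hz', e⟩ := h.lev_b i hs (fun n hn => k1 n (WJ hn)) (by rintro rfl; exact k2 (map_one _)) hu hu'
  exact e (k1 _ ⟨⟨r, hr⟩, rfl⟩)

end Al

end Cfsg.Lib.Nd4
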