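import Cfsg.Agent.Lib.Nd4.Al2
import Cfsg.Agent.Lib.Nd4.Al3

/-!
# Case α: level three and the conclusion
-/

set_option autoImplicit false

namespace Cfsg.Lib.Nd4
open Cfsg.Lib.Char Cfsg.Lib.CharDeg Cfsg.Lib.Clifford Cfsg.Lib.Induce Cfsg.Lib.Core Cfsg.Lib.Gar
  Cfsg.Lib.RelGraph Cfsg.Lib.Nda Cfsg.Lib.BG Subgroup MulAction
open scoped commutatorElement

variable {G : Type*} [Group G] [Fintype G] {N P H : Subgroup G} [N.Normal] [P.Normal] {p : ℕ}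
  {χ : G → ℂ} {φ : P → ℂ}

namespace Al
variable (h : Al G N P H p)
include h

/-- `B = P ⊓ 𝐂(H)`, `P i = P.lowerCentralSeries i`. If `⁅b, r⁆ ∉ P 3` (it lies in `P 2` by `BR`) take
`κ ∈ Tr (P 2) (P 3)` nontrivial on it, `x` from `exists_fix`; `a = κ ⁅b, ·⁆ ∈ Lin G'` (`exists_pair`) is
trivial on `N' = P 1` (`lcs_eq 0`) and fixed by `x ∈ H`, so `a = 1` (`fix_eq_one`). -/
theorem BR3 : ⁅P ⊓ 𝐂(H), _root_.commutator G⁆ ≤ P.lowerCentralSeries 3 := by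
  refine commutator_le.2 fun b hb r hr => by_contra fun c => ?_
  have m : ∀ s ∈ _root_.commutator G, ⁅b, s⁆ ∈ P.lowerCentralSeries 2 := fun s hs =>
    h.BR (commutator_mem_commutator hb hs)
  obtain ⟨κ, k1, k2⟩ := sep (X := P.lowerCentralSeries 2) (Y := P.lowerCentralSeries 3)
    (commutator_mono le_rfl (lcs_le P 2)) (x := ⟨_, m r hr⟩) c
  obtain ⟨x, x1, x2, x3⟩ := h.exists_fix (i := 1) k1 (by rintro rfl; exact k2 (map_one _))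
  obtain ⟨a, ha⟩ := exists_pair k1 m
    ((commutator_comm _ _).le.trans (commutator_mono le_rfl h.GP))
  have e : a = 1 := h.fix_eq_one x2 (fun n hn => (ha n).trans (k1 _
      ((h.lcs_eq 0).2 (commutator_mem_commutator hb (h.NN.le hn)))))
    (MonoidHom.ext fun s => Units.ext (by
      change ev s (cj x a) = ev s a
      rw [ev_cj, ha, ha]
      conv_rhs => rw [← x3, ev_cj]
      congr 2
      ext
      change ⁅b, x * s * x⁻¹⁆ = x * ⁅b, (s : G)⁆ * x⁻¹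
      rw [conjugate_commutatorElement, hb.2 x x1, mul_inv_cancel_right]))
  exact k2 ((ha ⟨r, hr⟩).symm.trans (e ▸ map_one _))

/-- Take `1 ≠ κ ∈ Tr (P 2) (P 3)`, `x` from `exists_fix`: `x ∉ Kn (P 1) (P 2)` (`lev_a 0`), so by `sr2`
and `fpf_dual`, `B ∩ P 1 ≤ P 2`. Take `1 ≠ λ ∈ Tr (P 1) (P 2)` and `d ∈ H \ N` fixing it, so
`d ∈ Kn (P 1) (P 2)` (`sr2`); by `lev_a 0`, `d` fixes no `κ ≠ 1`, so `B ∩ P 2 ≤ P 3` (`fpf_dual`). Hence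
`⁅B, B⁆ ≤ P 3`; `dec`, `BR3`. -/
theorem BP (hne : ¬ P.lowerCentralSeries 2 ≤ P.lowerCentralSeries 3) :
    ⁅P ⊓ 𝐂(H), P⁆ ≤ P.lowerCentralSeries 3 := by
  have c : ∀ i, ⁅P.lowerCentralSeries i, P.lowerCentralSeries i⁆ ≤ P.lowerCentralSeries (i + 1) := fun i =>
    commutator_mono le_rfl (lcs_le P i)
  have o : ∀ x ∈ H, ∀ w ∈ 𝐂(H), ∀ Y : Subgroup G, ⁅x, w⁆ ∈ Y := fun x hx w hw Y => by
    rw [commutatorElement_eq_one_iff_mul_comm.2 (hw x hx)]; exact one_mem _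
  obtain ⟨z, z1, z2⟩ := SetLike.not_le_iff_exists.1 hne
  obtain ⟨κ, k1, k2⟩ := sep (c 2) (x := ⟨z, z1⟩) z2
  obtain ⟨x, x1, x2, x3⟩ := h.exists_fix (i := 1) k1 (by rintro rfl; exact k2 (map_one _))
  have hx := h.lev_a 0 k1 (by rintro rfl; exact k2 (map_one _)) x2 x3
  obtain ⟨a, a1, a2⟩ : ∃ a ∈ Tr (P.lowerCentralSeries 1) (P.lowerCentralSeries 2), a ≠ 1 := by
    by_contra! e
    exact hx (mem_Kn.2 fun a ha => by rw [e a ha, map_one])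
  obtain ⟨d, d1, d2, d3⟩ := h.exists_fix (i := 0) a1 a2
  have hB : ⁅P ⊓ 𝐂(H), P ⊓ 𝐂(H)⁆ ≤ P.lowerCentralSeries 3 := commutator_le.2 fun b hb b' hb' => by
    have m : ⁅b, b'⁆ ∈ 𝐂(H) := Subgroup.mul_mem _ (Subgroup.mul_mem _ (Subgroup.mul_mem _ hb.2 hb'.2)
      (Subgroup.inv_mem _ hb.2)) (Subgroup.inv_mem _ hb'.2)
    exact (fpf_dual (c 2)).1 (fun κ hκ e => by_contra fun k0 =>
      h.lev_a 0 hκ k0 d2 e (h.sr2 a a1 a2 (mem_inertia_lin.2 d3))) _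
      ((fpf_dual (c 1)).1 (fun a ha e => by_contra fun a0 => hx (h.sr2 a ha a0 (mem_inertia_lin.2 e))) _
        (commutator_mem_commutator hb.1 hb'.1) (o x x1 _ m _)) (o d d1 _ m _)
  refine (commutator_mono le_rfl h.le_BR).trans ?_
  rw [commutator_comm]
  exact sup_comm_le hB ((commutator_comm _ _).le.trans h.BR3)

/-- `g = b u ∈ B P'` (`van`, `Lc_le`, `ne_one`). If `u ∉ P 2`, `lev_b 0 sr2` gives `r` with
`μ ⁅u, r⁆ ≠ 1`; `⁅g⁻¹, r⁆` (or `⁅r, g⁻¹⁆`) is `≡ ⁅u, r⁆ ^ (±1)` mod `P 3` (`BR3`, `lcs_eq`), and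
`φ g = φ (r g r⁻¹) = φ g * μ (g⁻¹ r g r⁻¹)`, so `φ g = 0`. -/
theorem van3 {μ : Lin (P.lowerCentralSeries 2)} (hφ : IsIrrCharacter P φ) (hl : Ly (lcs_le P _) φ μ)
    (h0 : μ ≠ 1) (h1 : μ ∈ Tr _ (P.lowerCentralSeries 3)) {g : P} (hg : φ g ≠ 0) :
    (g : G) ∈ (P ⊓ 𝐂(H)) ⊔ P.lowerCentralSeries 2 := by
  obtain ⟨b, hb, u, hu, e⟩ := mem_sup_of_normal_right.1 (h.Lc_le ⟨g.2, by_contra fun c =>
    hg (h.van hφ (ne_one (i := 1) hφ hl h0) c)⟩)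
  refine e ▸ mul_mem_sup hb (by_contra fun c => ?_)
  obtain ⟨r, hr, hz, k⟩ := h.lev_b 0 h.sr2 h1 h0 hu c
  have l : P.lowerCentralSeries 3 ≤ P.lowerCentralSeries 2 := P.lowerCentralSeries_antitone (by norm_num)
  have a1 : ⁅b, ⁅u, r⁆⁆ ∈ P.lowerCentralSeries 3 :=
    (commutator_comm P _).le (commutator_mem_commutator hb.1 hz)
  have a2 := h.BR3 (commutator_mem_commutator hb hr)
  have e2 := hl (⟨r, h.GP hr⟩ * g * ⟨r, h.GP hr⟩⁻¹) (⟨_, l a1⟩ * ⟨_, hz⟩ * ⟨_, l a2⟩)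
  rw [ev_mul, ev_mul, h1 ⟨_, l a1⟩ a1, h1 ⟨_, l a2⟩ a2, one_mul, mul_one, hφ.isClassFunction.conj_apply,
    hφ.isClassFunction.mul_comm] at e2
  refine k (mul_left_cancel₀ hg (e2.symm.trans ((congrArg φ (Subtype.ext ?_)).trans (mul_one _).symm)))
  change ⁅b, ⁅u, r⁆⁆ * ⁅u, r⁆ * ⁅b, r⁆ * (r * g * r⁻¹) = g
  rw [← e]
  simp only [commutatorElement_def]
  group

/-- `ct_deg` with `Z = (B ⊔ P 2).subgroupOf P` (`BP`; `μ ≠ 1` gives `P 2 ≰ P 3`; `van3`). -/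
theorem deg3 {μ : Lin (P.lowerCentralSeries 2)} (hφ : IsIrrCharacter P φ) (hl : Ly (lcs_le P _) φ μ)
    (h0 : μ ≠ 1) (h1 : μ ∈ Tr _ (P.lowerCentralSeries 3)) :
    charDegree φ ^ 2 = ((P ⊓ 𝐂(H)) ⊔ P.lowerCentralSeries 2).relIndex P := by
  have l : P.lowerCentralSeries 3 ≤ P.lowerCentralSeries 2 := P.lowerCentralSeries_antitone (by norm_num)
  have k := sup_comm_le (A := P ⊓ 𝐂(H)) (B := P.lowerCentralSeries 2)
    (h.BP fun e => h0 (lin_injective (funext fun x => h1 x (e x.2)))) le_rfl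
  exact ct_deg hφ (Z := Subgroup.subgroupOf _ P) (fun z hz y => (hl.apply_eq_iff hφ
    ⟨_, l (k (commutator_mem_commutator hz y.2))⟩).2 (h1 _ (k (commutator_mem_commutator hz y.2))))
    fun g hg => by_contra fun e => hg (h.van3 hφ hl h0 h1 e)

theorem in3 {μ : Lin (P.lowerCentralSeries 2)} (hφ : IsIrrCharacter P φ) (hl : Ly (lcs_le P _) φ μ)
    (h0 : μ ≠ 1) (h1 : μ ∈ Tr _ (P.lowerCentralSeries 3)) : inertia P φ = inertia _ (lin μ) :=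
  hl.inertia_eq hφ h.sup fun _ => h.van3 hφ hl h0 h1

theorem sr3 : Sr (P.lowerCentralSeries 2) (P.lowerCentralSeries 3) :=
  h.sr_lev 1 (fun _ _ => h.in3) fun _ _ _ _ c1 c2 c3 c4 c5 c6 c7 c8 _ =>
    Nat.pow_left_injective two_ne_zero ((h.deg3 c1 c3 c5 c7).trans (h.deg3 c2 c4 c6 c8).symm)

/-- `a ∈ R \ R'`, `R' = N'` (`lcs_eq 0`, `NN`), so `a⁻¹ ∉ Lc N` (`inf_le`); `cam` for `a⁻¹` gives
`⁅a, n⁆ = z` with `n = b r m` (`eq_sup`, `dec`, `m` central), and `⁅a, b r⁆ = ⁅a, b⁆ b ⁅a, r⁆ b⁻¹ ≡ ⁅a, r⁆`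
mod `P 3 = R 3` (`BR3`). -/
theorem cv0 : Cv (_root_.commutator G) 0 3 := by
  intro u hu hu' z hz
  have e : (_root_.commutator G).lowerCentralSeries 1 = ⁅N, N⁆ := h.R1.trans h.NN.symm
  obtain ⟨n, hn, k⟩ := h.cam (inv_mem (h.cm hu))
    (fun c => hu' (e.ge (h.inf_le ⟨hu, (Subgroup.inv_mem_iff _).1 c⟩))) (e.le hz)
  obtain ⟨y, hy, m, hm, rfl⟩ := mem_sup_of_normal_left.1 ((h.eq_sup h.PN).le hn)
  obtain ⟨b, hb, r, hr, rfl⟩ := h.dec hy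
  refine ⟨b * r * b⁻¹, (inferInstance : (_root_.commutator G).Normal).conj_mem _ hr b, ?_⟩
  rw [(h.lcs_eq 2).1, ← inv_mul_eq_iff_eq_mul.2 k, mul_assoc (b * r), ← mem_center_iff.1 (h.cenZ hm)]
  convert (lcsNormal P 3).conj_mem _ (h.BR3 (commutator_mem_commutator hb hu)) (b * r * b⁻¹) using 1
  simp only [commutatorElement_def]
  group

theorem four : P.lowerCentralSeries 3 = ⊥ := by
  have := cam4 h.hp (h.pP.to_le h.GP) h.cv0 (h.cv_lev 0 h.sr2) (h.cv_lev 1 h.sr3)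
  rw [(h.lcs_eq 2).1, (h.lcs_eq 3).1] at this
  exact le_bot_iff.1 (le_of_le_sup h.hp h.pP (by rwa [bot_sup_eq]))

/-- `deg_kr` (`NN`), `deg_lev 0`, `deg_lev 1` with `four`; `derivedSeries G 3 = ⁅R 1, R 1⁆ ≤ R 3 = ⊥`. -/
theorem res : Res G := by
  obtain ⟨a, ha⟩ := h.deg_lev 0 (fun _ _ c1 c2 c3 _ => h.in2 c1 c2 c3) h.sr2
  obtain ⟨b, hb⟩ := h.deg_lev 1 (fun _ _ => h.in3) h.sr3
  refine ⟨card_le_four (a := N.index) (b := a) (c := b) fun χ hχ => ?_, ?_⟩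
  · by_cases c1 : Kr χ (P.lowerCentralSeries 1)
    · exact (h.deg_kr hχ (h.NN ▸ c1)).imp_right .inl
    by_cases c2 : Kr χ (P.lowerCentralSeries 2)
    · exact .inr (.inr (.inl (ha χ hχ c2 c1)))
    · exact .inr (.inr (.inr (hb χ hχ (fun x hx => by rw [mem_bot.1 (h.four.le hx)]) c2)))
  · rw [derivedSeries_succ, derivedSeries_succ, derivedSeries_one, eq_bot_iff, ← h.four, ← (h.lcs_eq 2).1]
    exact RegP.comm_lcs_le _ 1 1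

end Al

end Cfsg.Lib.Nd4
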