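import Cfsg.Agent.Lib.Nd4.Gen

/-!
# `N = M P`: the case division
-/

set_option autoImplicit false

namespace Cfsg.Lib.Nd4
open Cfsg.Lib.Char Cfsg.Lib.CharDeg Cfsg.Lib.Clifford Cfsg.Lib.Induce Cfsg.Lib.Core Cfsg.Lib.Gar
  Cfsg.Lib.RelGraph Cfsg.Lib.Nda Cfsg.Lib.BG Subgroup MulAction
open scoped commutatorElement

variable {G : Type*} [Group G] [Fintype G] {N M P : Subgroup G} [N.Normal] {p : ℕ}

/-- Thompson (`exists_complement_of_cd` for `N`; the complement is characteristic, cf. `Nda.Hy.compl`),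
and `P` a Sylow `p`-subgroup of `N`. -/
theorem Hn.exists_Mp (h : Hn G N p) : ∃ M P : Subgroup G, ∃ _ : M.Normal, Mp G N M P p := by
  have := Fact.mk h.hp
  obtain ⟨S⟩ : Nonempty (Sylow p N) := inferInstance
  refine ⟨(pResidual p N).map N.subtype, (S : Subgroup N).map N.subtype, inferInstance,
    { h with pP := S.isPGroup'.map _, pM := ?_, sup := ?_ }⟩
  · rw [card_subtype, ← h.hp.coprime_iff_not_dvd, Nat.coprime_comm]
    exact Transfer.hasNormalPComplement_iff_card_pResidual.1 (hasNormalPComplement_of_cd h.pm)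
  · rw [← Subgroup.map_sup, Transfer.pResidual_sup_sylow, ← MonoidHom.range_eq_map, range_subtype]

namespace Mp
variable [M.Normal] (h : Mp G N M P p)
include h

theorem MN : M ≤ N := h.sup ▸ le_sup_left

theorem PN : P ≤ N := h.sup ▸ le_sup_right

theorem cop : (Nat.card P).Coprime (Nat.card M) := by
  have := Fact.mk h.hp
  obtain ⟨k, e⟩ := h.pP.exists_card_eq
  rw [e]
  exact (h.hp.coprime_iff_not_dvd.2 h.pM).pow_left _

theorem disj : M ⊓ P = ⊥ := disjoint_of_coprime h.cop.symm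

theorem rel : M.relIndex N = Nat.card P := by
  rw [← h.sup, relIndex_sup_left, ← inf_relIndex_right, h.disj, relIndex_bot_left]

theorem rel' : P.relIndex N = Nat.card M := by
  have h1 := Core.card_mul_relIndex h.MN
  rw [h.rel, ← Core.card_mul_relIndex h.PN, mul_comm] at h1
  exact (Nat.eq_of_mul_eq_mul_left Nat.card_pos h1).symm

theorem quot (L : Subgroup G) [L.Normal] (hL : L ≤ ⁅N, N⁆) :
    Mp (G ⧸ L) (N.map (QuotientGroup.mk' L)) (M.map (QuotientGroup.mk' L))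
      (P.map (QuotientGroup.mk' L)) p := by
  exact { h.toHn.quot L hL with
    pP := h.pP.map _
    pM := fun e => h.pM (e.trans (card_map_dvd M _))
    sup := by rw [← Subgroup.map_sup, h.sup] }

/-- `|G : P|` divides `|G : N| |M|`. -/
theorem idx : ¬ p ∣ P.index := by
  rw [← relIndex_mul_index h.PN, h.rel', h.hp.dvd_mul]
  exact fun e => e.elim h.pM h.np

/-- `P` is a Sylow `p`-subgroup of `G` (`idx`); conjugate the element of `pa` into it. -/
theorem exists_a : ∃ a ∈ P, a ∉ Lc N := by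
  have := Fact.mk h.hp
  obtain ⟨a, -, hL, k, hk⟩ := h.pa
  have hS : Syl p P ⊤ := Syl.mk' le_top h.pP (by rw [relIndex_top_right]; exact h.idx)
  have hz : IsPGroup p (zpowers a) := by
    obtain ⟨j, -, e⟩ := (Nat.dvd_prime_pow h.hp).1 (orderOf_dvd_of_pow_eq_one hk)
    exact IsPGroup.of_card (n := j) (by rw [Nat.card_zpowers, e])
  obtain ⟨g, -, e⟩ := hS.exists_conj_le hz le_top
  rw [Transfer.conj_zpowers, zpowers_le] at e
  refine ⟨_, e, fun e' => hL ?_⟩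
  simpa [mul_assoc] using (inferInstance : (Lc N).Normal).conj_mem _ e' g⁻¹

/-- `a z` is conjugate to `a` (`cam`), so `z ^ p ^ k = 1`. -/
theorem fpf {a z : G} (ha : a ∈ P) (hL : a ∉ Lc N) (hz : z ∈ ⁅N, N⁆) (hM : z ∈ M)
    (hc : a * z = z * a) : z = 1 := by
  obtain ⟨n, -, e⟩ := h.toHn.cam (h.PN ha) hL hz
  have h1 : a ^ Nat.card P = 1 := congrArg Subtype.val (pow_card_eq_one' (x := (⟨a, ha⟩ : P)))
  have h2 : z ^ Nat.card M = 1 := congrArg Subtype.val (pow_card_eq_one' (x := (⟨z, hM⟩ : M)))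
  have h3 : (a * z) ^ Nat.card P = 1 := by rw [← e, conj_pow, h1, mul_one, mul_inv_cancel]
  rw [Commute.mul_pow hc, h1, one_mul] at h3
  have h4 := pow_gcd_eq_one.2 ⟨h3, h2⟩
  rwa [h.cop, pow_one] at h4

/-- Frattini (`Sylow.normalizer_sup_eq_top'`) gives `N ⊔ 𝐍(P) = ⊤`. -/
theorem fr : M ⊔ 𝐍(P) = ⊤ := by
  have := Fact.mk h.hp
  have hS : Syl p P N := Syl.mk' h.PN h.pP (by rw [h.rel']; exact h.pM)
  have h1 := hS.frattini (Nml.top_iff.2 inferInstance)
  rw [top_inf_eq, ← h.sup, sup_assoc, sup_of_le_right (le_norm P)] at h1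
  exact h1

/-- Normalized by `M` and by `𝐍(P)`. -/
theorem normal : (⁅M, P⁆ : Subgroup G).Normal := by
  refine normal_of_top_le_normalizer (h.fr ▸ sup_le (left_norm_comm M P) ?_)
  exact norm_comm le_normalizer_of_normal le_rfl

/-- `M = ⁅M, P⁆ C_M(P)` (coprime action, Lib/Coprime/Action). -/
theorem fr' : ⁅M, P⁆ ⊔ 𝐍(P) = ⊤ := by
  have := h.sol
  have h1 := Coprime.commutator_sup_centralizer (K := M) (A := P) le_normalizer_of_normal h.cop
    (Or.inl inferInstance)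
  rw [eq_top_iff, ← h.fr]
  refine sup_le (h1.ge.trans (sup_le_sup_left (inf_le_right.trans (cent_le_norm P)) _)) le_sup_right

theorem le : ⁅M, P⁆ ≤ ⁅N, N⁆ := by
  exact commutator_mono h.MN h.PN

/-- `z ∈ M ∩ 𝐍(P)` has `⁅z, P⁆ ≤ M ∩ P = 1`; `fpf`. -/
theorem inf' : ⁅M, P⁆ ⊓ 𝐍(P) = ⊥ := by
  obtain ⟨a, ha, hL⟩ := h.exists_a
  refine eq_bot_iff.2 fun z ⟨h1, h2⟩ => ?_
  have hM : z ∈ M := commutator_le_left M P h1
  refine h.fpf ha hL (h.le h1) hM ?_
  have h3 : z * a * z⁻¹ * a⁻¹ ∈ M ⊓ P :=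
    ⟨commutator_le_left M ⊤ (commutator_mem_commutator hM (mem_top a)),
      P.mul_mem (conj_mem_of_norm h2 ha) (P.inv_mem ha)⟩
  rw [h.disj, mem_bot, mul_inv_eq_one, mul_inv_eq_iff_eq_mul] at h3
  exact h3.symm

/-- Every `θ ∈ Irr M` is `N`-invariant, extends to `N` (`exists_extension_le_of_coprime`), has degree
dividing `|M|`, so `pm` gives `θ(1) = 1` (`comm_subgroup_of_cd`). -/
theorem comm (h1 : ⁅M, P⁆ = ⊥) : ⁅M, M⁆ = ⊥ := by
  classical
  refine comm_eq_bot_iff.2 (le_cent_iff.2 (comm_subgroup_of_cd fun n hn => ?_))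
  obtain ⟨θ, hθ, rfl⟩ := mem_cd'.1 hn
  have hT : N ≤ inertia M θ := by
    refine h.sup ▸ sup_le (le_inertia M hθ.isClassFunction) fun y hy => (mem_inertia_iff M).2 fun m => ?_
    congr 1
    exact Subtype.ext (by
      change y * m * y⁻¹ = m
      rw [← le_cent_iff.1 (comm_eq_bot_iff.1 h1) _ m.2 y hy, mul_inv_cancel_right])
  obtain ⟨χ, hχ, e⟩ := exists_extension_le_of_coprime M h.MN hθ hT (by rw [h.rel]; exact h.cop.symm)
  have h2 : charDegree χ = charDegree θ := charDegree_congr (e 1)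
  by_contra h3
  exact h.pM ((h2 ▸ h.pm _ (charDegree_mem_cd hχ) (h2 ▸ h3)).trans hθ.charDegree_dvd_card)

/-- `comm` in `G ⧸ ⁅M, P⁆` (`quot`) gives `M' ≤ ⁅M, P⁆`. -/
theorem NN : ⁅N, N⁆ = ⁅M, P⁆ ⊔ ⁅P, P⁆ := by
  have := h.normal
  have := Fintype.ofFinite (G ⧸ (⁅M, P⁆ : Subgroup G))
  have h1 : ⁅M, M⁆ ≤ ⁅M, P⁆ := (commutator_le_iff_map_mk' _ _ _).2
    ((h.quot _ h.le).comm ((commutator_le_iff_map_mk' _ _ _).1 le_rfl))
  refine le_antisymm ?_ (sup_le h.le (commutator_mono h.PN h.PN))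
  have hP : P ≤ 𝐍(⁅M, P⁆ ⊔ ⁅P, P⁆) := norm_sup le_normalizer_of_normal (norm_der (le_norm P))
  have hM : M ≤ 𝐍(⁅M, P⁆ ⊔ ⁅P, P⁆) := by
    refine norm_of_comm_le ?_
    rw [commutator_comm]
    refine (commutator_mono le_rfl (sup_le (le_sup_left.trans' (commutator_le_left M P))
      (le_sup_right.trans' (der_le P)) : _ ≤ M ⊔ P)).trans (le_sup_left.trans' ?_)
    rw [commutator_comm]
    exact commutator_sup_le le_normalizer_of_normal le_normalizer_of_normal h1 (commutator_comm_le _ _)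
  have key : ∀ X : Subgroup G, ⁅M, X⁆ ≤ ⁅M, P⁆ ⊔ ⁅P, P⁆ → ⁅P, X⁆ ≤ ⁅M, P⁆ ⊔ ⁅P, P⁆ →
      ⁅N, X⁆ ≤ ⁅M, P⁆ ⊔ ⁅P, P⁆ := fun X a b => h.sup ▸ commutator_sup_le hM hP a b
  refine key N ?_ ?_ <;> rw [commutator_comm]
  · exact key M (h1.trans le_sup_left) ((commutator_comm_le _ _).trans le_sup_left)
  · exact key P le_sup_left le_sup_right

/-- `P` is normal (`fr`); `H` is a Schur-Zassenhaus complement. `M ≤ Z(N)` (`comm`), so `cam` and
`N' ≠ 1` give `M ≤ Lc N`, `⁅G, M⁆ ≤ N' ∩ M ≤ P ∩ M = 1`. `N ∩ H = M` (`N ∩ H` is a `p'`-group, so its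
image in the `p`-group `N / M` is trivial; only `≤` is needed), so `H / (N ∩ H)` cyclic over a central
subgroup: `H` is abelian. -/
theorem al (h1 : ⁅M, P⁆ = ⊥) (h2 : ⁅P, P⁆ ≠ ⊥) : ∃ _ : P.Normal, ∃ H, Al G N P H p := by
  have := Fact.mk h.hp
  have hc : M ≤ 𝐂(P) := comm_eq_bot_iff.1 h1
  have hP : P.Normal := normal_of_top_le_normalizer (h.fr ▸ sup_le (norm_of_cent hc) le_rfl)
  obtain ⟨k, hk⟩ := h.pP.exists_card_eq
  have hcop : (Nat.card P).Coprime (P.relIndex ⊤) := by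
    rw [hk, relIndex_top_right]
    exact (h.hp.coprime_iff_not_dvd.2 h.idx).pow_left _
  obtain ⟨H, -, -, hs, hH⟩ := Coprime.exists_complement (M := P) le_top le_normalizer_of_normal hcop
  have hNH : N ⊓ H ≤ M := fun x ⟨a, b⟩ => by
    have e1 : x ^ Nat.card P ∈ M := h.rel ▸ (M.subgroupOf N).pow_index_mem ⟨x, a⟩
    have e2 : x ^ Nat.card H = 1 := congrArg Subtype.val (pow_card_eq_one' (x := (⟨x, b⟩ : H)))
    have e3 := pow_gcd_eq_one (a := QuotientGroup.mk' M x) |>.2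
      ⟨by rw [← map_pow]; exact (QuotientGroup.eq_one_iff _).2 e1, by rw [← map_pow, e2, map_one]⟩
    rw [hH, hcop, pow_one] at e3
    exact (QuotientGroup.eq_one_iff _).1 e3
  have hZ : M ≤ 𝐂(N) := h.sup ▸ le_cent_sup (comm_eq_bot_iff.1 (h.comm h1)) hc
  have hG : ∀ a ∈ M, ∀ g : G, g * a = a * g := fun a ha g => by
    have hL : a ∈ Lc N := by
      by_contra hL
      refine h2 (eq_bot_iff.2 fun z hz => ?_)
      obtain ⟨n, hn, e⟩ := h.toHn.cam (h.MN ha) hL (commutator_mono h.PN h.PN hz)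
      rw [mem_cent.1 (hZ ha) n hn, mul_inv_cancel_right] at e
      exact left_eq_mul.1 e
    have e1 := mem_Lc.1 hL g
    rw [h.NN, h1, bot_sup_eq] at e1
    have e2 : ⁅g, a⁆ ∈ M ⊓ P :=
      ⟨commutator_le_right ⊤ M (commutator_mem_commutator (mem_top g) ha), der_le P e1⟩
    rwa [h.disj, mem_bot, commutatorElement_eq_one_iff_mul_comm] at e2
  have := h.cyc
  refine ⟨hP, H, { h.toHn with
    pP := h.pP, PN := h.PN, pH := by rw [hH, relIndex_top_right]; exact h.idx, sup := hs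
    cH := fun a ha b hb => ?_, cn := hNH.trans hc }⟩
  refine congrArg Subtype.val (commutative_of_cyclic_center_quotient
    ((QuotientGroup.mk' N).comp H.subtype) (fun x hx => ?_) ⟨a, ha⟩ ⟨b, hb⟩)
  exact mem_center_iff.2 fun y => Subtype.ext (hG _ (hNH ⟨(QuotientGroup.eq_one_iff _).1 hx, x.2⟩) _)

theorem sb (h2 : ⁅P, P⁆ = ⊥) : Sb G N 𝐍(P) p :=
  { h.toHn with
    inf := by rw [h.NN, h2, sup_bot_eq, h.inf']
    sup := by rw [h.NN, h2, sup_bot_eq, h.fr'] }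

end Mp

end Cfsg.Lib.Nd4
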