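import Cfsg.Agent.Lib.Nd4.Al4
import Cfsg.Agent.Lib.Nd4.Mp
import Cfsg.Agent.Lib.PGroup.RankOne

/-!
# Case β-II: `⁅M, P⁆ ≠ 1` and `P` nonabelian is impossible
-/

set_option autoImplicit false

namespace Cfsg.Lib.Nd4
open Cfsg.Lib.Char Cfsg.Lib.CharDeg Cfsg.Lib.Clifford Cfsg.Lib.Induce Cfsg.Lib.Core Cfsg.Lib.Gar
  Cfsg.Lib.RelGraph Cfsg.Lib.Nda Cfsg.Lib.BG Subgroup MulAction
open scoped commutatorElement

/-- Deflate to `S ⧸ ker φ` and use `le_index_of_comm`; or: an irreducible constituent of `φ|J` is linear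
and `φ` is a constituent of the induced character. -/
theorem deg_le_idx {S : Type*} [Group S] [Finite S] {φ : S → ℂ} (hφ : IsIrrCharacter S φ)
    {J : Subgroup S} (h : ∀ x ∈ J, ∀ y ∈ J, φ ⁅x, y⁆ = φ 1) : charDegree φ ≤ J.index := by
  haveI := hφ.isClassFunction.charKer_normal
  obtain ⟨χ, h1, h2, h3, h4⟩ := exists_faithful_deflate hφ
  have := le_index_of_comm (H := J.map (QuotientGroup.mk' (charKer φ))) (by
    rintro _ ⟨a, ha, rfl⟩ _ ⟨b, hb, rfl⟩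
    rw [← commutatorElement_eq_one_iff_mul_comm, ← map_commutatorElement]
    exact h3 _ (by rw [QuotientGroup.mk'_apply, h2, h a ha b hb]; exact (h2 1).symm)) (charDegree_mem_cd h1)
  exact h4 ▸ this.trans (Nat.le_of_dvd (Nat.pos_of_ne_zero index_ne_zero_of_finite)
    (index_map_dvd J (QuotientGroup.mk'_surjective _)))

variable {G : Type*} [Group G] [Fintype G] {N M P H : Subgroup G} [N.Normal] {p : ℕ}

section
variable [P.Normal] (h : Al G N P H p) (h0 : ⁅P, P⁆ ≠ ⊥)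
include h h0

/-- `P i = P.lowerCentralSeries i`. Suppose `T ≤ D = Kn (P 1) (P 2) = I(φ)`, `φ` from `exists2`. Take
`a ∈ G' \ N'` (`not_le'`), `a ∉ Lc N` (`inf_le`). `J = (T ∩ P) ⊔ zpowers a` has `⁅J, J⁆ ≤ P 2`: `T ∩ P` is
abelian and `≤ B P'` (`Lc_le`), `⁅B P', a⁆ ≤ P 2` (`BR`) (work in `G ⧸ P 2`: a set of commuting generators).
So `φ(1) ≤ |P : J| < |P : T ∩ P|` (`deg_le_idx`), all powers of `p`, so `p φ(1) ∣ |P : T ∩ P|`.
`index T = index (T ⊔ P) * T.relIndex P` (`Gar.idx_eq`), `index D ∣ index (T ⊔ P)`, so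
`d = index D * φ(1) ∈ cd G` (`mem_cd`) divides `index T`, `h3` gives equality, and `p ∣ index D ∣ index P`,
against `idx`. -/
theorem Al.key {T : Subgroup G} (h1 : ∀ a ∈ T, ∀ b ∈ T, a * b = b * a) (h2 : T ⊓ P ≤ Lc N)
    (h3 : ∀ d ∈ cd G, d ≠ 1 → d ∣ T.index → d = T.index) :
    ¬ T ≤ Kn (P.lowerCentralSeries 1) (P.lowerCentralSeries 2) := by
  intro hT
  haveI := Fact.mk h.hp
  obtain ⟨φ, hφ, d1, k2, hD⟩ := h.exists2 h0
  obtain ⟨a, ha, ha'⟩ := SetLike.not_le_iff_exists.1 h.toHn.not_le'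
  have aL : a ∉ Lc N := fun e => ha' (h.toHn.inf_le ⟨ha, e⟩)
  have aP := h.GP ha
  have hXX : ⁅T ⊓ P, T ⊓ P⁆ ≤ P.lowerCentralSeries 2 := commutator_le.2 fun x hx y hy => by
    rw [commutatorElement_eq_one_iff_mul_comm.2 (h1 x hx.1 y hy.1)]; exact one_mem _
  have hZZ : ⁅zpowers a, zpowers a⁆ ≤ P.lowerCentralSeries 2 := commutator_le.2 fun x hx y hy => by
    rw [commutatorElement_eq_one_iff_mul_comm.2 (setLike_mul_comm hx hy)]; exact one_mem _
  have hXZ : ⁅T ⊓ P, zpowers a⁆ ≤ P.lowerCentralSeries 2 :=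
    (commutator_mono ((le_inf inf_le_right h2).trans h.Lc_le) ((zpowers_le).2 ha)).trans
      (sup_comm_le h.BR (commutator_mono le_rfl h.GP))
  have hJ : ⁅T ⊓ P ⊔ zpowers a, T ⊓ P ⊔ zpowers a⁆ ≤ P.lowerCentralSeries 2 := by
    refine sup_comm_le ?_ ?_ <;> rw [commutator_comm]
    · exact sup_comm_le hXX (by rwa [commutator_comm])
    · exact sup_comm_le hXZ hZZ
  have e1 : charDegree φ ≤ (T ⊓ P ⊔ zpowers a).relIndex P :=
    deg_le_idx hφ fun x hx y hy => k2 _ (hJ (commutator_mem_commutator hx hy))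
  have e2 := relIndex_mul_relIndex (T ⊓ P) (T ⊓ P ⊔ zpowers a) P le_sup_left
    (sup_le inf_le_right ((zpowers_le).2 aP))
  rw [inf_relIndex_right T P] at e2
  have e3 : (T ⊓ P).relIndex (T ⊓ P ⊔ zpowers a) ≠ 1 := fun e =>
    aL (h2 (relIndex_eq_one.1 e (mem_sup_right (mem_zpowers a))))
  obtain ⟨i, hi⟩ := exists_eq_pow_of_mem_cd h.hp h.pP (charDegree_mem_cd hφ)
  obtain ⟨j, hj⟩ : ∃ j, T.relIndex P = p ^ j := h.pP.index (T.subgroupOf P)
  have e4 : p ^ i < p ^ j := by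
    have n0 : p ^ j ≠ 0 := pow_ne_zero _ h.hp.ne_zero
    rw [← hj, ← e2] at n0 ⊢
    have a1 := Nat.pos_of_ne_zero (left_ne_zero_of_mul n0)
    have a2 := Nat.pos_of_ne_zero (right_ne_zero_of_mul n0)
    rw [← hi]
    exact e1.trans_lt ((Nat.lt_mul_iff_one_lt_left a2).2 (by omega))
  have e5 : (inertia P φ).index * charDegree φ * p ∣ T.index := by
    rw [idx_eq T P, mul_assoc, hi, hj, ← pow_succ, hD]
    exact mul_dvd_mul (index_dvd_of_le (sup_le hT (Al.le_Kn 1)))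
      (pow_dvd_pow p ((Nat.pow_lt_pow_iff_right h.hp.one_lt).1 e4))
  have e6 := h3 _ (h.mem_cd hφ) (fun e => d1 (Nat.eq_one_of_mul_eq_one_left e)) (dvd_of_mul_right_dvd e5)
  rw [e6] at e5
  exact h.hp.ne_one (Nat.dvd_one.1 (Nat.dvd_of_mul_dvd_mul_left
    (Nat.pos_of_ne_zero index_ne_zero_of_finite) (by rwa [mul_one])))

/-- `x ∈ T_γ \ Kn` (`key`) is fixed point free on `P 1 / P 2` (`sr2`, `fpf_dual`) and centralizes `T_γ`:
`T_γ ∩ P 1 ≤ P 2`. `P 1` is abelian (`four`), so `exists_cocyc` makes `P 1 / P 2` cyclic, and `cam3`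
(`cv0`, `cv_lev 0 sr2`, `lcs_eq`) gives `P 2 ≤ P 3 = 1`. Then `R = G'` acts semiregularly on `Γ \ 1`
(`R ∩ T_γ ≤ R ∩ Lc N ≤ P 1`), so its abelian subgroups are cyclic (`Pal.isCyclic_of_fpf`). If `p` is odd
`R` is cyclic (`isCyclic_of_pRankLE_one_of_odd`), against `R' = P' ≠ 1`. If `p = 2`, `P 1` is cyclic of
exponent `2` (`Cv.pow_mem`), so central in `G`, and `Kn = ⊤`, against `key`. -/
theorem Al.no_act {Γ : Type*} [CommGroup Γ] [Finite Γ] [Nontrivial Γ] [MulDistribMulAction G Γ]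
    (hq : ¬ p ∣ Nat.card Γ)
    (h1 : ∀ γ : Γ, γ ≠ 1 → ∀ a ∈ stabilizer G γ, ∀ b ∈ stabilizer G γ, a * b = b * a)
    (h2 : ∀ γ : Γ, γ ≠ 1 → stabilizer G γ ⊓ P ≤ Lc N)
    (h3 : ∀ γ : Γ, γ ≠ 1 → ∀ d ∈ cd G, d ≠ 1 → d ∣ (stabilizer G γ).index →
      d = (stabilizer G γ).index) : False := by
  haveI := Fact.mk h.hp
  have key := fun γ (n : γ ≠ 1) => h.key h0 (h1 γ n) (h2 γ n) (h3 γ n)
  have c11 : ⁅P.lowerCentralSeries 1, P.lowerCentralSeries 1⁆ = ⊥ :=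
    le_bot_iff.1 ((RegP.comm_lcs_le P 1 1).trans h.four.le)
  have c12 : ⁅P.lowerCentralSeries 1, P.lowerCentralSeries 1⁆ ≤ P.lowerCentralSeries 2 := c11.le.trans bot_le
  have t12 : ∀ γ : Γ, γ ≠ 1 → P.lowerCentralSeries 1 ⊓ stabilizer G γ ≤ P.lowerCentralSeries 2 :=
    fun γ n y hy => by
      obtain ⟨x, hx, hx'⟩ := SetLike.not_le_iff_exists.1 (key γ n)
      refine (fpf_dual c12 (g := x)).1 (fun a ha e => by_contra fun a1 =>
        hx' (h.sr2 a ha a1 (mem_inertia_lin.2 e))) y hy.1 ?_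
      rw [commutatorElement_eq_one_iff_mul_comm.2 (h1 γ n x hx y hy.2)]
      exact one_mem _
  have cop : ∀ {A : Subgroup G}, A ≤ P → (Nat.card A).Coprime (Nat.card Γ) := fun {A} hA => by
    obtain ⟨k, hk⟩ := IsPGroup.iff_card.1 (h.pP.to_le hA)
    rw [hk]
    exact ((Nat.Prime.coprime_iff_not_dvd h.hp).2 hq).pow_left k
  obtain ⟨γ, n, u, hu, hc⟩ := exists_cocyc (A := P.lowerCentralSeries 1) (Γ := Γ)
    (fun a ha b hb => commutatorElement_eq_one_iff_mul_comm.1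
      (mem_bot.1 (c11.le (commutator_mem_commutator ha hb)))) (cop (lcs_le P 1))
  replace hc := hc.trans (sup_le_sup_left (t12 γ n) _)
  have r1 := (h.lcs_eq 0).1
  have r2 := (h.lcs_eq 1).1
  have r3 := (h.lcs_eq 2).1
  simp only [Nat.reduceAdd] at r1 r2 r3
  have hR := h.pP.to_le h.GP
  have p2 : P.lowerCentralSeries 2 = ⊥ := by
    have := cam3 h.hp hR h.cv0 (h.cv_lev 0 h.sr2) (u := u) (by rwa [r1]) (by rwa [r1, r2])
    rwa [r2, r3, h.four, le_bot_iff] at this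
  have h0' : P.lowerCentralSeries 1 ≠ ⊥ := h0
  by_cases hp2 : p = 2
  · have u2 : u ^ (2 : ℤ) = 1 := by
      have := h.cv0.pow_mem h.hp hR (by rwa [r1, r2, p2, le_bot_iff]) 1 (x := u) (by rwa [r1])
      rw [show 1 + 1 = 2 from rfl, r2, p2, hp2, mem_bot] at this
      exact_mod_cast this
    rw [p2, sup_bot_eq] at hc
    have k : ∀ y ∈ P.lowerCentralSeries 1, y = 1 ∨ y = u := fun y hy => by
      obtain ⟨m, rfl⟩ := mem_zpowers_iff.1 (hc hy)
      rw [zpow_eq_zpow_emod m u2]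
      rcases Int.emod_two_eq_zero_or_one m with e | e <;> simp [e]
    refine key γ n fun g _ => (mem_Kn_iff c12).2 fun y hy => ?_
    rw [p2, mem_bot, commutatorElement_def]
    rcases k y hy with e | e
    · simp [e]
    rcases k _ ((lcsNormal P 1).conj_mem y hy g) with e' | e'
    · rw [conj_eq_one_iff] at e'
      simp [e']
    · rw [e', e, mul_inv_cancel]
  · have cy : IsCyclic (_root_.commutator G) := PGroup.isCyclic_of_pRankLE_one_of_odd hp2 hR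
      (PGroup.pRankLE_subgroup_iff.2 fun A hA hE => by
        rw [pow_one]
        refine PGroup.elemAb_card_le_of_isCyclic hE (Pal.isCyclic_of_fpf (V := Γ) hE.1 (cop (hA.trans h.GP))
          fun a ha v e => or_iff_not_imp_right.2 fun n => ?_)
        have := h.toHn.inf_le ⟨hA ha, h2 v n ⟨e, h.GP (hA ha)⟩⟩
        rw [h.NN] at this
        exact mem_bot.1 (p2.le (t12 v n ⟨this, e⟩)))
    exact h0' (r1.symm.trans ((commutator_self_eq_bot_iff (H := _root_.commutator G)).2 inferInstance))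

end

variable [M.Normal] (h : Mp G N M P p)
include h

/-- `V = ⁅M, P⁆` is abelian (minimal normal, solvable), complemented by `𝐍(P)` (`fr'`, `inf'`). Apply
`al` to `quot V` (`P ∩ V = 1` keeps `P' ≠ 1`) and `no_act` to the action of `G ⧸ V` on `Lin V`
(`Pal.exists_act V V`; `card_lin`, `exists_hom_ne_one_of_comm`). For `γ ≠ 1`, `T = I(γ)`: an element
`a ∈ P \ Lc N` fixes no `γ ≠ 1` (`fpf`, `fpf_dual` with `Y = ⊥`); this gives `h2` (`g = v a`, `v ∈ V`,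
`a ∈ P`; `mem_Lc` in the quotient) and `index T ≠ 1` (`exists_a`). `index T * n ∈ cd G` for
`n ∈ cd (T ⧸ V)` (`idx_mul_mem`), so `nd` gives `n = 1`, `T ⧸ V` abelian (`comm_iff_cd`), and `h3`
(`cd_quotient_subset`). -/
theorem Mp.b2min (h1 : IsMinNormal ⁅M, P⁆) (h2 : ⁅P, P⁆ ≠ ⊥) : False := by
  haveI := h.normal
  haveI := h.sol
  haveI := h1.isMulCommutative inferInstance
  haveI := Fintype.ofFinite (G ⧸ ⁅M, P⁆)
  have VM : ⁅M, P⁆ ≤ M := commutator_le_left M P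
  have VV : ⁅⁅M, P⁆, ⁅M, P⁆⁆ ≤ ⊥ := (commutator_self_eq_bot_iff.2 inferInstance).le
  have n0 : ⁅P.map (QuotientGroup.mk' ⁅M, P⁆), P.map (QuotientGroup.mk' ⁅M, P⁆)⁆ ≠ ⊥ := fun e => by
    rw [← map_commutator, map_mk'_eq_bot_iff] at e
    exact h2 (le_bot_iff.1 ((le_inf (e.trans VM) (commutator_le_self P)).trans h.disj.le))
  obtain ⟨_, H, hA⟩ := (h.quot _ h.le).al (by rw [← map_commutator, map_mk'_eq_bot_iff]) n0
  obtain ⟨_, -, st⟩ := Pal.exists_act ⁅M, P⁆ ⁅M, P⁆ fun g hg a => cj_of_mem hg a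
  haveI := (nontrivial_iff_ne_bot _).2 h1.ne_bot
  haveI : Nontrivial (Lin (⁅M, P⁆ : Subgroup G)) :=
    let ⟨l, hl⟩ := exists_hom_ne_one_of_comm (V := (⁅M, P⁆ : Subgroup G)); ⟨l, 1, hl⟩
  have VT : ∀ γ : Lin (⁅M, P⁆ : Subgroup G), ⁅M, P⁆ ≤ inertia _ (lin γ) := fun γ =>
    le_inertia _ (irr_lin γ).isClassFunction
  have fx : ∀ γ : Lin (⁅M, P⁆ : Subgroup G), γ ≠ 1 → ∀ a ∈ P, a ∈ inertia _ (lin γ) → a ∈ Lc N :=
    fun γ n a ha e => by_contra fun hL => n ((fpf_dual VV (g := a)).2 (fun x hx c =>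
      mem_bot.2 (h.fpf ha hL (h.le hx) (VM hx) (commutatorElement_eq_one_iff_mul_comm.1 (mem_bot.1 c))))
      γ (fun x hx => by rw [show x = 1 from Subtype.ext (mem_bot.1 hx)]; simp [ev]) (mem_inertia_lin.1 e))
  have i1 : ∀ γ : Lin (⁅M, P⁆ : Subgroup G), γ ≠ 1 → (inertia _ (lin γ)).index ≠ 1 := fun γ n e => by
    obtain ⟨a, ha, hL⟩ := h.exists_a
    exact hL (fx γ n a ha (index_eq_one.1 e ▸ trivial))
  have ic : ∀ γ : Lin (⁅M, P⁆ : Subgroup G), (inertia _ (lin γ)).index ∈ cd G := fun γ => by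
    simpa using idx_mul_mem h.inf' h.fr' γ one_mem_cd
  refine hA.no_act n0 (Γ := Lin (⁅M, P⁆ : Subgroup G)) (fun e => h.pM ?_) (fun γ n => ?_) (fun γ n => ?_)
    fun γ n d hd d1 e => ?_
  · rw [card_lin] at e
    exact (e.trans (Subgroup.relIndex_dvd_card _ _)).trans (card_dvd_of_le VM)
  · rw [st]
    rintro _ ⟨s, hs, rfl⟩ _ ⟨t, ht, rfl⟩
    have := (commutator_le_iff_cd ((⁅M, P⁆ : Subgroup G).subgroupOf (inertia _ (lin γ)))).2 (fun m hm =>
      (mul_eq_left₀ index_ne_zero_of_finite).1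
        (h.nd _ (ic γ) _ (idx_mul_mem h.inf' h.fr' γ hm) (i1 γ n) (dvd_mul_right _ _)).symm)
      (commutator_mem_commutator (mem_top (⟨s, hs⟩ : inertia _ (lin γ))) (mem_top ⟨t, ht⟩))
    rw [← commutatorElement_eq_one_iff_mul_comm, ← map_commutatorElement, QuotientGroup.mk'_apply,
      QuotientGroup.eq_one_iff]
    exact this
  · rw [st]
    rintro _ ⟨⟨t, ht, e⟩, a, ha, rfl⟩
    have aT : a ∈ inertia _ (lin γ) := by
      simpa using mul_mem ht (VT γ (QuotientGroup.eq.1 e))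
    refine mem_Lc.2 fun g => ?_
    obtain ⟨g, rfl⟩ := QuotientGroup.mk'_surjective _ g
    rw [← map_commutatorElement, ← map_commutator]
    exact mem_map_of_mem _ (mem_Lc.1 (fx γ n a ha aT) g)
  · rw [st, index_map_eq _ (QuotientGroup.mk'_surjective _) (by rw [QuotientGroup.ker_mk']; exact VT γ)] at e ⊢
    exact h.nd d (cd_quotient_subset _ hd) _ (ic γ) d1 e

/-- Take `L` normal, maximal with `L < ⁅M, P⁆` (`normal`), and apply `b2min` to `quot L`. -/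
theorem Mp.b2 (h1 : ⁅M, P⁆ ≠ ⊥) (h2 : ⁅P, P⁆ ≠ ⊥) : False := by
  obtain ⟨L, hL, -⟩ := exists_isChiefFactor_ge h.normal inferInstance (bot_lt_iff_ne_bot.2 h1)
  haveI := hL.2.2.1
  haveI := Fintype.ofFinite (G ⧸ L)
  refine (h.quot L (hL.1.le.trans h.le)).b2min
    (by rw [← map_commutator]; exact isMinNormal_map_mk'_of_isChiefFactor hL) fun e => ?_
  rw [← map_commutator, map_mk'_eq_bot_iff] at e
  exact h2 (le_bot_iff.1 ((le_inf (e.trans (hL.1.le.trans (commutator_le_left M P)))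
    (commutator_le_self P)).trans h.disj.le))

end Cfsg.Lib.Nd4
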