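import Cfsg.Agent.Lib.Nd4.Def

/-!
# Tools: characters of central type, degrees over an extendible character
-/

set_option autoImplicit false

namespace Cfsg.Lib.Nd4
open Cfsg.Lib.Char Cfsg.Lib.CharDeg Cfsg.Lib.Clifford Cfsg.Lib.Induce Cfsg.Lib.Core Cfsg.Lib.Gar
  Cfsg.Lib.RelGraph Cfsg.Lib.Nda Cfsg.Lib.BG Subgroup MulAction
open scoped commutatorElement

section S
variable {S : Type*} [Group S] [Finite S] {φ : S → ℂ}

theorem chr_cen (hφ : IsIrrCharacter S φ) {x : S} (h : ∀ y, φ ⁅x, y⁆ = φ 1) : x ∈ charCenter φ := by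
  have := hφ.isCharacter.charKer_normal
  obtain ⟨χ, hχ, e⟩ := hφ.exists_deflate (charKer φ) fun x hx => hφ.isCharacter.mem_charKer_iff.1 hx
  have h1 : (x : S ⧸ charKer φ) ∈ center _ := mem_center_iff.2 fun g => by
    obtain ⟨y, rfl⟩ := QuotientGroup.mk_surjective g
    have := (QuotientGroup.eq_one_iff _).2 (hφ.isCharacter.mem_charKer_iff.2 (h y))
    exact (commutatorElement_eq_one_iff_mul_comm.1 this).symm
  rw [hφ.isCharacter.mem_charCenter_iff, ← e, ← e]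
  exact hχ.isCharacter.mem_charCenter_iff.1 (hχ.center_le_charCenter h1)

theorem chr_mul (hφ : IsIrrCharacter S φ) {z : S} (hz : z ∈ charCenter φ) (x : S) :
    φ (x * z) = φ x * (φ z / φ 1) := by
  rw [hφ.isClassFunction.mul_comm, Cfsg.IsCharacter.apply_mul_of_mem_charCenter hφ.apply_one_ne_zero hz,
    mul_comm]

/-- On `Z` we have `‖φ z‖ = φ 1` (`z` is central modulo `ker φ`; see `Pal.ne_zero_of_comm`,
`Pal.exists_sq` in Lib/Pal/Act.lean), so `1 = ⟨φ, φ⟩ = |Z| φ(1)² / |S|`. -/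
theorem ct_deg (hφ : IsIrrCharacter S φ) {Z : Subgroup S} (h1 : ∀ z ∈ Z, ∀ y, φ ⁅z, y⁆ = φ 1)
    (h2 : ∀ g ∉ Z, φ g = 0) : charDegree φ ^ 2 = Z.index := by
  classical
  have := Fintype.ofFinite S
  have h := hφ.sum_norm_sq
  rw [← Finset.sum_filter_add_sum_filter_not _ (· ∈ Z),
    Finset.sum_eq_zero (s := Finset.univ.filter fun x => ¬ x ∈ Z) (fun x hx => by
      rw [h2 x (Finset.mem_filter.1 hx).2]; simp), add_zero, Finset.sum_congr rfl (fun x hx => by
      rw [hφ.isCharacter.mem_charCenter_iff.1 (chr_cen hφ (h1 x (Finset.mem_filter.1 hx).2)),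
        hφ.isCharacter.norm_apply_one]), Finset.sum_const, ← Fintype.card_subtype,
    ← Nat.card_eq_fintype_card, nsmul_eq_mul, ← Z.card_mul_index] at h
  exact Nat.eq_of_mul_eq_mul_left (Nat.card_pos (α := Z)) (by exact_mod_cast h)

/-- Class two modulo the kernel: deflate to `S ⧸ ker φ` and use `Pal.exists_sq`, or directly `ct_deg`:
if `φ ⁅x, y⁆ ≠ φ 1` then `⁅x, y⁆` acts as a scalar `c ≠ 1` and `φ x = φ (y⁻¹ x y) = c φ x`. -/
theorem cl2_deg (hφ : IsIrrCharacter S φ) (h : ∀ x y z : S, φ ⁅⁅x, y⁆, z⁆ = φ 1) :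
    ∃ D : Subgroup S, charDegree φ ^ 2 = D.index ∧ (∀ x, x ∈ D ↔ ∀ y, φ ⁅x, y⁆ = φ 1) ∧
      ∀ x, x ∈ D ↔ φ x ≠ 0 := by
  have k := fun x => hφ.isCharacter.mem_charKer_iff (g := x)
  have a : ∀ x, x ∈ charCenter φ ↔ ∀ y, φ ⁅x, y⁆ = φ 1 := fun x =>
    ⟨fun hx y => (k _).1 (hφ.isCharacter.commutator_mem_charKer hx y), chr_cen hφ⟩
  have b : ∀ x, x ∈ charCenter φ ↔ φ x ≠ 0 := fun x => by
    refine ⟨fun hx e => hφ.apply_one_ne_zero ?_, fun hx => (a x).2 fun y => ?_⟩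
    · rw [← norm_eq_zero, ← hφ.isCharacter.mem_charCenter_iff.1 hx, e, norm_zero]
    · have e2 := chr_mul hφ (chr_cen hφ (h x y)) (y * x * y⁻¹)
      rw [hφ.isClassFunction.mul_comm, show ⁅x, y⁆ * (y * x * y⁻¹) = x by
        rw [commutatorElement_def]; group, hφ.isClassFunction.conj_apply] at e2
      rw [← div_eq_one_iff_eq hφ.apply_one_ne_zero]
      exact mul_left_cancel₀ hx (by rw [← e2, mul_one])
  exact ⟨_, ct_deg hφ (fun z => (a z).1) fun g hg => by_contra fun e => hg ((b g).2 e), a, b⟩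

end S

variable {G : Type*} [Group G] [Fintype G] {P U : Subgroup G} {φ : P → ℂ} {μ : Lin U}

/-- `U` is central modulo `ker φ`, so it acts by scalars (Schur). -/
theorem exists_Ly (h : U ≤ P) (hφ : IsIrrCharacter P φ)
    (hc : ∀ u y : P, (u : G) ∈ U → φ ⁅u, y⁆ = φ 1) : ∃ μ : Lin U, Ly h φ μ := by
  have m : ∀ u : U, inclusion h u ∈ charCenter φ := fun u => chr_cen hφ fun y => hc _ y u.2
  exact ⟨(centerHom φ hφ.apply_one_ne_zero).comp ((inclusion h).codRestrict _ m),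
    fun g u => chr_mul hφ (m u) g⟩

/-- Take `φ` over `μ` (for `U.subgroupOf P`, normal in `P`); `μ` is `P`-invariant, so `φ|U = φ(1) μ`,
and `‖φ u‖ = φ 1` gives the scalar action. -/
theorem exists_over [U.Normal] (h : U ≤ P) (hc : P ≤ inertia U (lin μ)) :
    ∃ φ : P → ℂ, IsIrrCharacter P φ ∧ Ly h φ μ := by
  classical
  have i := (isIrrCharacter_subgroupOf_iff h).2 (irr_lin μ)
  obtain ⟨φ, h1, h2, -⟩ := ex_over (U.subgroupOf P) i.isCharacter (m := 0) (by
    rw [zero_dvd_iff]; exact mul_ne_zero index_ne_zero_of_finite i.charDegree_pos.ne')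
  have e := res_eq_smul_of_invariant (U.subgroupOf P) h1 i h2 (invariant_subgroupOf U hc)
  have c := le_charCenter_of_res_eq_smul h1.isCharacter i.isCharacter (ev_one μ) e
  refine ⟨φ, h1, fun g u => ?_⟩
  have e1 := congrFun e 1
  have e2 := congrFun e ⟨⟨u, h u.2⟩, u.2⟩
  rw [chr_mul h1 (c (show (⟨u, h u.2⟩ : P) ∈ U.subgroupOf P from u.2)), e2]
  congr 1
  rw [div_eq_iff h1.apply_one_ne_zero, show φ 1 = _ from e1, Pi.smul_apply, Pi.smul_apply, smul_eq_mul,
    smul_eq_mul, mul_comm]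
  exact congrArg _ ((congrArg _ (ev_one μ)).trans (mul_one _)).symm

/-- `φ u = φ 1 * μ u`, and `g u g⁻¹`. -/
theorem Ly.inertia_le [P.Normal] [U.Normal] {h : U ≤ P} (hφ : IsIrrCharacter P φ) (hl : Ly h φ μ) :
    inertia P φ ≤ inertia U (lin μ) := by
  intro g hg
  refine (mem_inertia_iff U).2 fun u => mul_left_cancel₀ hφ.apply_one_ne_zero ?_
  have := (mem_inertia_iff P).1 hg ⟨u, h u.2⟩
  rw [lin, lin, ← hl, ← hl, one_mul, one_mul]
  exact this

theorem Ly.apply_eq_iff {h : U ≤ P} (hφ : IsIrrCharacter P φ) (hl : Ly h φ μ) (u : U) :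
    φ ⟨u, h u.2⟩ = φ 1 ↔ ev u μ = 1 := by
  rw [← one_mul (⟨u, h u.2⟩ : P), hl]
  exact mul_right_eq_self₀.trans (or_iff_left hφ.apply_one_ne_zero)

/-- `x = g h` with `g ∈ P`, `h ∈ H ∩ I(μ)` (`P ≤ I(φ) ≤ I(μ)`). For `z = b u ∈ B U`, `B = C_P(H)`:
`φ (h z h⁻¹) = φ b μ (h u h⁻¹) = φ z`; off `B U` (normalized by `h`) both values are `0`. -/
theorem Ly.inertia_eq [P.Normal] [U.Normal] {h : U ≤ P} (hφ : IsIrrCharacter P φ) (hl : Ly h φ μ)
    {H : Subgroup G} (hs : P ⊔ H = ⊤) (hv : ∀ g : P, φ g ≠ 0 → (g : G) ∈ (P ⊓ 𝐂(H)) ⊔ U) :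
    inertia P φ = inertia U (lin μ) := by
  refine (hl.inertia_le hφ).antisymm fun x hx => ?_
  obtain ⟨g, hg, k, hk, rfl⟩ := mem_sup_of_normal_left.1 (hs.ge (mem_top x))
  have g1 := le_inertia P hφ.isClassFunction hg
  have k1 : k ∈ inertia U (lin μ) := (mul_mem_cancel_left (hl.inertia_le hφ g1)).1 hx
  have A : ∀ k ∈ H, k ∈ inertia U (lin μ) → ∀ z w : P, (w : G) = k * z * k⁻¹ → φ z ≠ 0 → φ w = φ z := by
    intro k hk k1 z w e hz
    obtain ⟨b, hb, u, hu, e1⟩ := mem_sup_of_normal_right.1 (hv z hz)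
    have u1 := Normal.conj_mem inferInstance u hu k
    rw [show z = ⟨b, hb.1⟩ * ⟨u, h hu⟩ from Subtype.ext e1.symm,
      show w = ⟨b, hb.1⟩ * ⟨_, h u1⟩ from Subtype.ext (by
        rw [e, ← e1, ← mul_assoc, hb.2 k hk]; simp only [coe_mul, mul_assoc]),
      hl _ ⟨u, hu⟩, hl _ ⟨_, u1⟩]
    exact congrArg _ ((mem_inertia_iff U).1 k1 ⟨u, hu⟩)
  refine mul_mem g1 ((mem_inertia_iff P).2 fun z => ?_)
  by_cases hz : φ z = 0
  · by_contra e
    exact e (A k⁻¹ (inv_mem hk) (inv_mem k1) _ z (by group) (hz ▸ e)).symm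
  · exact A k hk k1 z _ rfl hz

variable {N : Subgroup G} [N.Normal] {θ : N → ℂ} {χ : G → ℂ}

/-- `indFun T η` is irreducible over `θ` (`isIrrCharacter_indFun_of_over`, cf. the proof of
`mul_mem_cd_of_extension`), and `Gar.same_deg`. -/
theorem deg_ext (hN : _root_.commutator G ≤ N) (hθ : IsIrrCharacter N θ) {η : inertia N θ → ℂ}
    (hη : IsCharacter _ η) (he : ∀ n : N, η ⟨n, le_inertia N hθ.isClassFunction n.2⟩ = θ n)
    (hχ : IsIrrCharacter G χ) (ho : ov N χ θ) :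
    charDegree χ = (inertia N θ).index * charDegree θ := by
  classical
  have l := le_inertia N hθ.isClassFunction
  have h1 : (fun n : N => η ⟨n, l n.2⟩) = θ := funext he
  have h2 := isIrrCharacter_of_comp (inclusion l) hη (by rw [← h1] at hθ; exact hθ)
  have h3 := (bijOn_indFun_over N l hθ le_rfl).mapsTo (x := η)
    ⟨h2, by rw [h1, hθ.inner_self]; exact one_ne_zero⟩
  rw [same_deg hN h3.1 hχ hθ (by convert h3.2) ho, deg_ind _ hη]
  exact congrArg _ (charDegree_congr (he 1))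

/-- `exists_extension_le_of_isCyclic`, `isCyclic_quotient_subgroupOf_of_map`. -/
theorem deg_cyc (hN : IsCyclic (G ⧸ N)) (hθ : IsIrrCharacter N θ) (hχ : IsIrrCharacter G χ)
    (ho : ov N χ θ) : charDegree χ = (inertia N θ).index * charDegree θ := by
  obtain ⟨η, h1, h2⟩ := exists_extension_le_of_isCyclic N (le_inertia N hθ.isClassFunction) hθ le_rfl
    (isCyclic_quotient_subgroupOf_of_map N inferInstance)
  exact deg_ext (Normal.quotient_commutative_iff_commutator_le.1 inferInstance) hθ h1.isCharacter h2 hχ ho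

/-- `exists_extension_le_of_coprime`. -/
theorem deg_cop (hN : _root_.commutator G ≤ N) (hc : (Nat.card N).Coprime N.index)
    (hθ : IsIrrCharacter N θ) (hχ : IsIrrCharacter G χ) (ho : ov N χ θ) :
    charDegree χ = (inertia N θ).index * charDegree θ := by
  have l := le_inertia N hθ.isClassFunction
  obtain ⟨η, h1, h2⟩ := exists_extension_le_of_coprime N l hθ le_rfl
    (hc.coprime_dvd_right (relIndex_dvd_index_of_le l))
  exact deg_ext hN hθ h1.isCharacter h2 hχ ho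

/-- `Pal.exists_ext_split`, `mul_mem_cd_of_extension`. -/
theorem idx_mul_mem {Y : Subgroup G} (h1 : N ⊓ Y = ⊥) (h2 : N ⊔ Y = ⊤) (a : Lin N) {n : ℕ}
    (hn : n ∈ cd (inertia N (lin a) ⧸ N.subgroupOf (inertia N (lin a)))) :
    (inertia N (lin a)).index * n ∈ cd G := by
  have l := le_inertia N (irr_lin a).isClassFunction
  obtain ⟨η, hη⟩ := Pal.exists_ext_split h1 h2 a.hom l le_rfl
  have := mul_mem_cd_of_extension N (irr_lin a) l le_rfl (isCharacter_hom η)
    (fun n => congrArg Units.val (hη n)) hn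
  rwa [deg_lin, mul_one] at this

end Cfsg.Lib.Nd4
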