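import Cfsg.Agent.Lib.Nda.B

/-!
# Solvable groups without divisibility among character degrees: definitions
-/

set_option autoImplicit false

namespace Cfsg.Lib.Nd4
open Cfsg.Lib.Char Cfsg.Lib.CharDeg Cfsg.Lib.Clifford Cfsg.Lib.Induce Cfsg.Lib.Core Cfsg.Lib.Gar
  Cfsg.Lib.RelGraph Cfsg.Lib.Nda Cfsg.Lib.BG Subgroup MulAction
open scoped commutatorElement

variable {G : Type*} [Group G]

/-- The linear characters of `X` that are trivial on `X ⊓ Y`. -/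
def Tr (X Y : Subgroup G) : Subgroup (Lin X) where
  carrier := {a | ∀ n : X, (n : G) ∈ Y → ev n a = 1}
  one_mem' _ _ := map_one _
  mul_mem' ha hb n hn := by rw [map_mul, ha n hn, hb n hn, mul_one]
  inv_mem' {a} ha n hn := by
    have := map_mul (ev n) a⁻¹ a
    rwa [inv_mul_cancel, map_one, ha n hn, mul_one, eq_comm] at this

theorem mem_Tr {X Y : Subgroup G} {a : Lin X} : a ∈ Tr X Y ↔ ∀ n : X, (n : G) ∈ Y → ev n a = 1 :=
  Iff.rfl

theorem ev_cj {X : Subgroup G} [hX : X.Normal] (g : G) (a : Lin X) (n : X) :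
    ev n (cj g a) = ev ⟨g * n * g⁻¹, hX.conj_mem _ n.2 g⟩ a := rfl

theorem ev_mul {X : Subgroup G} (a : Lin X) (m n : X) : ev (m * n) a = ev m a * ev n a := by
  change ((a.hom (m * n) : ℂˣ) : ℂ) = a.hom m * a.hom n
  rw [map_mul, Units.val_mul]

theorem ev_ne_zero {X : Subgroup G} (a : Lin X) (n : X) : ev n a ≠ 0 := (a.hom n).ne_zero

theorem cj_one {X : Subgroup G} [X.Normal] (a : Lin X) : cj (1 : G) a = a :=
  mem_inertia_lin.1 (one_mem _)

theorem cj_of_mem {X : Subgroup G} [X.Normal] {g : G} (hg : g ∈ X) (a : Lin X) : cj g a = a :=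
  mem_inertia_lin.1 (le_inertia X (irr_lin a).isClassFunction hg)

theorem cj_mem_Tr {X Y : Subgroup G} [X.Normal] [hY : Y.Normal] (g : G) {a : Lin X} (ha : a ∈ Tr X Y) :
    cj g a ∈ Tr X Y := fun n hn => ha _ (hY.conj_mem _ hn g)

/-- Conjugation action on `Tr X Y`. -/
noncomputable scoped instance trAct (X Y : Subgroup G) [X.Normal] [Y.Normal] :
    MulDistribMulAction G (Tr X Y) where
  smul g a := ⟨cj g⁻¹ a, cj_mem_Tr _ a.2⟩
  one_smul a := Subtype.ext (show cj (1 : G)⁻¹ a.1 = a.1 by rw [inv_one, cj_one])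
  mul_smul g h a := Subtype.ext (show cj (g * h)⁻¹ a.1 = cj g⁻¹ (cj h⁻¹ a.1) by rw [mul_inv_rev, cj_mul])
  smul_one _ := Subtype.ext (map_one _)
  smul_mul _ _ _ := Subtype.ext (map_mul _ _ _)

theorem tr_smul {X Y : Subgroup G} [X.Normal] [Y.Normal] (g : G) (a : Tr X Y) :
    ((g • a : Tr X Y) : Lin X) = cj g⁻¹ a := rfl

theorem stab_Tr {X Y : Subgroup G} [X.Normal] [Y.Normal] (a : Tr X Y) :
    stabilizer G a = inertia X (lin a.1) := by
  ext g
  rw [mem_stabilizer_iff, Subtype.ext_iff, tr_smul, ← mem_inertia_lin, inv_mem_iff]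

/-- The kernel of the action on `Tr X Y`. -/
noncomputable def Kn (X Y : Subgroup G) [X.Normal] : Subgroup G := ⨅ a ∈ Tr X Y, inertia X (lin a)

theorem mem_Kn {X Y : Subgroup G} [X.Normal] {g : G} : g ∈ Kn X Y ↔ ∀ a ∈ Tr X Y, cj g a = a := by
  simp only [Kn, mem_iInf, mem_inertia_lin]

/-- `G ⧸ Kn X Y` acts semiregularly on the nontrivial elements of `Tr X Y`. -/
def Sr (X Y : Subgroup G) [X.Normal] : Prop := ∀ a ∈ Tr X Y, a ≠ 1 → inertia X (lin a) ≤ Kn X Y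

/-- `U ≤ P` acts in `φ` by the scalars `μ`. -/
def Ly {P U : Subgroup G} (h : U ≤ P) (φ : P → ℂ) (μ : Lin U) : Prop :=
  ∀ (g : P) (u : U), φ (g * ⟨u, h u.2⟩) = φ g * ev u μ

/-- The lower central series of a normal subgroup. -/
scoped instance lcsNormal (P : Subgroup G) [hP : P.Normal] (i : ℕ) : (P.lowerCentralSeries i).Normal := by
  induction i with
  | zero => exact hP
  | succ i _ => rw [Subgroup.lowerCentralSeries_succ]; infer_instance

theorem lcs_le (P : Subgroup G) (i : ℕ) : P.lowerCentralSeries i ≤ P :=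
  P.lowerCentralSeries_antitone (Nat.zero_le i)

/-- The standing hypotheses: `G ⧸ N` is cyclic of order `f`, a degree of `G ⧸ N'`. -/
structure Hn (G : Type*) [Group G] [Finite G] (N : Subgroup G) [N.Normal] (p : ℕ) : Prop where
  hp : p.Prime
  sol : Group.IsSolvable G
  nd : ∀ a ∈ cd G, ∀ b ∈ cd G, a ≠ 1 → a ∣ b → a = b
  cyc : IsCyclic (G ⧸ N)
  f1 : N.index ≠ 1
  np : ¬ p ∣ N.index
  ex : ∃ χ, IsIrrCharacter G χ ∧ Kr χ ⁅N, N⁆ ∧ charDegree χ = N.index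
  pm : ∀ m ∈ cd N, m ≠ 1 → p ∣ m
  nq : _root_.commutator G ≤ ⁅_root_.commutator G, ⊤⁆
  pa : ∃ a ∈ N, a ∉ Lc N ∧ ∃ k, a ^ p ^ k = 1

/-- `N = M P` with `M` the normal `p`-complement and `P` a Sylow `p`-subgroup. -/
structure Mp (G : Type*) [Group G] [Finite G] (N M P : Subgroup G) [N.Normal] [M.Normal] (p : ℕ) :
    Prop extends Hn G N p where
  pP : IsPGroup p P
  pM : ¬ p ∣ Nat.card M
  sup : M ⊔ P = N

/-- Case α: the Sylow `p`-subgroup `P` is normal with an abelian complement `H`. -/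
structure Al (G : Type*) [Group G] [Finite G] (N P H : Subgroup G) [N.Normal] [P.Normal] (p : ℕ) :
    Prop extends Hn G N p where
  pP : IsPGroup p P
  PN : P ≤ N
  pH : ¬ p ∣ Nat.card H
  sup : P ⊔ H = ⊤
  cH : ∀ a ∈ H, ∀ b ∈ H, a * b = b * a
  cn : N ⊓ H ≤ 𝐂(P)

/-- Case β-I: `N'` has a complement `Y`. -/
structure Sb (G : Type*) [Group G] [Finite G] (N Y : Subgroup G) [N.Normal] (p : ℕ) :
    Prop extends Hn G N p where
  inf : ⁅N, N⁆ ⊓ Y = ⊥
  sup : ⁅N, N⁆ ⊔ Y = ⊤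

/-- The action of the complement `Y` on the dual `Γ` of the top chief factor of `N'`; `A = N ⊓ Y`. -/
structure Top (Y Γ : Type*) [Group Y] [Finite Y] [CommGroup Γ] [Finite Γ] [MulDistribMulAction Y Γ]
    (A : Subgroup Y) [A.Normal] (q : ℕ) : Prop where
  hq : q.Prime
  pq : IsPGroup q Γ
  nt : Nontrivial Γ
  cyc : IsCyclic (Y ⧸ A)
  cA : ∀ a ∈ A, ∀ b ∈ A, a * b = b * a
  W1 : _root_.commutator Y ≠ ⊥
  fW : ∀ y ∉ A, ∀ w ∈ _root_.commutator Y, y * w = w * y → w = 1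
  fA : ∀ a ∈ A, a ∉ center Y → ∀ γ : Γ, a • γ = γ → γ = 1
  irr : ∀ Δ : Subgroup Γ, (∀ y : Y, ∀ γ ∈ Δ, y • γ ∈ Δ) → Δ = ⊥ ∨ Δ = ⊤
  nd : ∀ γ δ : Γ, γ ≠ 1 → δ ≠ 1 → (stabilizer Y γ).index ∣ (stabilizer Y δ).index →
    (stabilizer Y γ).index = (stabilizer Y δ).index
  nf : ∀ γ : Γ, γ ≠ 1 → ¬ A.index ∣ (stabilizer Y γ).index

end Cfsg.Lib.Nd4
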