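import Cfsg.Agent.Lib.Nd4.Def

/-!
# The pigeonhole lemma
-/

set_option autoImplicit false

namespace Cfsg.Lib.Nd4
open Cfsg.Lib.Char Cfsg.Lib.CharDeg Cfsg.Lib.Clifford Cfsg.Lib.Induce Cfsg.Lib.Core Cfsg.Lib.Gar
  Cfsg.Lib.RelGraph Cfsg.Lib.Nda Cfsg.Lib.BG Subgroup MulAction
open scoped commutatorElement

variable {G : Type*} [Group G] [Fintype G]

theorem pig_cyc {C : Type*} [Group C] [Finite C] [IsCyclic C] {x y : C} (h : orderOf x = orderOf y) :
    x ∈ zpowers y := by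
  classical
  have := Fintype.ofFinite C
  have e : (zpowers y : Set C).toFinset = Finset.univ.filter (· ^ orderOf y = 1) := Finset.eq_of_subset_of_card_le
    (fun a ha => by simpa using orderOf_dvd_iff_pow_eq_one.1 (orderOf_dvd_of_mem_zpowers (by simpa using ha)))
    ((IsCyclic.card_pow_eq_one_le (orderOf_pos y)).trans_eq (by
      rw [Set.toFinset_card, ← Nat.card_eq_fintype_card, SetLike.coe_sort_coe, Nat.card_zpowers]))
  simpa [← h] using (Finset.ext_iff.1 e x).2 (by simp [← h])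

/-- Let `u = |Λ : S ⊓ Λ|`. For `a ∈ Λ` choose a prime `r a` and `x a ∈ T a \ N` with `x a ^ r a ∈ N`
(`T a / N` is a nontrivial subgroup of the cyclic group `G ⧸ N`). (i) `r a ∣ u - 1`: `cj (x a)` induces a
permutation `σ` of `Λ ⧸ S ⊓ Λ` with `σ ^ r = 1` whose only fixed point is the trivial coset: the
injective map `b ↦ cj x b / b` of `Λ` maps `S ⊓ Λ` into, so onto, itself; so `cj x b / b ∈ S` gives
`b ∈ S` (`Equiv.Perm.card_fixedPoints_modEq`, or `IsPGroup.card_modEq_card_fixedPoints`).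
(ii) if `r a = r b` then `x a ∈ T b` (a cyclic group has one subgroup of each order,
`N ≤ T b`), so `h3` and the above give `a / b ∈ S`. Hence cosets inject into the primes dividing
`u - 1`, which lie in `[1, u - 1]` if `u > 1`: `u ≤ u - 1`. -/
theorem pig {X N : Subgroup G} [X.Normal] [N.Normal] (hc : IsCyclic (G ⧸ N)) (Λ S : Subgroup (Lin X))
    (hΛ : ∀ g : G, ∀ a ∈ Λ, cj g a ∈ Λ) (hN : ∀ g ∈ N, ∀ a ∈ Λ, cj g a = a) (T : Lin X → Subgroup G)
    (h1 : ∀ a ∈ Λ, N ≤ T a ∧ ¬ T a ≤ N)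
    (h2 : ∀ a ∈ Λ, ∀ x ∈ T a, x ∉ N → (∀ s ∈ S, cj x s ∈ S) ∧ ∀ b ∈ Λ, cj x b = b → b = 1)
    (h3 : ∀ a ∈ Λ, ∀ b ∈ Λ, ∀ x ∈ T a, x ∈ T b → cj x (a / b) / (a / b) ∈ S) : Λ ≤ S := by
  classical
  have : Finite (Lin X) := finite_hom_units X
  have K : ∀ a ∈ Λ, ∀ x ∈ T a, x ∉ N → ∀ b ∈ Λ, cj x b / b ∈ S → b ∈ S := fun a ha x hx hn b hb e => by
    obtain ⟨k1, k2⟩ := h2 a ha x hx hn
    have k : ∀ b ∈ Λ, ∀ c ∈ Λ, cj x b / b = cj x c / c → b = c := fun b hb c hc e =>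
      div_eq_one.1 (k2 _ (div_mem hb hc) (by rw [map_div, div_eq_div_iff_div_eq_div, e]))
    obtain ⟨s, hs⟩ := Finite.surjective_of_injective (f := fun b : ↥(Λ ⊓ S) =>
      (⟨cj x b.1 / b.1, div_mem (mem_inf.2 ⟨hΛ _ _ b.2.1, k1 _ b.2.2⟩) b.2⟩ : ↥(Λ ⊓ S)))
      (fun b c e => Subtype.ext (k _ b.2.1 _ c.2.1 (congrArg Subtype.val e))) ⟨_, mem_inf.2 ⟨div_mem (hΛ x b hb) hb, e⟩⟩
    exact k _ s.2.1 _ hb (congrArg Subtype.val hs) ▸ s.2.2
  have : ∀ a : Λ, ∃ x ∈ T a, (orderOf (x : G ⧸ N)).Prime := fun a => by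
    obtain ⟨y, hy, hn⟩ := SetLike.not_le_iff_exists.1 (h1 a a.2).2
    obtain ⟨r, hr, d⟩ := Nat.exists_prime_and_dvd (mt orderOf_eq_one_iff.1 (mt (QuotientGroup.eq_one_iff y).1 hn))
    exact ⟨y ^ (orderOf (y : G ⧸ N) / r), pow_mem hy _, by
      rwa [QuotientGroup.mk_pow, orderOf_pow_orderOf_div (orderOf_pos _).ne' d]⟩
  choose x hx hr using this
  have xn : ∀ a, x a ∉ N := fun a e => (hr a).ne_one (orderOf_eq_one_iff.2 ((QuotientGroup.eq_one_iff _).2 e))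
  let D := S.subgroupOf Λ
  have := Fintype.ofFinite (Λ ⧸ D)
  have i1 : ∀ a, Fintype.card (Λ ⧸ D) ≡ 1 [MOD orderOf (x a : G ⧸ N)] := fun a => by
    haveI := Fact.mk (hr a)
    let f' := QuotientGroup.map D D (((cj (x a)).comp Λ.subtype).codRestrict Λ fun b => hΛ _ _ b.2)
      fun b hb => (h2 a a.2 _ (hx a) (xn a)).1 _ hb
    let f : Function.End (Λ ⧸ D) := ⇑f'
    have fp : ∀ (k : ℕ) (b : Λ), (f ^ k) b = ((⟨cj (x a ^ k) b, hΛ _ _ b.2⟩ : Λ) : Λ ⧸ D) := fun k b => by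
      induction k with
      | zero => simp only [pow_zero, cj_one]; rfl
      | succ k ih =>
        simp only [pow_succ' f, pow_succ (x a), cj_mul]
        exact congrArg f ih
    have := Equiv.Perm.card_fixedPoints_modEq (f := f) (p := orderOf (x a : G ⧸ N)) (n := 1) (funext fun q => by
      obtain ⟨b, rfl⟩ := QuotientGroup.mk_surjective q
      rw [fp]
      exact congrArg _ (Subtype.ext (hN _ ((QuotientGroup.eq_one_iff _).1 (by
        rw [pow_one, QuotientGroup.mk_pow, pow_orderOf_eq_one])) _ b.2)))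
    rwa [Fintype.card_eq_one_iff.2 ⟨(⟨1, map_one f'⟩ : f.fixedPoints), fun ⟨q, hq⟩ => Subtype.ext (by
      obtain ⟨b, rfl⟩ := QuotientGroup.mk_surjective q
      exact (QuotientGroup.eq_one_iff _).2 (K a a.2 _ (hx a) (xn a) _ b.2 (QuotientGroup.eq_iff_div_mem (N := D) (y := b) |>.1 hq)))⟩] at this
  have i2 : Function.Injective fun q : Λ ⧸ D => orderOf (x q.out : G ⧸ N) := fun q q' e => by
    obtain ⟨k, hk⟩ := pig_cyc e
    have : x q.out ∈ T q'.out := by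
      have := (h1 _ q'.out.2).1 (QuotientGroup.eq.1 ((QuotientGroup.mk_zpow _ _ k).trans hk))
      rwa [mul_mem_cancel_left (inv_mem (zpow_mem (hx _) k))] at this
    rw [← q.out_eq', ← q'.out_eq']
    exact QuotientGroup.eq_iff_div_mem.2 (K _ q.out.2 _ (hx _) (xn _) _ (div_mem q.out.2 q'.out.2)
      (h3 _ q.out.2 _ q'.out.2 _ (hx _) this))
  by_contra n
  have u : 1 < Fintype.card (Λ ⧸ D) := by
    rw [← Nat.card_eq_fintype_card]
    exact one_lt_index_of_ne_top fun e => n (subgroupOf_eq_top.1 e)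
  have := Finset.card_le_card_of_injOn (s := Finset.univ) (t := Finset.Ico 1 (Fintype.card (Λ ⧸ D))) _
    (fun q _ => Finset.mem_coe.2 (Finset.mem_Ico.2 ⟨(hr _).pos, by
      have := Nat.le_of_dvd (by omega) ((Nat.modEq_iff_dvd' u.le).1 (i1 q.out).symm)
      omega⟩)) i2.injOn
  rw [Nat.card_Ico, Finset.card_univ] at this
  omega

end Cfsg.Lib.Nd4
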