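import Cfsg.Agent.Lib.Nd4.Tool
import Cfsg.Agent.Lib.Nd4.Chr
import Cfsg.Agent.Lib.Nd4.Pig

/-!
# General consequences of `Hn`
-/

set_option autoImplicit false

namespace Cfsg.Lib.Nd4
open Cfsg.Lib.Char Cfsg.Lib.CharDeg Cfsg.Lib.Clifford Cfsg.Lib.Induce Cfsg.Lib.Core Cfsg.Lib.Gar
  Cfsg.Lib.RelGraph Cfsg.Lib.Nda Cfsg.Lib.BG Subgroup MulAction
open scoped commutatorElement

/-- The conclusion of the theorem. -/
abbrev Res (G : Type*) [Group G] [Finite G] : Prop := (cd G).card ≤ 4 ∧ derivedSeries G 3 = ⊥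

variable {G : Type*} [Group G] [Fintype G] {N : Subgroup G} [N.Normal] {p : ℕ} {χ : G → ℂ}

omit [N.Normal] in
/-- `cd G ⊆ {1, a, b, c}` (`mem_cd'`, `Finset.card_le_four`). -/
theorem card_le_four {a b c : ℕ} (h : ∀ χ : G → ℂ, IsIrrCharacter G χ → charDegree χ = 1 ∨
    charDegree χ = a ∨ charDegree χ = b ∨ charDegree χ = c) : (cd G).card ≤ 4 := by
  refine (Finset.card_le_card (t := {1, a, b, c}) fun n hn => ?_).trans Finset.card_le_four
  obtain ⟨χ, h1, rfl⟩ := mem_cd'.1 hn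
  simpa using h χ h1

omit [Fintype G] in
/-- `r ↦ κ ⁅u, r⁆` is multiplicative: `⁅u, r s⁆ = ⁅u, r⁆ * (r ⁅u, s⁆ r⁻¹)` and
`r z r⁻¹ = ⁅r, z⁆ z`. -/
theorem exists_pair {U V X : Subgroup G} [U.Normal] {κ : Lin U} (hκ : κ ∈ Tr U V) {u : G}
    (h1 : ∀ r ∈ X, ⁅u, r⁆ ∈ U) (h2 : ⁅X, U⁆ ≤ V) :
    ∃ a : Lin X, ∀ r : X, ev r a = ev (⟨⁅u, (r : G)⁆, h1 r r.2⟩ : U) κ := by
  refine ⟨MonoidHom.mk' (fun r : X => κ.hom ⟨_, h1 r r.2⟩) fun r s => ?_, fun _ => rfl⟩
  have h3 := commutator_mem_commutator r.2 (h1 s s.2)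
  have h4 : κ.hom ⟨_, commutator_le_right X U h3⟩ = 1 := Units.ext (hκ _ (h2 h3))
  rw [← one_mul (κ.hom ⟨_, h1 s s.2⟩), ← h4, ← map_mul, ← map_mul]
  exact congrArg κ.hom (Subtype.ext (by simp [commutatorElement_def, mul_assoc]))

namespace Hn
variable (h : Hn G N p)
include h

theorem cm : _root_.commutator G ≤ N := by
  have := h.cyc
  exact Normal.quotient_commutative_iff_commutator_le.1 inferInstance

theorem f_mem : N.index ∈ cd G := by
  obtain ⟨χ, h1, -, h2⟩ := h.ex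
  exact h2 ▸ charDegree_mem_cd h1

/-- As `cl` in S4781.lean (`exists_mem_cd_normal`). -/
theorem cl {d : ℕ} (hd : d ∈ cd G) (h1 : d ≠ 1) (h2 : ¬ p ∣ d) : d = N.index := by
  obtain ⟨k, m, k1, k2, rfl⟩ := exists_mem_cd_normal N hd
  refine h.nd _ hd _ h.f_mem h1 ?_
  rwa [show m = 1 from by_contra fun c => h2 ((h.pm m k2 c).mul_left _), mul_one]

/-- `ito_kr` and `nd`. -/
theorem deg_kr (hχ : IsIrrCharacter G χ) (hk : Kr χ ⁅N, N⁆) :
    charDegree χ = 1 ∨ charDegree χ = N.index := by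
  exact or_iff_not_imp_left.2 fun e =>
    h.nd _ (charDegree_mem_cd hχ) _ h.f_mem e (ito_kr le_rfl hχ hk)

/-- Otherwise `f ∣ index ∣ χ(1)` for `χ` over `φ` (`deg_dvd`), so `f = χ(1)` is divisible by `p`. -/
theorem not_le {X : Subgroup G} [X.Normal] {φ : X → ℂ} (hφ : IsIrrCharacter X φ)
    (hd : p ∣ charDegree φ) : ¬ inertia X φ ≤ N := by
  intro l
  have := Fintype.ofFinite X
  obtain ⟨χ, h1, h2⟩ := exists_irr_above X hφ
  have h3 := deg_dvd h1 hφ (by convert h2)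
  have e := h.nd _ h.f_mem _ (charDegree_mem_cd h1) h.f1
    ((index_dvd_of_le l).trans ((dvd_mul_right _ _).trans h3))
  exact h.np (e ▸ hd.trans ((dvd_mul_left _ _).trans h3))

/-- `⁅g, a⁆ ∉ N'` for the element of `pa`. -/
theorem not_le' : ¬ _root_.commutator G ≤ ⁅N, N⁆ := by
  obtain ⟨a, -, h1, -⟩ := h.pa
  exact fun e => h1 (mem_Lc.2 fun g => e (commutator_mem_commutator (mem_top g) (mem_top a)))

/-- (G1) `T = I(a)` has `index T ∈ cd G` (`deg_cyc`), `index T ∣ f`; `nd` gives `T = ⊤` or `T = N`. -/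
theorem lin_inv {a : Lin N} {g : G} (hg : g ∉ N) (ha : cj g a = a) (x : G) : cj x a = a := by
  have := Fintype.ofFinite N
  have l := le_inertia N (irr_lin a).isClassFunction
  obtain ⟨χ, h1, h2⟩ := exists_irr_above N (irr_lin a)
  have e := deg_cyc h.cyc (irr_lin a) h1 (by convert h2)
  rw [deg_lin, mul_one] at e
  refine mem_inertia_lin.1 ((index_eq_one.1 (by_contra fun c => hg ?_)).ge (mem_top x))
  have := h.nd _ (e ▸ charDegree_mem_cd h1) _ h.f_mem c (index_dvd_of_le l)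
  exact relIndex_eq_one.1 ((Nat.mul_eq_right index_ne_zero_of_finite).1
    ((relIndex_mul_index l).trans this.symm)) (mem_inertia_lin.2 ha)

theorem gen : ∃ y ∉ N, ∀ x : G, ∃ k : ℕ, ∃ n ∈ N, x = y ^ k * n := by
  obtain ⟨y, hy⟩ := h.cyc.exists_monoid_generator
  obtain ⟨y, rfl⟩ := QuotientGroup.mk_surjective y
  have k : ∀ x : G, ∃ k : ℕ, ∃ n ∈ N, x = y ^ k * n := fun x => by
    obtain ⟨k, hk⟩ := hy x
    exact ⟨k, _, QuotientGroup.eq.1 (show ((y ^ k : G) : G ⧸ N) = x from hk), by simp⟩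
  refine ⟨y, fun e => h.f1 (index_eq_one.2 (eq_top_iff.2 fun x _ => ?_)), k⟩
  obtain ⟨k, n, hn, rfl⟩ := k x
  exact mul_mem (pow_mem e k) hn

/-- Let `y₀` generate `G ⧸ N`, `D g : Lin N →* Lin N`, `b ↦ cj g b / b`. `range (D y) ≤ range (D y₀)` for
all `y` (the set of such `y` is a subgroup containing `N` and `y₀`), and `ker (D g) = ker (D y₀)` by
`lin_inv`, so `range (D g) = range (D y₀)` by counting. So for all `b, y`:
`b ⁅y, a⁆ = (D y b) a = (D g c) a = c ⁅g, a⁆ = 1`; `sep`, `mem_Lc`. -/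
theorem cen {g a : G} (hg : g ∉ N) (ha : a ∈ N) (h1 : ⁅g, a⁆ ∈ ⁅N, N⁆) : a ∈ Lc N := by
  have : Finite (Lin N) := finite_hom_units N
  obtain ⟨y₀, hy, hk⟩ := h.gen
  let D : G → Lin N →* Lin N := fun y => cj y / MonoidHom.id _
  have d : ∀ y b, D y b = cj y b / b := fun _ _ => rfl
  have k1 : ∀ y, (D y).range ≤ (D y₀).range := fun y => by
    obtain ⟨k, n, hn, rfl⟩ := hk y
    rintro _ ⟨b, rfl⟩
    rw [d, cj_mul, cj_of_mem hn]
    induction k with
    | zero => rw [pow_zero, cj_one, div_self']; exact one_mem _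
    | succ k ih =>
      rw [pow_succ, cj_mul, ← div_mul_div_cancel _ (cj (y₀ ^ k) b)]
      exact mul_mem ⟨_, rfl⟩ ih
  have k2 : (D g).ker = (D y₀).ker := Subgroup.ext fun b => by
    simp only [MonoidHom.mem_ker, d, div_eq_one]
    exact ⟨fun e => h.lin_inv hg e _, fun e => h.lin_inv hy e _⟩
  have k3 := eq_of_le_of_card_ge (k1 g) (by rw [← index_ker, ← index_ker, k2])
  have c : ∀ y, ⁅y, a⁆ ∈ N := fun y => commutator_le_right _ _ (commutator_mem_commutator (mem_top y) ha)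
  have k4 : ∀ y b, (D y b).hom ⟨a, ha⟩ = b.hom ⟨_, c y⟩ := fun y b =>
    div_eq_iff_eq_mul.2 (Hy.cj_ap y b ⟨a, ha⟩ (c y))
  refine mem_Lc.2 fun y => by_contra fun e => ?_
  obtain ⟨b, -, hb⟩ := ex_lam le_rfl (c y) e
  obtain ⟨b', e'⟩ := k3.ge (k1 y ⟨b, rfl⟩)
  refine hb ((k4 y b).symm.trans ?_)
  rw [← e', k4]
  exact Units.ext (Pal.comm_le_ker (le_inertia N (irr_lin b').isClassFunction) h1)

/-- By `cen`, `⁅y₀, w⁆ ∈ N'`. An `a ∈ Tr G' N'` fixed by `y₀` is fixed by `N ⊔ zpowers y₀ = ⊤`, so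
trivial on `⁅⊤, G'⁆ ≥ G'` (`nq`, `lam_comm`/`Pal.comm_le_ker`); apply `fpf_dual`. -/
theorem fpf {g w : G} (hg : g ∉ N) (hw : w ∈ _root_.commutator G) (h1 : ⁅g, w⁆ ∈ ⁅N, N⁆) :
    w ∈ ⁅N, N⁆ := by
  obtain ⟨y, -, hk⟩ := h.gen
  have c := commutator_mono h.cm h.cm
  refine (fpf_dual c (g := y)).1 (fun a ha e => ?_) w hw (mem_Lc.1 (h.cen hg (h.cm hw) h1) y)
  have : ⊤ ≤ inertia _ (lin a) := fun x _ => by
    obtain ⟨k, n, hn, rfl⟩ := hk x
    exact mul_mem (pow_mem (mem_inertia_lin.2 e) k) (mem_inertia_lin.2 (mem_Kn.1 ((mem_Kn_iff c).2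
      fun z hz => commutator_mem_commutator hn (h.cm hz)) a ha))
  exact lin_injective (funext fun x => Pal.comm_le_ker this (h.nq x.2))

theorem inf_le : _root_.commutator G ⊓ Lc N ≤ ⁅N, N⁆ := by
  obtain ⟨y, hy, -⟩ := h.gen
  exact fun w hw => h.fpf hy hw.1 (mem_Lc.1 hw.2 y)

/-- `fpf_dual`, `fpf`. -/
theorem fix_eq_one {g : G} (hg : g ∉ N) {a : Lin (_root_.commutator G)}
    (ha : a ∈ Tr (_root_.commutator G) ⁅N, N⁆) (h1 : cj g a = a) : a = 1 := by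
  exact (fpf_dual (commutator_mono h.cm h.cm)).2 (fun w hw => h.fpf hg hw) a ha h1

/-- (G4) `pig` with `Λ = Tr X (Lc N)`, `S` the stabilizer of `φ` under `tw`, `T a = I(tw a φ)`
(`conjChar_tw`, `tw_tw`, `tw_injective`). `x ∉ N` is fixed point free on `Λ` by `fpf_dual`: if `z ∈ X`,
`⁅x, z⁆ ∈ Lc N` then `⁅x, z⁆ ∈ N'` (`inf_le`) and `z ∈ Lc N` (`cen`). If `x` fixes `tw a φ` and
`tw s φ = φ` then `tw (cj x s) (tw a φ) = tw a φ`. Finally `sep` gives `a ∈ Λ` with `ev g a ≠ 1`. -/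
theorem van' {X : Subgroup G} [X.Normal] (hX : X ≤ N)
    (hi : ∀ ψ : X → ℂ, IsIrrCharacter X ψ → charDegree ψ ≠ 1 → N ≤ inertia X ψ ∧ ¬ inertia X ψ ≤ N)
    {φ : X → ℂ} (hφ : IsIrrCharacter X φ) (h1 : charDegree φ ≠ 1) {g : X} (hg : (g : G) ∉ Lc N) :
    φ g = 0 := by
  have l : ⁅N, N⁆ ≤ Lc N := le_comap_mk'' _ _
  have c : ⁅X, X⁆ ≤ Lc N := (commutator_mono hX hX).trans l
  let S : Subgroup (Lin X) :=
    { carrier := {s | tw s φ = φ}
      one_mem' := tw_one φ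
      mul_mem' := fun {a b} ha hb => (tw_tw a b φ).symm.trans ((congrArg _ hb).trans ha)
      inv_mem' := fun {a} ha => tw_injective a (by
        rw [tw_tw, mul_inv_cancel, tw_one]; exact ha.symm) }
  have K := pig h.cyc (Tr X (Lc N)) S (fun g a => cj_mem_Tr g)
    (fun g hg => mem_Kn.1 ((mem_Kn_iff c).2 fun z hz => l (commutator_mem_commutator hg (hX hz))))
    (fun a => inertia X (tw a φ)) (fun a _ => hi _ (irr_tw a hφ) (by rwa [deg_tw]))
    (fun a _ x hx hn => ⟨fun s (hs : tw s φ = φ) => tw_injective a (by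
        have := conjChar_tw x s (tw a φ)
        rwa [tw_tw, mul_comm, ← tw_tw, hs, (mem_inertia X).1 hx, tw_tw, mul_comm, ← tw_tw, eq_comm] at this),
      (fpf_dual c).2 fun z hz e => h.cen hn (hX hz)
        (h.inf_le ⟨commutator_mem_commutator (mem_top x) (mem_top z), e⟩)⟩)
    fun a _ b _ x ha hb => tw_injective (cj x b * a) (by
      have e1 := (conjChar_tw x a φ).symm.trans ((mem_inertia X).1 ha)
      have e2 := (conjChar_tw x b φ).symm.trans ((mem_inertia X).1 hb)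
      rw [← tw_tw _ a φ, ← e1, tw_tw (cj x b), mul_comm (cj x b) (cj x a), ← tw_tw (cj x a), e2, tw_tw, tw_tw,
        map_div]
      congr 1
      rw [div_div_div_comm, div_div_div_eq, mul_comm a, mul_comm (cj x b * a), mul_comm (cj x b) a,
        div_mul_cancel])
  obtain ⟨a, ha, h2⟩ := sep c hg
  by_contra h0
  exact h2 ((mul_eq_right₀ h0).1 (congrFun (K ha) g))

theorem van {ψ : N → ℂ} (hψ : IsIrrCharacter N ψ) (h1 : charDegree ψ ≠ 1) {g : N}
    (hg : (g : G) ∉ Lc N) : ψ g = 0 :=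
  h.van' le_rfl (fun _ c1 c2 => ⟨le_inertia N c1.isClassFunction,
    h.not_le c1 (h.pm _ (charDegree_mem_cd c1) c2)⟩) hψ h1 hg

/-- (G5) Copy `Nda.Hy.cam`. -/
theorem cam {a z : G} (ha : a ∈ N) (hL : a ∉ Lc N) (hz : z ∈ ⁅N, N⁆) :
    ∃ n ∈ N, n * a * n⁻¹ = a * z := by
  have hz' := commutator_le_left N N hz
  obtain ⟨c, hc⟩ := isConj_iff.1 (isConj_of_forall_irr (g := (⟨a, ha⟩ : N))
    (h := ⟨a, ha⟩ * ⟨z, hz'⟩) fun ψ hψ => by
      by_cases e : charDegree ψ = 1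
      · exact (hψ.isCharacter.apply_mul_of_apply_eq' (kr_lin hψ.isCharacter e ⟨z, hz'⟩ hz) _).symm
      · rw [h.van hψ e hL, h.van hψ e
          fun e' => hL ((mul_mem_cancel_right (le_comap_mk'' _ _ hz)).1 e')])
  exact ⟨c, c.2, congrArg Subtype.val hc⟩

/-- Cf. `Nda.Hy.quot`; `exists_deflate`, `cd_subset_of_surjective`, `mem_Lc`. -/
theorem quot (L : Subgroup G) [L.Normal] (hL : L ≤ ⁅N, N⁆) :
    Hn (G ⧸ L) (N.map (QuotientGroup.mk' L)) p := by
  have l := hL.trans (commutator_le_left N N)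
  have hπ := QuotientGroup.mk'_surjective L
  have i : (N.map (QuotientGroup.mk' L)).index = N.index := by
    rw [← index_comap_of_surjective _ hπ, comap_map_mk', sup_eq_left.2 l]
  have := h.sol
  have := h.cyc
  refine ⟨h.hp, inferInstance, fun a ha b hb => h.nd a (cd_quotient_subset L ha) b (cd_quotient_subset L hb),
    isCyclic_of_surjective _ (QuotientGroup.quotientQuotientEquivQuotient L N l).symm.surjective,
    i ▸ h.f1, i ▸ h.np, ?_, fun m hm => h.pm m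
      (cd_subset_of_surjective _ ((QuotientGroup.mk' L).subgroupMap_surjective N) hm), ?_, ?_⟩
  · obtain ⟨χ, h1, h2, h3⟩ := h.ex
    obtain ⟨ψ, p1, p2⟩ := h1.exists_deflate L fun x hx => h2 x (hL hx)
    refine ⟨ψ, p1, ?_, i ▸ h3 ▸ charDegree_congr (p2 1)⟩
    rw [← map_commutator]
    rintro _ ⟨x, hx, rfl⟩
    exact (p2 x).trans ((h2 x hx).trans (p2 1).symm)
  · have := map_mono (f := QuotientGroup.mk' L) h.nq
    simpa only [_root_.commutator, map_commutator, map_top_of_surjective _ hπ] using this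
  · obtain ⟨a, h1, h2, k, h3⟩ := h.pa
    refine ⟨a, mem_map_of_mem _ h1, fun e => h2 (mem_Lc.2 fun g => ?_), k, by
      rw [← QuotientGroup.mk_pow, h3, QuotientGroup.mk_one]⟩
    have := mem_Lc.1 e (g : G ⧸ L)
    rw [← map_commutator] at this
    exact (sup_eq_left.2 hL).le ((comap_map_mk' _ _).le (show ⁅g, a⁆ ∈ comap _ _ from this))

/-- `deg_kr`; `G'' ≤ N' = 1`. -/
theorem ab (h0 : ⁅N, N⁆ = ⊥) : Res G := by
  refine ⟨card_le_four (b := 1) (c := 1) fun χ hχ => (h.deg_kr hχ fun x hx => by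
    rw [mem_bot.1 (h0.le hx)]).imp_right Or.inl, ?_⟩
  rw [derivedSeries_succ, derivedSeries_succ, derivedSeries_one,
    eq_bot_iff.2 ((commutator_mono h.cm h.cm).trans h0.le), commutator_bot_left]

end Hn

end Cfsg.Lib.Nd4
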