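import Cfsg.Agent.Lib.Nd4.SQ

/-!
# Camina Lie rings of class three
-/

set_option autoImplicit false
set_option linter.unusedSectionVars false

namespace Cfsg.Lib.Nd4

open Module

/-- The first three graded pieces `W, U, T` of a Lie ring with Camina-type conditions. `N` is the one
condition that comes from the group and not from the graded ring. -/
structure L3 (F W U T : Type*) [Field F] [AddCommGroup W] [Module F W] [AddCommGroup U] [Module F U]
    [AddCommGroup T] [Module F T] where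
  b : W →ₗ[F] W →ₗ[F] U
  c : U →ₗ[F] W →ₗ[F] T
  alt : ∀ a, b a a = 0
  J1 : ∀ x y z, c (b x y) z + c (b y z) x + c (b z x) y = 0
  g1 : ∀ a ≠ 0, Function.Surjective (b a)
  g2 : ∀ u ≠ 0, Function.Surjective (c u)
  N : ∀ (S : Submodule F W) (T0 : Submodule F T), (∀ a ∈ S, a ≠ 0 → LinearMap.ker (b a) = S) →
    (∀ u, ∀ s ∈ S, c u s ∈ T0) → ∃ t : S →ₗ[F] S →ₗ[F] T ⧸ T0, (∀ a, t a a = 0) ∧
      ∀ a ≠ 0, Function.Surjective (t a)

variable {F W U T : Type*} [Field F] [AddCommGroup W] [Module F W] [AddCommGroup U] [Module F U]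
    [AddCommGroup T] [Module F T]

namespace L3

variable (D : L3 F W U T)

/-- `S_μ = {w | μ (c U w) = 0}`. -/
def S (μ : T →ₗ[F] F) : Submodule F W := LinearMap.ker (D.c.compr₂ μ).flip

theorem mem_S {μ : T →ₗ[F] F} {w : W} : w ∈ D.S μ ↔ ∀ u, μ (D.c u w) = 0 := by
  simp [S, LinearMap.ext_iff]

theorem skew (x y : W) : D.b x y = - D.b y x := by
  have := D.alt (x + y)
  simp only [map_add, LinearMap.add_apply, D.alt, zero_add, add_zero] at this
  exact eq_neg_of_add_eq_zero_right this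

variable [Finite F] [FiniteDimensional F W] [FiniteDimensional F U] [FiniteDimensional F T]

/-- rank-nullity with `g1`. -/
theorem dim_ker {a : W} (ha : a ≠ 0) :
    finrank F (LinearMap.ker (D.b a)) + finrank F U = finrank F W := by
  rw [← (D.b a).finrank_range_add_finrank_ker, LinearMap.range_eq_top.2 (D.g1 a ha), finrank_top, add_comm]

/-- The pairing `(u, w) ↦ μ (c u w)` has left kernel `0` by `g2` (`c u` onto, `μ ≠ 0`), so the map
`W → Dual U` has rank `dim U` (`LinearMap.finrank_range_dualMap_eq_finrank_range`, or: its range has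
trivial coannihilator). -/
theorem dim_S {μ : T →ₗ[F] F} (h : μ ≠ 0) : finrank F (D.S μ) + finrank F U = finrank F W := by
  have h1 : Function.Injective (D.c.compr₂ μ) := (injective_iff_map_eq_zero _).2 fun u hu => by
    by_contra u0
    refine h (LinearMap.ext fun t => ?_)
    obtain ⟨w, rfl⟩ := D.g2 u u0 t
    exact LinearMap.congr_fun hu w
  have h2 : Function.Surjective (D.c.compr₂ μ).flip := by
    rw [← LinearMap.flip_injective_iff₂]; exact h1
  rw [← (D.c.compr₂ μ).flip.finrank_range_add_finrank_ker, LinearMap.range_eq_top.2 h2, finrank_top, add_comm]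
  exact congrArg₂ _ Subspace.dual_finrank_eq.symm rfl

/-- `J1 a x y` with `a ∈ S_μ`: `μ c([a,x],y) = μ c([a,y],x)`. If `[a,x] = 0` then `μ c(U, x) = 0`
(`g1`), so `ker (b a) ≤ S_μ`; equal dimensions. -/
theorem perp {μ : T →ₗ[F] F} (h : μ ≠ 0) {a : W} (ha : a ∈ D.S μ) (h0 : a ≠ 0) :
    LinearMap.ker (D.b a) = D.S μ := by
  refine Submodule.eq_of_le_of_finrank_eq (fun x hx => D.mem_S.2 fun u => ?_)
    (by have := D.dim_ker h0; have := D.dim_S h; omega)
  obtain ⟨y, rfl⟩ := D.g1 a h0 u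
  have h1 := congrArg μ (D.J1 a x y)
  rw [LinearMap.mem_ker.1 hx, D.skew y a] at h1
  simpa [D.mem_S.1 ha] using h1

include D in
theorem nontrivial [Nontrivial U] [Nontrivial T] : Nontrivial W := by
  obtain ⟨u, hu⟩ := exists_ne (0 : U)
  exact (D.g2 u hu).nontrivial

include D in
/-- `sq` gives `2 dim U ≤ dim W` (`W ≠ 0` by `g2`). Take `μ ≠ 0` and `w ∉ S_μ` (`dim_S`); `a ↦ b a w`
is injective on `S_μ` by `perp`, so `dim S_μ ≤ dim U`. -/
theorem dimW [Nontrivial U] [Nontrivial T] : finrank F W = 2 * finrank F U := by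
  have := D.nontrivial
  have h1 := sq D.b D.alt D.g1
  obtain ⟨μ, hμ⟩ := exists_ne (0 : Module.Dual F T)
  have h2 := D.dim_S hμ
  have h3 : 0 < finrank F U := finrank_pos
  obtain ⟨w, hw⟩ : ∃ w, w ∉ D.S μ := by
    by_contra! e
    rw [Submodule.eq_top_iff'.2 e, finrank_top] at h2
    omega
  have h4 : Function.Injective (D.b.flip w ∘ₗ (D.S μ).subtype) := (injective_iff_map_eq_zero _).2 fun a ha => by
    by_contra a0
    refine hw ?_
    rw [← D.perp hμ a.2 (fun e => a0 (Subtype.ext e))]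
    exact ha
  have h5 := LinearMap.finrank_le_finrank_of_injective h4
  omega

/-- (M). `T0 = c(U, a)`. If `T0 = ⊤` it is trivial. Otherwise some `μ ≠ 0` kills `T0`; `S = S_μ = ker (b a)`
(`perp`), and every `μ' ≠ 0` killing `T0` has `S_μ' = ker (b a) = S`, so `c(U, S) ≤ T0` (separate by
`Submodule.exists_dual_map_eq_bot_of_notMem` or similar). Apply `N` and `sq` (`dim S = dim U > 0`). -/
theorem M [Nontrivial U] [Nontrivial T] {a : W} (ha : a ≠ 0) :
    2 * finrank F T ≤ 2 * finrank F (LinearMap.range (D.c.flip a)) + finrank F U := by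
  have key : ∀ μ : T →ₗ[F] F, μ ≠ 0 → (LinearMap.range (D.c.flip a)).map μ = ⊥ → LinearMap.ker (D.b a) = D.S μ :=
    fun μ hμ e => D.perp hμ (D.mem_S.2 fun u => (Submodule.mem_bot F).1
      (e ▸ Submodule.mem_map_of_mem (LinearMap.mem_range_self (D.c.flip a) u))) ha
  by_cases h0 : LinearMap.range (D.c.flip a) = ⊤
  · rw [h0, finrank_top]; omega
  obtain ⟨μ, hμ, e⟩ := Submodule.exists_dual_map_eq_bot_of_lt_top (lt_top_iff_ne_top.2 h0) inferInstance
  obtain ⟨t, t1, t2⟩ := D.N (LinearMap.ker (D.b a)) (LinearMap.range (D.c.flip a))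
    (fun x hx x0 => by rw [key μ hμ e] at hx ⊢; exact D.perp hμ hx x0) fun u s hs => by
      by_contra c
      obtain ⟨ν, h1, h2⟩ := Submodule.exists_dual_map_eq_bot_of_notMem c inferInstance
      rw [key ν (by rintro rfl; exact h1 rfl) h2] at hs
      exact h1 (D.mem_S.1 hs u)
  have : Nontrivial (LinearMap.ker (D.b a)) := ⟨⟨a, D.alt a⟩, 0, fun e => ha (congrArg Subtype.val e)⟩
  have h1 := sq t t1 t2
  have h2 := Submodule.finrank_quotient_add_finrank (LinearMap.range (D.c.flip a))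
  have h3 := D.dim_ker ha
  have h4 := D.dimW
  omega

include D in
/-- Take `μ ≠ 0`, `0 ≠ a ∈ S_μ`: `c(U, a) ≤ ker μ` is proper, so `M` gives `2 ≤ dim U`. -/
theorem two_le [Nontrivial U] [Nontrivial T] : 2 ≤ finrank F U := by
  obtain ⟨μ, hμ⟩ := exists_ne (0 : Module.Dual F T)
  have h2 := D.dim_S hμ
  have h3 : 0 < finrank F U := finrank_pos
  have h4 := D.dimW
  have : Nontrivial (D.S μ) := finrank_pos_iff.1 (show 0 < finrank F (D.S μ) by omega)
  obtain ⟨⟨a, ha⟩, a0⟩ := exists_ne (0 : D.S μ)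
  have h5 := D.M (a := a) fun e => a0 (Subtype.ext e)
  have h6 : LinearMap.range (D.c.flip a) ≠ ⊤ := fun e => hμ (LinearMap.ext fun t => by
    obtain ⟨u, rfl⟩ := LinearMap.range_eq_top.1 e t
    exact D.mem_S.1 ha u)
  have h7 := Submodule.finrank_lt h6
  omega

end L3

end Cfsg.Lib.Nd4
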