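import Cfsg.Agent.Lib.Nd4.SQ
import Mathlib.GroupTheory.Sylow

/-!
# Commuting self-adjoint operators for an alternating form
-/

set_option autoImplicit false

namespace Cfsg.Lib.Nd4

open Module

variable {F X W V : Type*} [Field F] [Finite F] [AddCommGroup X] [Module F X] [AddCommGroup W]
  [Module F W] [AddCommGroup V] [Module F V] [FiniteDimensional F V]

/-- A subspace `I` with `β(I, I) = 0` has `2 dim (I + rad) ≤ dim V + dim rad`
(`LinearMap.BilinForm.finrank_add_finrank_orthogonal` for `I ⊔ ker β`, `β` reflexive). -/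
theorem iso_le (β : V →ₗ[F] V →ₗ[F] F) (alt : ∀ v, β v v = 0) (I : Submodule F V)
    (h : ∀ x ∈ I, ∀ y ∈ I, β x y = 0) :
    2 * finrank F ↥(I ⊔ LinearMap.ker β) ≤ finrank F V + finrank F (LinearMap.ker β) := by
  have r : LinearMap.IsRefl β := LinearMap.IsAlt.isRefl alt
  have e := LinearMap.BilinForm.finrank_add_finrank_orthogonal r (I ⊔ LinearMap.ker β)
  have e1 : finrank F ↥(I ⊔ LinearMap.ker β) ≤ finrank F (LinearMap.BilinForm.orthogonal β (I ⊔ LinearMap.ker β)) :=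
    Submodule.finrank_mono fun y hy x hx => by
      obtain ⟨x₁, h1, x', hx', rfl⟩ := Submodule.mem_sup.1 hx
      obtain ⟨y₁, h2, y', hy', rfl⟩ := Submodule.mem_sup.1 hy
      change β (x₁ + x') (y₁ + y') = 0
      rw [map_add β, LinearMap.mem_ker.1 hx', add_zero, map_add, h x₁ h1 y₁ h2,
        r _ _ (LinearMap.congr_fun hy' x₁), add_zero]
  have e2 : finrank F ↥((I ⊔ LinearMap.ker β) ⊓ LinearMap.BilinForm.orthogonal β ⊤) ≤ finrank F (LinearMap.ker β) :=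
    Submodule.finrank_mono fun y hy => LinearMap.ext fun x => r _ _ (hy.2 x trivial)
  omega

/-- Characteristic two. `Γ` a commutative subgroup of `GL(V)` of self-adjoint operators: some `x ≠ 0` has
`β (ρ x) x = 0` for all `ρ ∈ Γ`. `V` and `Γ` are finite; a Sylow `2`-subgroup `Q` of `Γ` fixes some
`x ≠ 0` (`IsPGroup.exists_fixed_point_of_prime_dvd_card_of_fixed_point`, `2 ∣ card V`). For `ρ ∈ Γ` of
order `2^k m`, `m` odd, write `ρ = σ * γ ^ 2` with `σ ∈ zpowers ρ` a `2`-element (so in `Q`, `Γ` is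
commutative) and `γ ∈ zpowers ρ`; then `β (ρ x) x = β (γ γ x) x = β (γ x) (γ x) = 0`. -/
theorem fix_two [Nontrivial V] (h2 : (2 : F) = 0) (β : V →ₗ[F] V →ₗ[F] F) (alt : ∀ v, β v v = 0)
    (Γ : Subgroup (V ≃ₗ[F] V)) (hc : ∀ ρ ∈ Γ, ∀ σ ∈ Γ, ρ * σ = σ * ρ)
    (sa : ∀ ρ ∈ Γ, ∀ x y, β (ρ x) y = β x (ρ y)) : ∃ x ≠ 0, ∀ ρ ∈ Γ, β (ρ x) x = 0 := by
  haveI : Finite V := Module.finite_of_finite F
  haveI : Finite (V ≃ₗ[F] V) := DFunLike.finite _
  let Q : Subgroup (V ≃ₗ[F] V) :=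
    { carrier := {σ | σ ∈ Γ ∧ ∃ k : ℕ, σ ^ 2 ^ k = 1}
      one_mem' := ⟨Γ.one_mem, 0, one_pow _⟩
      mul_mem' := fun {a b} ⟨ha, k, e⟩ ⟨hb, l, e'⟩ => ⟨Γ.mul_mem ha hb, k + l, by
        rw [Commute.mul_pow (hc a ha b hb), pow_add, pow_mul, e, mul_comm (2 ^ k), pow_mul, e', one_pow, one_pow,
          one_mul]⟩
      inv_mem' := fun {a} ⟨ha, k, e⟩ => ⟨Γ.inv_mem ha, k, by rw [inv_pow, e, inv_one]⟩ }
  have pQ : IsPGroup 2 Q := fun σ => σ.2.2.imp fun k e => Subtype.ext e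
  obtain ⟨v, v0⟩ := exists_ne (0 : V)
  obtain ⟨x, hx, x0⟩ := pQ.exists_fixed_point_of_prime_dvd_card_of_fixed_point V
    (addOrderOf_eq_prime (p := 2) (by rw [← Nat.cast_smul_eq_nsmul F, Nat.cast_ofNat, h2, zero_smul]) v0 ▸
      addOrderOf_dvd_natCard v) (a := 0) fun σ => map_zero σ.1
  refine ⟨x, x0.symm, fun ρ hρ => ?_⟩
  obtain ⟨k, m, ⟨j, rfl⟩, e⟩ := Nat.exists_eq_two_pow_mul_odd (orderOf_pos ρ).ne'
  have : (ρ ^ (2 * j + 1)) x = x :=
    hx ⟨_, Γ.pow_mem hρ _, k, by rw [← pow_mul, mul_comm, ← e, pow_orderOf_eq_one]⟩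
  rw [pow_succ, two_mul, pow_add, LinearEquiv.mul_apply, LinearEquiv.mul_apply] at this
  conv_lhs => arg 2; rw [← this]
  rw [← sa _ (Γ.pow_mem hρ j), alt]

/-- Nondegenerate case. If `X = 0` trivial. `φ a d = 0`, `a ≠ 0` gives `β (φ a' d) (φ a c) = 0` for all
`c`, so `φ a' d = 0` for all `a'`. It is enough to find `d` with `φ a d ≠ 0` (then `a' ↦ φ a' d` is
injective) and `β (φ a d) (φ a' d) = 0` for all `a, a'` (then `iso_le`). If `2 ≠ 0` any such `d` works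
(`sym a a' d d` and skew symmetry). If `2 = 0`: fix `a₀ ≠ 0`, for `a ≠ 0` let `γ a` be the linear
equivalence with `γ a (φ a₀ d) = φ a d` (same kernels, `Submodule.quotEquivOfEq`/`LinearMap.quotKerEquivOfSurjective`,
or a linear right inverse `s` of `φ a₀` and `γ a = φ a ∘ s`); `sym a a₀` says `γ a` is self-adjoint,
`sym a a'` says `γ a γ a' = γ a' γ a`. `Γ = closure {γ a}` (commutative, products of commuting
self-adjoint operators and inverses are self-adjoint); `fix_two` gives `x = φ a₀ d`, and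
`β (γ a x) (γ a' x) = β (γ a' γ a x) x = 0`. -/
theorem bnd0 [Nontrivial V] [FiniteDimensional F X] (β : V →ₗ[F] V →ₗ[F] F) (alt : ∀ v, β v v = 0)
    (nd : ∀ v, (∀ y, β v y = 0) → v = 0) (φ : X →ₗ[F] W →ₗ[F] V)
    (sj : ∀ a ≠ 0, Function.Surjective (φ a))
    (sym : ∀ a a' d c, β (φ a d) (φ a' c) = β (φ a' d) (φ a c)) : 2 * finrank F X ≤ finrank F V := by
  rcases subsingleton_or_nontrivial X with hX | hX
  · rw [finrank_zero_of_subsingleton]; exact Nat.zero_le _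
  obtain ⟨a₀, a0⟩ := exists_ne (0 : X)
  have ker : ∀ a ≠ 0, ∀ d, φ a d = 0 → ∀ a', φ a' d = 0 := fun a ha d e a' => nd _ fun y => by
    obtain ⟨c, rfl⟩ := sj a ha y
    rw [sym, e, map_zero, LinearMap.zero_apply]
  suffices ∃ d, φ a₀ d ≠ 0 ∧ ∀ a a', β (φ a d) (φ a' d) = 0 by
    obtain ⟨d, d0, hd⟩ := this
    have := iso_le β alt (LinearMap.range (φ.flip d)) (by rintro _ ⟨a, rfl⟩ _ ⟨a', rfl⟩; exact hd a a')
    rwa [LinearMap.ker_eq_bot'.2 fun v e => nd v (LinearMap.congr_fun e), sup_bot_eq, finrank_bot, add_zero,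
      LinearMap.finrank_range_of_inj ((injective_iff_map_eq_zero _).2 fun a e =>
        by_contra fun ha => d0 (ker a ha d e a₀))] at this
  by_cases h2 : (2 : F) = 0
  swap
  · obtain ⟨v, v0⟩ := exists_ne (0 : V)
    obtain ⟨d, rfl⟩ := sj a₀ a0 v
    refine ⟨d, v0, fun a a' => mul_left_cancel₀ h2 ?_⟩
    linear_combination sym a a' d d - LinearMap.IsAlt.neg alt (φ a d) (φ a' d)
  obtain ⟨s, hs⟩ := (φ a₀).exists_rightInverse_of_surjective (LinearMap.range_eq_top.2 (sj a₀ a0))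
  have hs' : ∀ x, φ a₀ (s x) = x := LinearMap.congr_fun hs
  have su : ∀ a ≠ 0, Function.Surjective (φ a ∘ₗ s) := fun a ha y => by
    obtain ⟨d, rfl⟩ := sj a ha y
    exact ⟨φ a₀ d, sub_eq_zero.1 ((map_sub _ _ _).symm.trans (ker a₀ a0 _ (by rw [map_sub, hs', sub_self]) a))⟩
  have sa : ∀ a x y, β (φ a (s x)) y = β x (φ a (s y)) := fun a x y => by
    conv_lhs => rw [← hs' y, sym, hs']
  let S : Set (V ≃ₗ[F] V) := {γ | ∃ a, ∀ x, γ x = φ a (s x)}
  have hS : S ⊆ Subgroup.centralizer S := by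
    rintro γ ⟨a, e⟩ γ' ⟨a', e'⟩
    ext x
    refine sub_eq_zero.1 (nd _ fun y => ?_)
    rw [map_sub, LinearMap.sub_apply, LinearEquiv.mul_apply, LinearEquiv.mul_apply, e, e', e', e,
      sa a' (φ a (s x)) y, sa a (φ a' (s x)) y, sym a a', sub_self]
  have hC : ∀ ρ ∈ Subgroup.centralizer (Subgroup.centralizer S : Set (V ≃ₗ[F] V)),
      ∀ σ ∈ Subgroup.centralizer (Subgroup.centralizer S : Set (V ≃ₗ[F] V)), ρ * σ = σ * ρ :=
    fun ρ hρ σ hσ => hσ ρ fun γ hγ => hρ γ (hS hγ)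
  let Γ : Subgroup (V ≃ₗ[F] V) :=
    { carrier := {ρ | ρ ∈ Subgroup.centralizer (Subgroup.centralizer S : Set (V ≃ₗ[F] V)) ∧
        ∀ x y, β (ρ x) y = β x (ρ y)}
      one_mem' := ⟨one_mem _, fun _ _ => rfl⟩
      mul_mem' := fun {ρ σ} hρ hσ => ⟨mul_mem hρ.1 hσ.1, fun x y => by
        rw [LinearEquiv.mul_apply, hρ.2, hσ.2, hC ρ hρ.1 σ hσ.1, LinearEquiv.mul_apply]⟩
      inv_mem' := fun {ρ} hρ => ⟨inv_mem hρ.1, fun x y => by
        have := hρ.2 (ρ.symm x) (ρ.symm y)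
        rw [ρ.apply_symm_apply, ρ.apply_symm_apply] at this
        exact this.symm⟩ }
  obtain ⟨x, x0, hx⟩ := fix_two h2 β alt Γ (fun ρ hρ σ hσ => hC ρ hρ.1 σ hσ.1) fun ρ hρ => hρ.2
  have ex : ∀ a ≠ 0, ∃ γ ∈ Γ, ∀ x, γ x = φ a (s x) := fun a ha =>
    ⟨.ofBijective _ ⟨LinearMap.injective_iff_surjective.2 (su a ha), su a ha⟩,
      ⟨fun σ hσ => (hσ _ ⟨a, fun _ => rfl⟩).symm, sa a⟩, fun _ => rfl⟩
  refine ⟨s x, by rwa [hs'], fun a a' => ?_⟩
  rcases eq_or_ne a 0 with rfl | ha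
  · simp
  rcases eq_or_ne a' 0 with rfl | ha'
  · simp
  obtain ⟨γ, h1, e⟩ := ex a ha
  obtain ⟨γ', h1', e'⟩ := ex a' ha'
  rw [← sa, ← e, ← e']
  exact hx _ (Γ.mul_mem h1' h1)

/-- (B). Pass to `V ⧸ ker β` (`LinearMap.liftQ₂` or two `Submodule.liftQ`), `φ.compr₂ mkQ`, `bnd0`. -/
theorem bnd [FiniteDimensional F X] (β : V →ₗ[F] V →ₗ[F] F) (alt : ∀ v, β v v = 0) (ne : β ≠ 0)
    (φ : X →ₗ[F] W →ₗ[F] V) (sj : ∀ a ≠ 0, Function.Surjective (φ a))
    (sym : ∀ a a' d c, β (φ a d) (φ a' c) = β (φ a' d) (φ a c)) :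
    2 * finrank F X + finrank F (LinearMap.ker β) ≤ finrank F V := by
  have r : LinearMap.IsRefl β := LinearMap.IsAlt.isRefl alt
  haveI : Nontrivial (V ⧸ LinearMap.ker β) :=
    Submodule.Quotient.nontrivial_iff.2 fun e => ne (LinearMap.ker_eq_top.1 e)
  have := bnd0 (LinearMap.IsRefl.liftQ₂ β (LinearMap.ker β) r le_rfl)
    (fun v => by obtain ⟨v, rfl⟩ := Submodule.Quotient.mk_surjective _ v; exact alt v)
    (fun v h => by
      obtain ⟨v, rfl⟩ := Submodule.Quotient.mk_surjective _ v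
      exact (Submodule.Quotient.mk_eq_zero _).2 (LinearMap.ext fun y => h (Submodule.Quotient.mk y)))
    (φ.compr₂ (LinearMap.ker β).mkQ) (fun a ha => (Submodule.mkQ_surjective _).comp (sj a ha)) sym
  have e := (LinearMap.ker β).finrank_quotient_add_finrank
  omega

end Cfsg.Lib.Nd4
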