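import Cfsg.Agent.Lib.Nd4.L3
import Cfsg.Agent.Lib.Nd4.LB

/-!
# Camina Lie rings have class at most three (after Dark and Scoppola)
-/

set_option autoImplicit false

namespace Cfsg.Lib.Nd4

open Module

variable {F W U T Y : Type*} [Field F] [Finite F] [AddCommGroup W] [Module F W] [AddCommGroup U]
  [Module F U] [AddCommGroup T] [Module F T] [AddCommGroup Y] [Module F Y]
  [FiniteDimensional F W] [FiniteDimensional F U] [FiniteDimensional F T]

/-- One functional. Write `[a, x] = b a x`, `m = dim U`, `τ = dim T`, `dim W = 2 m` (`dimW`),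
`W0 = ker e.flip`, `U0 = ker β`, `r = dim U0`.
* `dim W0 = 2 m - τ` (left kernel of `e` is `0` by `g3`; same argument as `L3.dim_S`).
* `2 τ < 3 m`: by `M` (any `a`) `2 τ ≤ 3 m`, so `τ < 2 m` and for `u ≠ 0` some `a ≠ 0` has `c u a = 0`;
  then `dim c(U, a) < m` and `M` gives `2 τ ≤ 3 m - 2`. So `2 dim W0 > m`, `W0 ≠ 0`.
* (*) for `a ∈ W0`: `β u [a, x] = e (c u a) x` (`J2`). So `[W0, W0] ≤ U0`, and for `0 ≠ a ∈ W0`:
  `ker (c.flip a) = U0` (`g3`, `g1`), `dim c(U, a) = m - r`, and `M` gives `2 dim W0 ≥ m + 2 r`.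
* `β ≠ 0`: else `r = m`, `c(U, W0) = 0`, `W0 ≤ S μ` for `μ ≠ 0`, of dimension `m` (`dim_S`): `3 m ≤ 2 m`.
* for `a, a' ∈ W0` with `[a, a'] = 0`: `J1 a d a'` gives `c [a,d] a' = c [a',d] a`, so by (*)
  `β [a,d] [a',x] = β [a',d] [a,x]`. Hence `bnd` (with `φ = b.domRestrict X`): `2 dim X + r ≤ m` for
  every `X ≤ W0` with `[X, X] = 0`.
* Case 1: some `0 ≠ a ∈ W0` has `c(U, a) ≠ ⊤`. Then `a ∈ S μ` for some `μ ≠ 0`, `ker (b a) = S μ` has
  `[S μ, S μ] = 0` (`perp`). `X = W0 ⊓ ker (b a)` has `dim X ≥ dim W0 - r` (`b a` maps `W0` into `U0`),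
  so `m ≤ 2 dim X ≤ m - r`, `r = 0`, `dim X ≥ dim W0`, `2 dim X > m`: contradiction.
* Case 2: `c(U, a) = ⊤` for all `0 ≠ a ∈ W0`. Then `τ = m - r`, `dim W0 = m + r`; for `d ∉ W0`
  (`τ > 0`) the map `a ↦ [a, d]` from `W0` to `U ⧸ U0` is injective (`[a,d] ∈ U0` and (*) give
  `e T d = 0`), so `m + r ≤ m - r`, `r = 0`, `X = W0` has `2 m ≤ m`: contradiction. -/
theorem L3.four' (D : L3 F W U T) [Nontrivial U] [Nontrivial T] (e : T →ₗ[F] W →ₗ[F] F)
    (β : U →ₗ[F] U →ₗ[F] F) (alt : ∀ u, β u u = 0)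
    (J2 : ∀ u x y, β u (D.b x y) = e (D.c u x) y - e (D.c u y) x) (g3 : ∀ t ≠ 0, e t ≠ 0) : False := by
  have hW := D.dimW
  have mp : 0 < finrank F U := finrank_pos
  have tp : 0 < finrank F T := finrank_pos
  obtain ⟨W0, hW0⟩ : ∃ W0 : Submodule F W, W0 = (LinearMap.range e).dualCoannihilator := ⟨_, rfl⟩
  have m0 : ∀ a, a ∈ W0 ↔ ∀ t, e t a = 0 := fun a => by simp [hW0, LinearMap.ext_iff]
  have inj : ∀ t, e t = 0 → t = 0 := fun t h => by_contra fun n => g3 t n h
  have d0 : finrank F T + finrank F W0 = finrank F W := by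
    rw [hW0, ← LinearMap.finrank_range_of_inj ((injective_iff_map_eq_zero e).2 inj)]
    exact Subspace.finrank_add_finrank_dualCoannihilator_eq _
  have sk : ∀ u v, β u v = -β v u := fun u v => by
    have := alt (u + v)
    simp only [map_add, LinearMap.add_apply, alt, zero_add, add_zero] at this
    exact eq_neg_of_add_eq_zero_right this
  have rk := fun a => (D.c.flip a).finrank_range_add_finrank_ker
  have t3 : 2 * finrank F T + 2 ≤ 3 * finrank F U := by
    obtain ⟨u, hu⟩ := exists_ne (0 : U)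
    have : Nontrivial W := finrank_pos_iff.1 (show 0 < finrank F W by omega)
    obtain ⟨a, ha⟩ := exists_ne (0 : W)
    have h1 := D.M ha
    have h2 := rk a
    have h3 := (D.c u).finrank_range_add_finrank_ker
    have h4 := (LinearMap.range (D.c u)).finrank_le
    obtain ⟨a', h5, h6⟩ := Submodule.exists_mem_ne_zero_of_ne_bot (p := LinearMap.ker (D.c u)) fun h => by
      rw [h, finrank_bot] at h3; omega
    have h7 := D.M h6
    have h8 := rk a'
    have h9 : finrank F (LinearMap.ker (D.c.flip a')) ≠ 0 := fun h =>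
      hu ((Submodule.eq_bot_iff _).1 (Submodule.finrank_eq_zero.1 h) u h5)
    omega
  have st : ∀ a ∈ W0, ∀ u x, β u (D.b a x) = e (D.c u a) x := fun a ha u x => by rw [J2, (m0 a).1 ha, sub_zero]
  have mU : ∀ v, (∀ u, β u v = 0) → v ∈ LinearMap.ker β := fun v h =>
    LinearMap.ext fun u => by rw [sk, h, neg_zero, LinearMap.zero_apply]
  have br : ∀ a ∈ W0, ∀ x ∈ W0, D.b a x ∈ LinearMap.ker β := fun a ha x hx =>
    mU _ fun u => by rw [st a ha, (m0 x).1 hx]
  have kr : ∀ a ∈ W0, a ≠ 0 → LinearMap.ker (D.c.flip a) = LinearMap.ker β := fun a ha a0 =>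
    Submodule.ext fun u => ⟨fun h => LinearMap.ext fun v => by
      obtain ⟨x, rfl⟩ := D.g1 a a0 v
      rw [st a ha, show D.c u a = 0 from h, map_zero, LinearMap.zero_apply, LinearMap.zero_apply],
      fun h => inj _ (LinearMap.ext fun x => by
        rw [LinearMap.flip_apply, ← st a ha, show β u = 0 from h, LinearMap.zero_apply, LinearMap.zero_apply])⟩
  obtain ⟨a₀, h₀, n₀⟩ := Submodule.exists_mem_ne_zero_of_ne_bot (p := W0) fun h => by
    rw [h, finrank_bot] at d0; omega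
  have r0 := rk a₀
  have M0 := D.M n₀
  rw [kr a₀ h₀ n₀] at r0
  have ne : β ≠ 0 := by
    rintro rfl
    obtain ⟨μ, hμ, -⟩ := (⊥ : Submodule F T).exists_dual_map_eq_bot_of_lt_top bot_lt_top inferInstance
    have h1 := D.dim_S hμ
    have h2 : W0 ≤ D.S μ := fun a ha => D.mem_S.2 fun u => by
      rw [inj (D.c u a) (LinearMap.ext fun x => by rw [← st a ha]; rfl), map_zero]
    have h3 := Submodule.finrank_mono h2
    rw [LinearMap.ker_zero, finrank_top] at r0
    omega
  have bd : ∀ X ≤ W0, (∀ a ∈ X, ∀ a' ∈ X, D.b a a' = 0) →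
      2 * finrank F X + finrank F (LinearMap.ker β) ≤ finrank F U := fun X hX h =>
    bnd β alt ne (D.b.domRestrict X) (fun a ha => D.g1 a fun n => ha (Subtype.ext n)) fun a a' d x => by
      have := D.J1 a d a'
      rw [h _ a'.2 _ a.2, map_zero, LinearMap.zero_apply, add_zero, D.skew d, map_neg, LinearMap.neg_apply,
        add_neg_eq_zero] at this
      simp only [LinearMap.domRestrict_apply]
      rw [st _ (hX a'.2), st _ (hX a.2), this]
  by_cases hc : ∃ a ∈ W0, a ≠ 0 ∧ LinearMap.range (D.c.flip a) ≠ ⊤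
  · obtain ⟨a, ha, a0, h⟩ := hc
    obtain ⟨μ, hμ, k⟩ := Submodule.exists_dual_map_eq_bot_of_lt_top h.lt_top inferInstance
    have aS : a ∈ D.S μ := D.mem_S.2 fun u => (Submodule.eq_bot_iff _).1 k _ ⟨_, ⟨u, rfl⟩, rfl⟩
    have h1 := bd (W0 ⊓ D.S μ) inf_le_left fun x hx y hy => by
      by_cases x0 : x = 0
      · rw [x0, map_zero, LinearMap.zero_apply]
      · exact (D.perp hμ hx.2 x0).ge hy.2
    have h2 := ((D.b a).domRestrict W0).finrank_range_add_finrank_ker
    have h3 : finrank F (LinearMap.range ((D.b a).domRestrict W0)) ≤ finrank F (LinearMap.ker β) :=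
      Submodule.finrank_mono (by rintro _ ⟨x, rfl⟩; exact br a ha x x.2)
    rw [LinearMap.ker_domRestrict, D.perp hμ aS a0, ← Submodule.finrank_map_subtype_eq,
      Submodule.map_comap_subtype] at h2
    omega
  · push Not at hc
    rw [hc a₀ h₀ n₀, finrank_top] at r0
    obtain ⟨d, hd⟩ : ∃ d, d ∉ W0 := by
      by_contra! h
      rw [Submodule.eq_top_iff'.2 h, finrank_top] at d0
      omega
    have h1 := LinearMap.finrank_le_finrank_of_injective
      (f := (LinearMap.ker β).mkQ ∘ₗ (D.b.flip d).domRestrict W0) ((injective_iff_map_eq_zero _).2 fun a h => by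
        by_contra a0
        refine hd ((m0 d).2 fun t => ?_)
        obtain ⟨u, rfl⟩ := LinearMap.range_eq_top.1 (hc a a.2 fun n => a0 (Subtype.ext n)) t
        have : β (D.b a d) = 0 := (Submodule.Quotient.mk_eq_zero _).1 h
        rw [LinearMap.flip_apply, ← st a a.2, sk, this, LinearMap.zero_apply, neg_zero])
    have h2 := (LinearMap.ker β).finrank_quotient_add_finrank
    have h3 : finrank F (LinearMap.ker β) = 0 := by omega
    have h4 := bd W0 le_rfl fun a ha x hx => (Submodule.eq_bot_iff _).1 (Submodule.finrank_eq_zero.1 h3) _ (br a ha x hx)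
    omega

/-- Compose with a functional `κ ≠ 0` on `Y` and use `four'`. -/
theorem L3.four (D : L3 F W U T) [Nontrivial U] [Nontrivial T] [Nontrivial Y]
    (e : T →ₗ[F] W →ₗ[F] Y) (f : U →ₗ[F] U →ₗ[F] Y) (alt : ∀ u, f u u = 0)
    (J2 : ∀ u x y, f u (D.b x y) = e (D.c u x) y - e (D.c u y) x)
    (g3 : ∀ t ≠ 0, Function.Surjective (e t)) : False := by
  obtain ⟨κ, hκ, -⟩ := (⊥ : Submodule F Y).exists_dual_map_eq_bot_of_lt_top bot_lt_top inferInstance
  refine D.four' (e.compr₂ κ) (f.compr₂ κ) (fun u => by simp [alt]) (fun u x y => by simp [J2]) fun t ht h => hκ ?_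
  ext y
  obtain ⟨w, rfl⟩ := g3 t ht y
  exact LinearMap.congr_fun h w

end Cfsg.Lib.Nd4
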