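import Cfsg.Agent.Lib.Nd4.Sb2n
import Cfsg.Agent.Lib.BG.T03_7
import Cfsg.Agent.Lib.CharDeg.CoprimeConst

/-!
# Case β-I: `N'` is a minimal normal subgroup
-/

set_option autoImplicit false

namespace Cfsg.Lib.Nd4
open Cfsg.Lib.Char Cfsg.Lib.CharDeg Cfsg.Lib.Clifford Cfsg.Lib.Induce Cfsg.Lib.Core Cfsg.Lib.Gar
  Cfsg.Lib.RelGraph Cfsg.Lib.Nda Cfsg.Lib.BG Subgroup MulAction
open scoped commutatorElement

section tw
variable {G : Type*} [Group G] [Fintype G] {X L : Subgroup G}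

/-- `exists_invariant_above_of_solvable` (Lib/CharDeg/CoprimeConst) with `A = S`, `A₀ = ⊥`, `K = X`,
`N = L` (as in the proof of `Pal.above`, Lib/Pal/Key), `L` central in `X`. -/
theorem exists_inv [X.Normal] [L.Normal] (h : L ≤ X) (hX : ⁅X, X⁆ ≤ L) (hZ : L ≤ 𝐂(X)) {μ : Lin L}
    {S : Subgroup G} (hS : S ≤ inertia L (lin μ)) (hc : (Nat.card S).Coprime (L.relIndex X)) :
    ∃ θ : X → ℂ, IsIrrCharacter X θ ∧ Ly h θ μ ∧ S ≤ inertia X θ := by
  classical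
  let φ : S →* MulAut X := MulAut.conjNormal.comp S.subtype
  have hφ : ∀ a, ∀ x ∈ L.subgroupOf X, φ a x ∈ L.subgroupOf X := fun a x hx => ‹L.Normal›.conj_mem _ hx _
  have := Fintype.ofFinite (L.subgroupOf X)
  have hn : (L.subgroupOf X).subtype.range.Normal := by rw [range_subtype]; infer_instance
  obtain ⟨θ, h1, h2⟩ := exists_invariant_above_of_solvable (restrictAut φ _ hφ) ⊥
    ⟨_, isIrrCharacter_hom (μ.hom.comp (subgroupOfEquivOfLe h).toMonoidHom)⟩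
    (fun a g => (mem_inertia_iff L).1 (hS a.2) ⟨g, g.2⟩) X φ (L.subgroupOf X).subtype (subtype_injective _) (fun _ _ => rfl)
    (fun a ha => ⟨1, fun g => by simp [mem_bot.1 ha]⟩) (by rwa [index_bot, range_subtype])
    (Group.isSolvable_of_comm fun a b => by
      obtain ⟨a, rfl⟩ := QuotientGroup.mk_surjective a
      obtain ⟨b, rfl⟩ := QuotientGroup.mk_surjective b
      rw [← commutatorElement_eq_one_iff_mul_comm, ← QuotientGroup.mk'_apply, ← QuotientGroup.mk'_apply,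
        ← map_commutatorElement, QuotientGroup.mk'_apply, QuotientGroup.eq_one_iff, range_subtype]
      exact hX (commutator_mem_commutator a.2 b.2))
  refine ⟨θ, θ.2, fun g n => ?_, fun g hg => (mem_inertia_iff X).2 fun n => h2 ⟨g, hg⟩ n⟩
  have hc : (⟨n, h n.2⟩ : X) ∈ center X := mem_center_iff.2 fun g => Subtype.ext (hZ n.2 g g.2)
  have h4 := resMult_ne_zero_iff.1 h1
  dsimp only at h4
  have := Coprime.apply_div_eq_of_inner_ne_zero (Q := L.subgroupOf X) θ.2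
    (isIrrCharacter_hom (μ.hom.comp (subgroupOfEquivOfLe h).toMonoidHom)) (by simpa only [subtype_apply] using h4)
    (z := ⟨⟨n, h n.2⟩, n.2⟩) hc
  rw [map_one, Units.val_one, div_one] at this
  rw [chr_mul θ.2 (chr_cen θ.2 fun y => by
    rw [commutatorElement_eq_one_iff_mul_comm.2 (mem_center_iff.1 hc y).symm]) g]
  exact congrArg _ this.symm

end tw

variable {G : Type*} [Group G] [Fintype G] {N Y L : Subgroup G} [N.Normal] {p : ℕ}

namespace Sb
variable (h : Sb G N Y p)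
include h

theorem sreg : SemiReg ⁅N, N⁆ ⁅Y, Y⁆ := fun w hw h1 => eq_bot_iff.2 fun x hx =>
  h.fpfX ⟨h.toHn.cm (commutator_mono le_top le_top hw), commutator_le.2 (fun a ha b hb => by
    exact mul_mem (mul_mem (mul_mem ha hb) (inv_mem ha)) (inv_mem hb)) hw⟩ (mt (h.W_inf hw) h1) hx.1
    (commutatorElement_eq_one_iff_mul_comm.2 (hx.2 w rfl))

/-- `W = ⁅Y, Y⁆ ≠ 1` acts semiregularly on `N'` (`fpfX`, `W_inf`): `BG.SemiReg.nil`. So the minimal normal
subgroup `L` meets, hence lies in, the centre of `N'`. -/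
theorem le_cent (hL : IsMinNormal L) (h1 : L ≤ ⁅N, N⁆) : L ≤ 𝐂(⁅N, N⁆) := by
  exact hL.le_centralizer_of_isNilpotent _ (h.sreg.nil le_normalizer_of_normal h.W_ne)

/-- `X = N'`, `Γ = Tr X L`, `d` from `Top.const`. `T0 = I(μ) ∩ Y` has `T0 ∩ N ≤ Lc N` (`fixL`), so is
abelian (`Top.comm`); let `S0` be its `q'`-part (`|T0 : S0|` a power of `q`; e.g. elements of order prime to
`q`). `θ₀` over `μ` fixed by `S0` (`exists_inv`; `|X : L| = |Γ|` is a power of `q`),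
`Δ = {η ∈ Γ | tw η θ₀ = θ₀}`, invariant under `S0`. For `η ∉ Δ` put `θ = tw η θ₀`, `T = I(θ) ∩ Y ≤ T0`
(`Ly.inertia_le`), `S = T ∩ S0`; `s • η / η ∈ Δ` for `s ∈ S`, so `fix_coset` gives `η' = η δ ≠ 1` fixed by
`S`: `d ∣ |Y : S| = |Y : T| q ^ k`, so `d ∣ |Y : T| = index I(θ)` (`idx_Y`). For `χ` over `θ`,
`d θ(1) ∣ χ(1)` (`deg_dvd`), `d ∈ cd G`, `d ≠ 1` (`idx`), so `θ(1) = 1` and `|Y : T| = d`. If `Δ ≠ ⊤` this
makes `θ₀` linear, so `Δ = ⊥`, and `x ∉ N` from `Top.common` fixes `tw η θ₀` for all `η ≠ 1`, hence all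
`η / η'`: `Top.mem_of_div` gives `x ∈ N`. So `Δ = ⊤`, and for `v ∉ L`, `sep` gives `θ₀ v = 0`; then
`Pal.ne_zero_of_comm` and `Ly.apply_eq_iff`. -/
theorem nondeg [L.Normal] (hL : L < ⁅N, N⁆)
    (hm : ∀ J : Subgroup G, J.Normal → L ≤ J → J ≤ ⁅N, N⁆ → J = L ∨ J = ⁅N, N⁆)
    (hZ : L ≤ 𝐂(⁅N, N⁆)) {μ : Lin L} (h0 : μ ≠ 1) {v : G} (hv : v ∈ ⁅N, N⁆) (hv' : v ∉ L) :
    ∃ y ∈ ⁅N, N⁆, ∃ hz : ⁅v, y⁆ ∈ L, ev (⟨_, hz⟩ : L) μ ≠ 1 := by
  exact h.nondeg' hL hm h0 hv hv' fun _ a b => exists_inv hL.le (h.top hL hm).1 hZ a b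

/-- Take `v ∈ X \ L`. `y ↦ ⁅v, y⁆` is a homomorphism `X → L` (`L` central), onto by `nondeg` and `sep`,
with kernel `> L`; so `|L| ∣ |X : L| = |Γ| = q ^ n`, `|L| = q ^ l < q ^ n`, `l > 0`. `W = Y'` acts
semiregularly on `L \ 1` (`fpfX`, `W_inf`), so `|W| ∣ q ^ l - 1`, against `Top.not_dvd`. -/
theorem step (hL : IsMinNormal L) (h1 : L < ⁅N, N⁆)
    (hm : ∀ J : Subgroup G, J.Normal → L ≤ J → J ≤ ⁅N, N⁆ → J = L ∨ J = ⁅N, N⁆) : False := by
  have := hL.normal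
  obtain ⟨hX, q, t⟩ := h.top h1 hm
  have hZ := h.le_cent hL h1.le
  obtain ⟨v, hv, hv'⟩ := SetLike.exists_of_lt h1
  have m : ∀ y : (⁅N, N⁆ : Subgroup G), ⁅v, y.1⁆ ∈ L := fun y => hX (commutator_mem_commutator hv y.2)
  let f : (⁅N, N⁆ : Subgroup G) →* G := MonoidHom.mk' (fun y => ⁅v, y.1⁆) fun y z => by
    have := hZ (m z) y y.2
    rw [coe_mul, show ⁅v, y.1 * z.1⁆ = ⁅v, y.1⁆ * (y.1 * ⁅v, z.1⁆) * y.1⁻¹ by group, this]
    group
  have r : f.range = L := by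
    refine le_antisymm (by rintro _ ⟨y, rfl⟩; exact m y) fun x hx => by_contra fun hx' => ?_
    obtain ⟨μ, hμ, n⟩ := sep (X := L) (Y := f.range) (x := ⟨x, hx⟩)
      ((commutator_eq_bot_iff_le_centralizer.2 (hZ.trans (centralizer_le h1.le))).le.trans bot_le) hx'
    obtain ⟨y, hy, hz, e⟩ := h.nondeg h1 hm hZ (μ := μ) (fun e => n (e ▸ map_one _)) hv hv'
    exact e (hμ _ ⟨⟨y, hy⟩, rfl⟩)
  have k : L.subgroupOf ⁅N, N⁆ < f.ker := lt_of_le_of_ne
    (fun y hy => commutatorElement_eq_one_iff_mul_comm.2 (hZ hy v hv))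
    fun e => hv' (e.ge (show (⟨v, hv⟩ : (⁅N, N⁆ : Subgroup G)) ∈ f.ker from commutatorElement_self v))
  have c : f.ker.index = Nat.card L := by rw [index_ker, r]
  have := Fact.mk t.hq
  obtain ⟨n, hn⟩ := t.pq.exists_card_eq
  have d := index_dvd_of_le k.le
  have d' := index_strictAnti k
  rw [c, show (L.subgroupOf _).index = L.relIndex _ from rfl, ← card_Tr hX] at d d'
  obtain ⟨l, -, hl⟩ := (Nat.dvd_prime_pow t.hq).1 (hn ▸ d)
  refine t.not_dvd (l := l) (Nat.pos_of_ne_zero fun e => hL.ne_bot (card_eq_one.1 (by rw [hl, e, pow_zero]))) (hl ▸ d') ?_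
  rw [← hl, ← card_map_of_injective Y.subtype_injective, map_subtype_commutator]
  exact regular_norm_dvd_pred le_normalizer_of_normal fun w hw h0 =>
    eq_bot_iff.2 ((inf_le_inf_right _ h1.le).trans (h.sreg w hw h0).le)

/-- `N' = 1`: `ab`. Else take `L` normal and maximal with `L < N'`. If `L = 1`, `res_min`. Else take `L₂`
normal and maximal with `L₂ < L` and apply `step` to `quot L₂`. -/
theorem res : Res G := by
  by_cases h0 : ⁅N, N⁆ = ⊥
  · exact h.toHn.ab h0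
  obtain ⟨L, hL, -⟩ := exists_isChiefFactor_ge (U := ⁅N, N⁆) (V := ⊥) inferInstance inferInstance (bot_lt_iff_ne_bot.2 h0)
  by_cases h1 : L = ⊥
  · exact h.res_min (isChiefFactor_bot_iff.1 (h1 ▸ hL))
  obtain ⟨M, hM, -⟩ := exists_isChiefFactor_ge (V := ⊥) hL.2.2.1 inferInstance (bot_lt_iff_ne_bot.2 h1)
  have := hM.2.2.1
  have := Fintype.ofFinite (G ⧸ M)
  have s := QuotientGroup.mk'_surjective M
  have k : (QuotientGroup.mk' M).ker ≤ L := (QuotientGroup.ker_mk' M).le.trans hM.1.le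
  refine ((h.quot M (hM.1.le.trans hL.1.le)).step (isMinNormal_map_mk'_of_isChiefFactor hM) ?_ fun J hJ a b => ?_).elim
  · rw [← map_commutator]
    exact lt_of_le_of_ne (map_mono hL.1.le) fun e => hL.1.ne (by
      rw [← comap_map_eq_self k, e, comap_map_eq_self (k.trans hL.1.le)])
  · rw [← map_commutator] at b ⊢
    exact (hL.2.2.2 _ (hJ.comap _) (map_le_iff_le_comap.1 a) ((comap_mono b).trans
      (comap_map_eq_self (k.trans hL.1.le)).le)).imp (fun e => by rw [← e, map_comap_eq_self_of_surjective s])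
      fun e => by rw [← e, map_comap_eq_self_of_surjective s]

end Sb

end Cfsg.Lib.Nd4
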