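import Cfsg.Agent.Lib.Nd4.B2
import Cfsg.Agent.Lib.Nd4.Sb2
import Cfsg.Agent.Lib.CharDeg.MinNonab

/-!
# Solvable groups without divisibility among character degrees (Lewis, Moretó, Wolf)
-/

set_option autoImplicit false

namespace Cfsg.Lib.Nd4
open Cfsg.Lib.Char Cfsg.Lib.CharDeg Cfsg.Lib.Clifford Cfsg.Lib.Induce Cfsg.Lib.Core Cfsg.Lib.Gar
  Cfsg.Lib.RelGraph Cfsg.Lib.Nda Cfsg.Lib.BG Subgroup MulAction
open scoped commutatorElement

variable {G : Type*} [Group G] [Fintype G]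

theorem Hn.res {N : Subgroup G} [N.Normal] {p : ℕ} (h : Hn G N p) : Res G := by
  obtain ⟨M, P, _, h⟩ := h.exists_Mp
  by_cases h2 : ⁅P, P⁆ = ⊥
  · exact (h.sb h2).res
  by_cases h1 : ⁅M, P⁆ = ⊥
  · obtain ⟨_, H, h⟩ := h.al h1 h2
    exact h.res
  · exact (h.b2 h1 h2).elim

/-- A nonabelian `p`-group quotient. As in S4781.lean `p` divides all degrees `≠ 1`
(`mul_mem_cd_of_coprime`), so there is a normal `p`-complement `M` (`exists_complement_of_cd`); `M ≤ K`.
Let `1 ≠ m = p ^ a ∈ cd (G ⧸ K)`; in fact `m ∈ cd (G ⧸ M)`. For `χ` over `θ ∈ Irr M`, `T = I(θ)`: `θ` extends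
to `T` (`exists_extension_le_of_coprime`). If `e = index T * θ(1) ≠ 1`: `e n ∈ cd G` for `n ∈ cd (T ⧸ M)`
(`mul_mem_cd_of_extension`), so `T ⧸ M` is abelian, `m ≤ index T` (`le_index_of_comm` in `G ⧸ M`), both
powers of `p`, `m ∣ e ∣ χ(1)` (`deg_dvd`), so `χ(1) = m`. If `e = 1`, `χ(1) ∣ index M` is a power of `p`
(`charDegree_dvd_index_mul`), comparable with `m`. `derivedSeries_two_eq_bot_of_cd`. -/
theorem caseA (nd : ∀ a ∈ cd G, ∀ b ∈ cd G, a ≠ 1 → a ∣ b → a = b) {K : Subgroup G} [K.Normal] {p : ℕ}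
    (hp : p.Prime) (hP : IsPGroup p (G ⧸ K)) (hK : _root_.commutator (G ⧸ K) ≠ ⊥) : Res G := by
  have := Fact.mk hp
  obtain ⟨m, hm, hm1⟩ : ∃ m ∈ cd (G ⧸ K), m ≠ 1 := by
    by_contra! h
    exact hK (eq_bot_iff.2 (commutator_le.2 fun a _ b _ =>
      commutatorElement_eq_one_iff_mul_comm.2 (comm_iff_cd.2 h a b)))
  obtain ⟨k, hk⟩ := hP.exists_card_eq
  obtain ⟨M, _, cM, pM⟩ := exists_complement_of_cd (G := G) (p := p) fun d hd e => by_contra fun h => hm1
    ((Nat.mul_eq_right (pos_of_mem_cd hd).ne').1 (nd d hd _ (mul_mem_cd_of_coprime K hm hd (by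
      rw [index, hk]
      exact (hp.coprime_iff_not_dvd.2 h).symm.pow_right k)) e (dvd_mul_left _ _)).symm)
  have MK : M ≤ K.comap (MonoidHom.id G) := fun x hx => (QuotientGroup.eq_one_iff x).1 (orderOf_eq_one_iff.1
    (Nat.eq_one_of_dvd_coprimes (cM.pow_right k)
      ((orderOf_map_dvd (QuotientGroup.mk' K) x).trans (orderOf_dvd_natCard M hx)) (hk ▸ orderOf_dvd_natCard _)))
  have hm' : m ∈ cd (G ⧸ M) := cd_subset_of_surjective (QuotientGroup.map M K (.id G) MK)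
    (fun x => QuotientGroup.induction_on x fun g => ⟨g, rfl⟩) hm
  obtain ⟨a, rfl⟩ := exists_eq_pow_of_mem_cd hp pM hm'
  have mG := cd_quotient_subset M hm'
  obtain ⟨j, hj⟩ : ∃ j, M.index = p ^ j := pM.exists_card_eq
  have key : ∀ n ∈ cd G, n = 1 ∨ n = p ^ a := fun n hn => by
    obtain ⟨χ, hχ, rfl⟩ := mem_cd'.1 hn
    obtain ⟨θ, hθ, h⟩ := exists_irr_below M hχ
    refine or_iff_not_imp_left.2 fun h1 => ?_
    by_cases e : (inertia M θ).index * charDegree θ = 1
    · have := charDegree_dvd_index_mul M hχ hθ h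
      rw [Nat.eq_one_of_mul_eq_one_left e, mul_one, hj] at this
      obtain ⟨b, -, hb⟩ := (Nat.dvd_prime_pow hp).1 this
      rcases le_total a b with l | l
      · exact (nd _ mG _ hn hm1 (hb ▸ pow_dvd_pow p l)).symm
      · exact nd _ hn _ mG h1 (hb ▸ pow_dvd_pow p l)
    have l := le_inertia M hθ.isClassFunction
    obtain ⟨η, hη, ext⟩ := exists_extension_le_of_coprime M l hθ le_rfl
      ((cM.pow_right j).coprime_dvd_right (hj ▸ relIndex_dvd_index_of_le l))
    have mu := fun {n} => mul_mem_cd_of_extension M hθ l le_rfl hη.isCharacter ext (n := n)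
    have ab := comm_iff_cd.2 fun n hn => (Nat.mul_eq_right hθ.charDegree_pos.ne').1
      (Nat.eq_of_mul_eq_mul_left (Nat.pos_of_ne_zero index_ne_zero_of_finite)
        (nd _ (one_mul (charDegree θ) ▸ mu one_mem_cd) _ (mu hn) e (mul_dvd_mul_left _ (dvd_mul_left _ _))).symm)
    have h2 := le_index_of_comm (H := (inertia M θ).map (QuotientGroup.mk' M)) (by
      rintro _ ⟨x, hx, rfl⟩ _ ⟨y, hy, rfl⟩
      exact QuotientGroup.eq.2 (QuotientGroup.eq.1 (ab (⟨x, hx⟩ : inertia M θ) (⟨y, hy⟩ : inertia M θ)) :)) hm'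
    rw [index_map_eq _ (QuotientGroup.mk'_surjective M) (by rwa [QuotientGroup.ker_mk'])] at h2
    obtain ⟨b, -, hb⟩ := (Nat.dvd_prime_pow hp).1 (hj ▸ index_dvd_of_le l)
    refine (nd _ mG _ hn hm1 (dvd_trans ?_ ((dvd_mul_right _ _).trans (deg_dvd hχ hθ h)))).symm
    rw [hb] at h2 ⊢
    exact pow_dvd_pow p ((Nat.pow_le_pow_iff_right hp.one_lt).1 h2)
  exact ⟨card_le_four (a := p ^ a) (b := 1) (c := 1) fun χ hχ => (key _ (charDegree_mem_cd hχ)).imp_right .inl,
    le_bot_iff.1 (derivedSeries_two_eq_bot_of_cd key ▸ derivedSeries_antitone G (show 2 ≤ 3 by omega))⟩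

/-- `N = comap G'` as in S4781.lean (`f1, ab, f2, pm` there). `cyc`: `(G ⧸ K) ⧸ V` acts on `Lin V`
(`Pal.exists_act V V`) semiregularly by `DualFpf`, so it is cyclic (`Pal.isCyclic_of_fpf`). `ex`: inflate a
character of `G ⧸ K` of degree `index V` (`DualFpf.mul_mem_cd` with `π = id`); `N' ≤ K`. `pa`: some
`v ∈ V` is not central (`DualFpf`, or `nq`), lift it and use `Nda.ex_primary`-like `p`-part: the lift
`x ^ j` with `j` the `p'`-part of `orderOf x`. -/
theorem exists_Hn [Group.IsSolvable G] (nd : ∀ a ∈ cd G, ∀ b ∈ cd G, a ≠ 1 → a ∣ b → a = b)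
    (nq : _root_.commutator G ≤ ⁅_root_.commutator G, ⊤⁆) {K : Subgroup G} [K.Normal] {p : ℕ}
    (hp : p.Prime) (hK : MinNonab (G ⧸ K)) (h1 : IsPGroup p (_root_.commutator (G ⧸ K)))
    (h2 : IsMulCommutative (_root_.commutator (G ⧸ K))) (h3 : ¬ p ∣ (_root_.commutator (G ⧸ K)).index)
    (h4 : DualFpf (_root_.commutator (G ⧸ K))) :
    Hn G ((_root_.commutator (G ⧸ K)).comap (QuotientGroup.mk' K)) p := by
  have hπ := QuotientGroup.mk'_surjective K
  have := Fact.mk hp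
  obtain ⟨k, hk⟩ := h1.exists_card_eq
  have ix := index_comap_of_surjective (_root_.commutator (G ⧸ K)) hπ
  set N := (_root_.commutator (G ⧸ K)).comap (QuotientGroup.mk' K)
  have mu : ∀ m ∈ cd N, ¬ p ∣ m → N.index * m ∈ cd G := fun m hm h => by
    obtain ⟨ψ, hψ, rfl⟩ := mem_cd'.1 hm
    rw [ix]
    exact h4.mul_mem_cd _ hπ hK.ne_bot h2 rfl hψ (hk ▸ (hp.coprime_iff_not_dvd.2 h).symm.pow_right k)
  have f1 := mul_one N.index ▸ mu 1 one_mem_cd hp.not_dvd_one
  have ab : ⁅N, N⁆ ≤ K := by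
    rw [commutator_le_iff_map_mk', map_comap_mk', commutator_eq_bot_iff_le_centralizer]
    exact le_centralizer_iff_isMulCommutative.2 h2
  have f2 : N.index ≠ 1 := fun e => hK.ne_bot (by
    rw [index_eq_one] at e
    rw [e, commutator_le_iff_map_mk', map_top_of_surjective _ hπ] at ab
    exact ab)
  refine ⟨hp, inferInstance, nd, ?_, f2, ix ▸ h3, ?_, fun m hm e => by_contra fun h => e ((Nat.mul_eq_left
    index_ne_zero_of_finite).1 (nd _ f1 _ (mu m hm h) f2 (dvd_mul_right _ _)).symm), nq, ?_⟩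
  · obtain ⟨_, hsm, -⟩ := Pal.exists_act (_root_.commutator (G ⧸ K)) (_root_.commutator (G ⧸ K))
      fun g hg a => cj_of_mem hg a
    have := Pal.nontrivial_lin hK.ne_bot
    have := Pal.isCyclic_of_fpf (V := Lin (_root_.commutator (G ⧸ K))) (A := ⊤)
      ⟨⟨fun a b => Subtype.ext ((Normal.quotient_commutative_iff_commutator_le.2 le_rfl).1.1 a.1 b.1)⟩⟩
      (by
        rw [card_top, card_lin]
        exact ((hp.coprime_iff_not_dvd.2 h3).symm.pow_right k).coprime_dvd_right (hk ▸ Subgroup.relIndex_dvd_card _ _))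
      fun a _ v e => by
        obtain ⟨g, rfl⟩ := QuotientGroup.mk_surjective a
        rw [hsm] at e
        exact or_iff_not_imp_left.2 fun n => h4 g⁻¹ (fun hg => n ((QuotientGroup.eq_one_iff g).2 (inv_mem_iff.1 hg)))
          v.hom fun w => DFunLike.congr_fun (congrArg Lin.hom e) w
    exact isCyclic_of_injective (topEquiv.symm.toMonoidHom.comp (QuotientGroup.map N _ (QuotientGroup.mk' K) le_rfl))
      ((injective_iff_map_eq_one _).2 fun x => QuotientGroup.induction_on x fun g e =>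
        (QuotientGroup.eq_one_iff g).2 ((QuotientGroup.eq_one_iff (g : G ⧸ K)).1 (congrArg Subtype.val e)))
  · obtain ⟨χ, hχ, e⟩ := mem_cd'.1 (h4.mul_mem_cd (.id _) Function.surjective_id hK.ne_bot h2 (comap_id _).symm
      (irr_lin 1) (by rw [deg_lin]; exact Nat.coprime_one_left _))
    refine ⟨_, hχ.comp_surjective _ hπ, fun x hx => ?_, ?_⟩
    · exact congrArg χ ((QuotientGroup.eq_one_iff x).2 (ab hx))
    · rw [ix, ← mul_one (index _), ← deg_lin (1 : Lin (_root_.commutator (G ⧸ K))), ← e]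
      simp only [charDegree, map_one]
  · by_contra! h
    obtain ⟨y, hy⟩ : ∃ y, y ∉ N := by
      by_contra! c
      exact f2 (index_eq_one.2 ((eq_top_iff' N).2 c))
    have := (nontrivial_iff_ne_bot _).2 hK.ne_bot
    obtain ⟨μ, hμ⟩ := exists_hom_ne_one_of_comm (V := _root_.commutator (G ⧸ K))
    refine hμ (h4 y hy μ fun ⟨v, hv⟩ => congrArg μ (Subtype.ext ?_))
    obtain ⟨x, rfl⟩ := hπ v
    obtain ⟨i, j, hj, e⟩ := Nat.exists_eq_pow_mul_and_not_dvd (orderOf_pos x).ne' p hp.ne_one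
    have c : Commute (y : G ⧸ K) ((x : G ⧸ K) ^ j) := commutatorElement_eq_one_iff_commute.1
      ((QuotientGroup.eq_one_iff ⁅y, x ^ j⁆).2 (ab (mem_Lc.1 (by_contra fun n =>
        h _ (pow_mem hv j) n i (by rw [← pow_mul, mul_comm, ← e, pow_orderOf_eq_one])) y)))
    obtain ⟨m, hm⟩ := exists_pow_eq_self_of_coprime (x := (x : G ⧸ K))
      (((hp.coprime_iff_not_dvd.2 hj).symm.pow_right k).coprime_dvd_right (hk ▸ orderOf_dvd_natCard _ hv))
    exact mul_inv_eq_iff_eq_mul.2 (hm ▸ c.pow_right m : Commute (y : G ⧸ K) (x : G ⧸ K))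

theorem main [Group.IsSolvable G] (nd : ∀ a ∈ cd G, ∀ b ∈ cd G, a ≠ 1 → a ∣ b → a = b) : Res G := by
  by_cases hc : _root_.commutator G ≤ ⊥
  · refine ⟨card_le_four (a := 1) (b := 1) (c := 1) fun χ hχ => .inl
      (hχ.isCharacter.charDegree_eq_one_iff.2 (apply_one_of_commutator_le_ker hχ
        fun x hx => by rw [mem_bot.1 (hc hx)])), le_bot_iff.1 (le_trans ?_ hc)⟩
    exact derivedSeries_antitone G (show 1 ≤ 3 by omega)
  by_cases nq : _root_.commutator G ≤ ⁅_root_.commutator G, ⊤⁆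
  · obtain ⟨K, _, -, hK⟩ := exists_minNonab ⊥ hc
    obtain ⟨p, hp, hP | ⟨h1, h2, h3, h4⟩⟩ := hK.struct inferInstance
    · exact caseA nd hp hP hK.ne_bot
    · exact (exists_Hn nd nq hp hK h1 h2 h3 h4).res
  obtain ⟨K, _, h0, hK⟩ := exists_minNonab _ nq
  obtain ⟨p, hp, hP⟩ : ∃ p : ℕ, p.Prime ∧ IsPGroup p (_root_.commutator (G ⧸ K)) :=
    (hK.struct inferInstance).imp fun _ h => ⟨h.1, h.2.elim (·.to_subgroup _) (·.1)⟩
  refine caseA nd hp (hK.isPGroup_of_center hp hP fun e => hK.ne_bot (eq_bot_iff.2 (e ▸ ?_))) hK.ne_bot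
  rw [commutator_le_iff_map_mk', map_top_of_surjective _ (QuotientGroup.mk'_surjective K),
    commutator_eq_bot_iff_le_centralizer, coe_top, centralizer_univ, _root_.commutator, map_commutator,
    map_top_of_surjective _ (QuotientGroup.mk'_surjective K)] at h0
  exact h0

end Cfsg.Lib.Nd4
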