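import Cfsg.Agent.Lib.Symp.Basis
import Mathlib.FieldTheory.ChevalleyWarning

/-!
# Alternating maps all of whose partial maps are onto (Beisiegel, Macdonald)
-/

set_option autoImplicit false

namespace Cfsg.Lib.Nd4

open Module

/-- The determinant of an alternating matrix over a field is a square.
Proof: the form `Matrix.toBilin' A` is alternating. If `det A = 0` take `0`. Otherwise it is
nondegenerate, take a symplectic basis (`Symp.exists_symplectic_basis`, Lib/Symp/Basis) with change
of basis matrix `P`: `Pᵀ A P = J`, `det J = 1` (or use `Matrix.det` of `J` is a square: `J² = -1`,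
Mathlib `SymplecticGroup.det_J`/`Matrix.J`), so `det A = (det P)⁻²·det J`.
Alternative (induction on the size by Schur complement of a `2 × 2` block) is also fine. -/
theorem det_sq {K n : Type*} [Field K] [Fintype n] [DecidableEq n] (A : Matrix n n K)
    (h1 : ∀ i, A i i = 0) (h2 : ∀ i j, A i j = - A j i) : IsSquare A.det := by
  by_cases h0 : A.det = 0
  · rw [h0]; exact IsSquare.zero
  have sk : ∀ u v, Matrix.toBilin' A u v = - Matrix.toBilin' A v u := fun u v => by
    rw [Matrix.toBilin'_apply, Matrix.toBilin'_apply, Finset.sum_comm, ← Finset.sum_neg_distrib]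
    refine Finset.sum_congr rfl fun i _ => ?_
    rw [← Finset.sum_neg_distrib]
    refine Finset.sum_congr rfl fun j _ => ?_
    rw [h2 j i]; ring
  have alt : (Matrix.toBilin' A).IsAlt := fun v => by
    induction (Pi.basisFun K n).mem_span v using Submodule.span_induction with
    | mem x hx => obtain ⟨i, rfl⟩ := hx; rw [Pi.basisFun_apply, Matrix.toBilin'_single, h1]
    | zero => simp
    | add x y _ _ hx hy => simp only [map_add, LinearMap.add_apply, hx, hy, sk y x]; ring
    | smul c x _ hx => simp only [map_smul, LinearMap.smul_apply, hx, smul_zero]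
  obtain ⟨m, b, e1, e2, e3⟩ := Symp.exists_symplectic_basis alt
    (LinearMap.BilinForm.nondegenerate_toBilin'_iff_det_ne_zero.2 h0)
  let e := b.indexEquiv (Pi.basisFun K n)
  have h3 := congrArg Matrix.det
    (LinearMap.BilinForm.toMatrix_mul_basis_toMatrix (Pi.basisFun K n) (b.reindex e) (Matrix.toBilin' A))
  have h4 : LinearMap.BilinForm.toMatrix (Pi.basisFun K n) (Matrix.toBilin' A) = A := by
    ext i j
    rw [LinearMap.BilinForm.toMatrix_apply, Pi.basisFun_apply, Pi.basisFun_apply, Matrix.toBilin'_single]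
  have h5 : LinearMap.BilinForm.toMatrix (b.reindex e) (Matrix.toBilin' A) =
      Matrix.reindex e e (Matrix.fromBlocks 0 1 (-1) 0) := by
    ext i j
    rw [LinearMap.BilinForm.toMatrix_apply, Basis.reindex_apply, Basis.reindex_apply, Matrix.reindex_apply,
      Matrix.submatrix_apply]
    rcases e.symm i with k | k <;> rcases e.symm j with l | l
    · rw [e2]; rfl
    · rw [e1, Matrix.fromBlocks_apply₁₂, Matrix.one_apply]
    · rw [sk, e1, Matrix.fromBlocks_apply₂₁, Matrix.neg_apply, Matrix.one_apply]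
      simp only [eq_comm]
    · rw [e3]; rfl
  have h6 : (Matrix.fromBlocks 0 1 (-1) 0 : Matrix (Fin m ⊕ Fin m) (Fin m ⊕ Fin m) K).det = 1 := by
    have h7 : (Matrix.fromBlocks 0 1 (-1) 0 : Matrix (Fin m ⊕ Fin m) (Fin m ⊕ Fin m) K) *
        Matrix.fromBlocks 1 0 1 1 = Matrix.fromBlocks 1 1 (-1) 0 := by
      simp [Matrix.fromBlocks_multiply]
    have h8 := congrArg Matrix.det h7
    rwa [Matrix.det_mul, Matrix.det_fromBlocks_zero₁₂, Matrix.det_fromBlocks_one₁₁, Matrix.det_one, mul_one,
      mul_one, Matrix.mul_one, zero_sub, neg_neg, Matrix.det_one] at h8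
  rw [h4, h5, Matrix.det_reindex_self, h6, Matrix.det_mul, Matrix.det_mul, Matrix.det_transpose] at h3
  generalize ((Pi.basisFun K n).toMatrix (b.reindex e)).det = d at h3
  have hd : d ≠ 0 := by rintro rfl; simp at h3
  refine ⟨d⁻¹, ?_⟩
  field_simp
  linear_combination h3

/-- Same over an integrally closed domain (e.g. a UFD such as `MvPolynomial`): pass to the fraction
field (`RingHom.map_det`), `y ^ 2 = det A` makes `y` integral (`IsIntegrallyClosed.exists_algebraMap_eq_of_isIntegral_pow`). -/
theorem det_sq' {R n : Type*} [CommRing R] [IsDomain R] [IsIntegrallyClosed R] [Fintype n]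
    [DecidableEq n] (A : Matrix n n R) (h1 : ∀ i, A i i = 0) (h2 : ∀ i j, A i j = - A j i) :
    IsSquare A.det := by
  let φ := algebraMap R (FractionRing R)
  obtain ⟨y, hy⟩ := det_sq (φ.mapMatrix A) (fun i => by simp [h1]) (fun i j => by
    simp only [RingHom.mapMatrix_apply, Matrix.map_apply]; rw [h2 i j, map_neg])
  rw [← RingHom.map_det] at hy
  obtain ⟨z, rfl⟩ := IsIntegrallyClosed.exists_algebraMap_eq_of_isIntegral_pow (R := R) (x := y) two_pos
    (by rw [pow_two, ← hy]; exact isIntegral_algebraMap)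
  exact ⟨z, IsFractionRing.injective R (FractionRing R) (by rw [map_mul]; exact hy)⟩

theorem sq_deg {F σ n : Type*} [Field F] [Fintype n] [DecidableEq n] (A : Matrix n n (MvPolynomial σ F))
    (hA : ∀ i j, (A i j).totalDegree ≤ 1) : A.det.totalDegree ≤ Fintype.card n := by
  rw [Matrix.det_apply']
  refine MvPolynomial.totalDegree_finsetSum_le fun τ _ => (MvPolynomial.totalDegree_mul _ _).trans ?_
  have h1 : (((Equiv.Perm.sign τ : ℤˣ) : ℤ) : MvPolynomial σ F).totalDegree = 0 := by
    rw [← map_intCast (MvPolynomial.C : F →+* _), MvPolynomial.totalDegree_C]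
  rw [h1, zero_add]
  exact (MvPolynomial.totalDegree_finsetProd _ _).trans
    ((Finset.sum_le_card_nsmul _ _ 1 fun i _ => hA _ _).trans (by rw [Finset.card_univ, smul_eq_mul, mul_one]))

theorem sq_mat {F σ n : Type*} [Field F] [Finite F] [Fintype σ] [Fintype n] [DecidableEq n] [Nonempty n]
    (M : σ → Matrix n n F) (h1 : ∀ k i, M k i i = 0) (h2 : ∀ k i j, M k i j = - M k j i)
    (hlt : Fintype.card n < 2 * Fintype.card σ) :
    ∃ x : σ → F, x ≠ 0 ∧ (Matrix.of fun i j => ∑ k, M k i j * x k).det = 0 := by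
  classical
  have := Fintype.ofFinite F
  obtain ⟨A, hA⟩ : ∃ A : Matrix n n (MvPolynomial σ F),
    ∀ i j, A i j = ∑ k, MvPolynomial.C (M k i j) * MvPolynomial.X k := ⟨Matrix.of fun i j => _, fun _ _ => rfl⟩
  obtain ⟨g, hg⟩ := det_sq' A (fun i => by simp [hA, h1]) (fun i j => by
    rw [hA, hA, ← Finset.sum_neg_distrib]
    exact Finset.sum_congr rfl fun k _ => by rw [h2 k i j, map_neg, neg_mul])
  have hdet := sq_deg A fun i j => by
    rw [hA]
    refine MvPolynomial.totalDegree_finsetSum_le fun k _ => (MvPolynomial.totalDegree_mul _ _).trans ?_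
    rw [MvPolynomial.totalDegree_C, MvPolynomial.totalDegree_X]
  have hpos : 0 < Fintype.card n := Fintype.card_pos
  have hgd : g.totalDegree < Fintype.card σ := by
    by_cases g0 : g = 0
    · rw [g0, MvPolynomial.totalDegree_zero]; omega
    · rw [hg, MvPolynomial.totalDegree_mul_of_isDomain g0 g0] at hdet; omega
  have hev : ∀ x, MvPolynomial.eval x g = 0 ↔ (Matrix.of fun i j => ∑ k, M k i j * x k).det = 0 := fun x => by
    have e : (MvPolynomial.eval x).mapMatrix A = Matrix.of fun i j => ∑ k, M k i j * x k := by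
      ext i j
      simp only [hA, RingHom.mapMatrix_apply, Matrix.map_apply, Matrix.of_apply, map_sum, map_mul,
        MvPolynomial.eval_C, MvPolynomial.eval_X]
    rw [← mul_self_eq_zero, ← map_mul, ← hg, RingHom.map_det, e]
  obtain ⟨p, hp⟩ := CharP.exists F
  have hpp := CharP.char_is_prime F p
  have h4 := char_dvd_card_solutions p hgd
  have h0 : MvPolynomial.eval 0 g = 0 := by
    rw [hev]
    have : (Matrix.of fun i j => ∑ k, M k i j * (0 : σ → F) k) = 0 := by ext i j; simp
    rw [this, Matrix.det_zero]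
  have h5 : 1 < Fintype.card { x : σ → F // MvPolynomial.eval x g = 0 } :=
    hpp.one_lt.trans_le (Nat.le_of_dvd (Fintype.card_pos_iff.2 ⟨⟨0, h0⟩⟩) h4)
  obtain ⟨⟨x, hx⟩, x0⟩ := Fintype.exists_ne_of_one_lt_card h5 ⟨0, h0⟩
  exact ⟨x, fun e => x0 (Subtype.ext e), (hev x).1 hx⟩

/-- Let `m = dim Z`, `n = dim W > 0`, bases `w i` of `W` and coordinates `z k` of `Z`. Let
`A i j = ∑ k, X k * C (z k (b (w i) (w j)))` over `MvPolynomial (Fin m) F`; `det A = g * g` (`det_sq'`),
`totalDegree (det A) ≤ n` so `2 * totalDegree g ≤ n` (`MvPolynomial.totalDegree_mul_of_isDomain`, if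
`g ≠ 0`; if `g = 0` its degree is `0`). `g 0 = 0` since `A(0) = 0`, `n > 0`. If `n < 2 m` then
`totalDegree g < m` and Chevalley-Warning (`char_dvd_card_solutions`, see Lib/TC/X.lean for a use) gives
a zero `x ≠ 0` of `g`: then `λ = ∑ x k • z k ≠ 0` and `λ ∘ b` has determinant `0`, so some `a ≠ 0` has
`λ (b a ·) = 0` (`Matrix.exists_vecMul_eq_zero_iff`), and `b a` onto gives `λ = 0`. -/
theorem sq {F W Z : Type*} [Field F] [Finite F] [AddCommGroup W] [Module F W] [AddCommGroup Z]
    [Module F Z] [FiniteDimensional F W] [FiniteDimensional F Z] [Nontrivial W]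
    (b : W →ₗ[F] W →ₗ[F] Z) (alt : ∀ a, b a a = 0) (sj : ∀ a ≠ 0, Function.Surjective (b a)) :
    2 * finrank F Z ≤ finrank F W := by
  classical
  by_contra! hlt
  let w := finBasis F W
  let z := finBasis F Z
  have sk : ∀ x y, b x y = - b y x := fun x y => by
    have := alt (x + y)
    simp only [map_add, LinearMap.add_apply, alt, zero_add, add_zero] at this
    exact eq_neg_of_add_eq_zero_right this
  have : Nonempty (Fin (finrank F W)) := ⟨⟨0, finrank_pos⟩⟩
  obtain ⟨x, x0, hx⟩ := sq_mat (fun k => Matrix.of fun i j => z.repr (b (w i) (w j)) k)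
    (fun k i => by rw [Matrix.of_apply, alt, map_zero, Finsupp.zero_apply])
    (fun k i j => by rw [Matrix.of_apply, Matrix.of_apply, sk, map_neg, Finsupp.neg_apply])
    (by rwa [Fintype.card_fin, Fintype.card_fin])
  obtain ⟨lam, hl⟩ : ∃ lam : Z →ₗ[F] F, ∀ t, lam t = ∑ k, z.repr t k * x k :=
    ⟨∑ k, x k • z.coord k, fun t => by simp [mul_comm]⟩
  simp only [Matrix.of_apply, ← hl] at hx
  obtain ⟨v, v0, hv⟩ := Matrix.exists_vecMul_eq_zero_iff.2 hx
  have ha : w.equivFun.symm v ≠ 0 := by rwa [Ne, LinearEquiv.map_eq_zero_iff]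
  have h6 : lam ∘ₗ b (w.equivFun.symm v) = 0 := w.ext fun j => by
    have := congrFun hv j
    simpa [Matrix.vecMul, dotProduct, map_sum] using this
  refine x0 (funext fun k => ?_)
  obtain ⟨u, hu⟩ := sj _ ha (z k)
  have h7 := LinearMap.congr_fun h6 u
  rw [LinearMap.comp_apply, hu, hl] at h7
  simpa [Finsupp.single_apply] using h7

end Cfsg.Lib.Nd4
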