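import Cfsg.Agent.Lib.Nd4.Topc

/-!
# The action on the top chief factor
-/

set_option autoImplicit false

namespace Cfsg.Lib.Nd4
open Cfsg.Lib.Char Cfsg.Lib.CharDeg Cfsg.Lib.Clifford Cfsg.Lib.Induce Cfsg.Lib.Core Cfsg.Lib.Gar
  Cfsg.Lib.RelGraph Cfsg.Lib.Nda Cfsg.Lib.BG Subgroup MulAction
open scoped commutatorElement

variable {Y Γ : Type*} [Group Y] [Finite Y] [CommGroup Γ] [Finite Γ] [MulDistribMulAction Y Γ]
  {A : Subgroup Y} [A.Normal] {q : ℕ}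

namespace Top
variable (h : Top Y Γ A q)
include h

theorem WA : _root_.commutator Y ≤ A := commutator_le.2 fun a _ b _ => (QuotientGroup.eq_one_iff _).1 (by
  have := h.cyc
  rw [← QuotientGroup.mk'_apply, map_commutatorElement, commutatorElement_eq_one_iff_mul_comm]
  exact mul_comm' _ _)

theorem exists_not : ∃ y, y ∉ A := by
  by_contra! k
  exact h.W1 (eq_bot_iff.2 (commutator_le.2 fun a _ b _ =>
    commutatorElement_eq_one_iff_mul_comm.2 (h.cA a (k a) b (k b))))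

/-- `W = Y' ≤ A` (`cyc`), `A ≠ ⊤` (else `Y` is abelian), so `w ∈ W \ 1` is not central (`fW`): `fA`. -/
theorem fixW {w : Y} (hw : w ∈ _root_.commutator Y) {γ : Γ} (h1 : w • γ = γ) : w = 1 ∨ γ = 1 := by
  obtain ⟨y, hy⟩ := h.exists_not
  exact or_iff_not_imp_left.2 fun n => h.fA w (h.WA hw) (fun c => n (h.fW y hy w hw (mem_center_iff.1 c y))) γ h1

/-- `a ∈ A` fixing `γ ≠ 1` is central (`fA`), so its fixed points form an invariant subgroup (`irr`). -/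
theorem ker_of_mem {a : Y} (ha : a ∈ A) {γ : Γ} (h0 : γ ≠ 1) (h1 : a • γ = γ) (δ : Γ) : a • δ = δ := by
  have c : a ∈ center Y := by_contra fun c => h0 (h.fA a ha c γ h1)
  rcases h.irr ((MulDistribMulAction.toMonoidHom Γ a).eqLocus (MonoidHom.id Γ)) (fun y η (e : a • η = η) =>
    show a • y • η = y • η by rw [← mul_smul, ← mem_center_iff.1 c y, mul_smul, e]) with e | e
  · exact absurd ((eq_bot_iff_forall _).1 e γ h1) h0
  · exact e.ge (mem_top δ)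

/-- If `y ∉ A` acts trivially then so does `⁅w, y⁆ ∈ W`, so `⁅w, y⁆ = 1` (`fixW`), `w = 1` (`fW`). -/
theorem mem_of_ker {y : Y} (h1 : ∀ δ : Γ, y • δ = δ) : y ∈ A := by
  by_contra n
  have := h.nt
  obtain ⟨γ, hγ⟩ := exists_ne (1 : Γ)
  refine h.W1 ((eq_bot_iff_forall _).2 fun w hw => h.fW y n w hw (commutatorElement_eq_one_iff_mul_comm.1 ?_))
  refine (h.fixW (commutator_mem_commutator (mem_top y) (mem_top w)) (γ := γ) ?_).resolve_right hγ
  rw [commutatorElement_def, mul_smul, mul_smul, mul_smul, h1, inv_smul_eq_iff.2 (h1 _).symm, smul_inv_smul]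

/-- For `x ∉ A`, `w ↦ ⁅w, x⁆` is injective on `W`, so onto `W`. -/
theorem exists_comm {x : Y} (hx : x ∉ A) {v : Y} (hv : v ∈ _root_.commutator Y) :
    ∃ w ∈ _root_.commutator Y, ⁅w, x⁆ = v := by
  obtain ⟨w, e⟩ := (Finite.injective_iff_surjective (f := fun w : _root_.commutator Y =>
    (⟨⁅w.1, x⁆, commutator_mem_commutator (mem_top _) (mem_top x)⟩ : _root_.commutator Y))).1 (fun w w' e => by
      have e : w.1 * x * w.1⁻¹ = w'.1 * x * w'.1⁻¹ := mul_right_cancel (congrArg Subtype.val e)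
      refine Subtype.ext (inv_mul_eq_one.1 (h.fW x hx _ (mul_mem (inv_mem w.2) w'.2) ?_))
      calc x * (w.1⁻¹ * w'.1) = w.1⁻¹ * (w.1 * x * w.1⁻¹) * w'.1 := by group
        _ = _ := by rw [e]; group) ⟨v, hv⟩
  exact ⟨w, w.2, congrArg Subtype.val e⟩

theorem exists_mul {x : Y} (hx : x ∉ A) (g : Y) : ∃ w ∈ _root_.commutator Y, ∃ c ∈ 𝐂[x], g = w * c := by
  obtain ⟨w, hw, e⟩ := h.exists_comm hx (commutator_mem_commutator (mem_top g) (mem_top x))
  have e : w * x * w⁻¹ = g * x * g⁻¹ := mul_right_cancel e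
  refine ⟨w, hw, w⁻¹ * g, mem_centralizer_singleton_iff.2 ?_, by group⟩
  calc w⁻¹ * g * x = w⁻¹ * (g * x * g⁻¹) * g := by group
    _ = _ := by rw [← e]; group

/-- `H = C(x)`, `x ∉ A`, is an abelian complement of `W` (`⁅g, x⁆ = ⁅w, x⁆` gives `w⁻¹ g ∈ H`;
`H' ≤ H ∩ W = 1`), and `H ∩ A` centralizes `W` and `H`. -/
theorem cent {x : Y} (hx : x ∉ A) : (∀ a ∈ 𝐂[x], ∀ b ∈ 𝐂[x], a * b = b * a) ∧
    _root_.commutator Y ⊔ 𝐂[x] = ⊤ ∧ 𝐂[x] ⊓ A ≤ center Y := by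
  have k : ∀ a ∈ 𝐂[x], ∀ b ∈ 𝐂[x], a * b = b * a := fun a ha b hb => commutatorElement_eq_one_iff_mul_comm.1
    (h.fW x hx _ (commutator_mem_commutator (mem_top a) (mem_top b)) (mem_centralizer_singleton_iff.1
      (mul_mem (mul_mem (mul_mem ha hb) (inv_mem ha)) (inv_mem hb))).symm)
  refine ⟨k, eq_top_iff.2 fun g _ => ?_, fun a ha => mem_center_iff.2 fun g => ?_⟩ <;>
    obtain ⟨w, hw, c, hc, rfl⟩ := h.exists_mul hx g
  · exact mul_mem_sup hw hc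
  · rw [mul_assoc, k c hc a ha.1, ← mul_assoc, h.cA w (h.WA hw) a ha.2, mul_assoc]

/-- A subgroup meeting `A` in central elements is abelian (`T / T ∩ A` is cyclic;
`commutative_of_cyclic_center_quotient`). -/
theorem comm {T : Subgroup Y} (hT : T ⊓ A ≤ center Y) : ∀ a ∈ T, ∀ b ∈ T, a * b = b * a := by
  intro a ha b hb
  have := h.cyc
  exact congrArg Subtype.val (commutative_of_cyclic_center_quotient ((QuotientGroup.mk' A).comp T.subtype)
    (fun x hx => mem_center_iff.2 fun g => Subtype.ext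
      (mem_center_iff.1 (hT ⟨x.2, (QuotientGroup.eq_one_iff _).1 hx⟩) g)) ⟨a, ha⟩ ⟨b, hb⟩)

/-- `T = stabilizer γ` contains `y ∉ A` (`nf`), and is abelian (`comm`, `fA`). `y = v h` with `v ∈ W`,
`h ∈ H = C(x)`; `h = w y w⁻¹` for some `w ∈ W` (`exists_comm`), so `stabilizer (w • γ) ≤ C(h)`, and
`C(h) = H` (`H ≤ C(h)`, both complements of `W`; or: `g = v' h' ∈ C(h)` gives `v' ∈ C(h) ∩ W = 1`). -/
theorem conj_le {x : Y} (hx : x ∉ A) {γ : Γ} (h0 : γ ≠ 1) :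
    ∃ w ∈ _root_.commutator Y, stabilizer Y (w • γ) ≤ 𝐂[x] := by
  obtain ⟨y, hy, yA⟩ := SetLike.not_le_iff_exists.1 fun k => h.nf γ h0 (index_dvd_of_le k)
  have ab := h.comm (T := stabilizer Y γ) fun a ha => by_contra fun c => h0 (h.fA a ha.2 c γ ha.1)
  obtain ⟨v, hv, c, hc, rfl⟩ := h.exists_mul hx y
  have cA : c ∉ A := fun k => yA (mul_mem (h.WA hv) k)
  obtain ⟨w, hw, e⟩ := h.exists_comm yA (inv_mem hv)
  have e : w * (v * c) * w⁻¹ = c := by rw [← inv_mul_cancel_right (w * _ * _) (v * c), ← commutatorElement_def, e]; group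
  refine ⟨w, hw, fun g hg => mem_centralizer_singleton_iff.2 ((h.cent cA).1 g (mem_centralizer_singleton_iff.2 ?_) x
    (mem_centralizer_singleton_iff.2 (mem_centralizer_singleton_iff.1 hc).symm))⟩
  have := ab (w⁻¹ * g * w) (by
    rw [mem_stabilizer_iff, mul_smul, mul_smul, mem_stabilizer_iff.1 hg, inv_smul_smul]) _ hy
  rw [← e]
  calc g * (w * (v * c) * w⁻¹) = w * (w⁻¹ * g * w * (v * c)) * w⁻¹ := by group
    _ = _ := by rw [this]; group

/-- `W` acts semiregularly on `Γ \ 1`. -/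
theorem card_dvd : Nat.card (_root_.commutator Y) ∣ Nat.card Γ - 1 :=
  Frobenius.card_dvd_card_sub_one_of_free _ Γ 1 (fun _ => smul_one _) fun a _ n e =>
    Subtype.ext ((h.fixW a.2 e).resolve_right n)

/-- `Pal.fix_of_frob` for the faithful group `φ.range`, `φ = MulDistribMulAction.toMulAut Y Γ`, with
`K = W.map`, `R = zpowers (φ z)`: a power `z ^ i` acting nontrivially is not in `A`, and if
`⁅z ^ i, w⁆` acts trivially it is `1` (`fixW`), so `w = 1` (`fW`). `|W|` is prime to `q` as `W` acts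
semiregularly on `Γ \ 1`. If `fx Γ R = ⊥` then `W` acts trivially, against `fixW`, `W1`. -/
theorem fix_ne {z : Y} (hz : ∀ i : ℕ, z ^ i ∈ A → ∀ δ : Γ, z ^ i • δ = δ) :
    ∃ γ : Γ, γ ≠ 1 ∧ z • γ = γ := by
  by_contra! k
  have := h.nt
  obtain ⟨γ, hγ⟩ := exists_ne (1 : Γ)
  let φ := MulDistribMulAction.toMulAut Y Γ
  refine h.W1 ((eq_bot_iff_forall _).2 fun w hw => (h.fixW hw (γ := γ) ?_).resolve_right hγ)
  refine Pal.fix_of_frob (V := Γ) (K := (_root_.commutator Y).map φ) (R := zpowers (φ z))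
    (zpowers_le.2 (le_normalizer_map _ ⟨z, (normalizer_eq_top _).ge trivial, rfl⟩)) ?_ ?_
    ((eq_bot_iff_forall _).2 fun v hv => by_contra fun n => k v n (hv _ (mem_zpowers _))) ⟨w, hw, rfl⟩ γ
  · intro g hg g1
    obtain ⟨n, rfl⟩ := (Submonoid.mem_powers_iff _ _).1 (mem_powers_iff_mem_zpowers.2 hg)
    refine (eq_bot_iff_forall _).2 ?_
    rintro _ ⟨⟨v, hv, rfl⟩, c⟩
    rw [← map_pow] at g1 c
    have e : φ ⁅z ^ n, v⁆ = 1 := by
      rw [map_commutatorElement]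
      exact commutatorElement_eq_one_iff_mul_comm.2 (mem_centralizer_singleton_iff.1 c).symm
    rw [h.fW _ (fun m => g1 (MulEquiv.ext (hz n m))) v hv (commutatorElement_eq_one_iff_mul_comm.1
      ((h.fixW (commutator_mem_commutator (mem_top _) (mem_top v)) (MulEquiv.congr_fun e γ)).resolve_right hγ)),
      map_one]
  · refine Nat.Coprime.coprime_dvd_left ((card_map_dvd _ φ).trans h.card_dvd) ?_
    obtain ⟨m, hm⟩ := Nat.exists_eq_add_one_of_ne_zero (Nat.card_pos (α := Γ)).ne'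
    simp [hm]

omit h [Finite Y] [Finite Γ] in
theorem smul_ne (w : Y) {γ : Γ} (h0 : γ ≠ 1) : w • γ ≠ 1 := fun e => h0 (by rw [← inv_smul_smul w γ, e, smul_one])

omit h [Finite Y] [Finite Γ] in
theorem idx_smul (w : Y) (γ : Γ) : (stabilizer Y (w • γ)).index = (stabilizer Y γ).index := by
  rw [index_stabilizer, index_stabilizer, orbit_smul]

theorem idx_mul {γ : Γ} (h0 : γ ≠ 1) : Nat.card ((stabilizer Y γ).map (QuotientGroup.mk' A)) * (stabilizer Y γ).index =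
    (MulDistribMulAction.toMulAut Y Γ).ker.index := by
  have e : A ⊓ stabilizer Y γ = (MulDistribMulAction.toMulAut Y Γ).ker := le_antisymm
    (fun a ha => MulEquiv.ext (h.ker_of_mem ha.1 h0 ha.2)) fun a ha =>
      ⟨h.mem_of_ker (MulEquiv.congr_fun ha), MulEquiv.congr_fun ha γ⟩
  rw [← relIndex_ker, QuotientGroup.ker_mk', ← inf_relIndex_right, relIndex_mul_index inf_le_right, e]

/-- Let `K` be the kernel of the action, `K ≤ A`, `T_γ ∩ A = K`, so `|T_γ : K| = t_γ` is the order of the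
image of `T_γ` in the cyclic group `Y ⧸ A`, and `index T_γ * t_γ = index K`. By `conj_le` assume
`T_γ, T_δ ≤ C(x)` abelian; take `y₁ ∈ T_γ`, `y₂ ∈ T_δ` generating the images, of orders `t, s` mod `A`;
`z = y₁ ^ i * y₂ ^ j` with `y₁ ^ i`, `y₂ ^ j` of coprime orders mod `A` with product `lcm t s`
(`Nat.factorizationLCMLeft/Right`, `Commute.orderOf_mul_pow_eq_lcm`). If `z ^ n ∈ A` then both
`y₁ ^ (i n), y₂ ^ (j n) ∈ A`, so in `K`. `fix_ne` gives `η` with `lcm t s ∣ t_η`; `nd` gives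
`t_η = t = s`. Finally a Sylow `q`-subgroup fixes some `γ ≠ 1`
(`IsPGroup.exists_fixed_point_of_prime_dvd_card_of_fixed_point`). -/
theorem const : ∃ d, ¬ q ∣ d ∧ ∀ γ : Γ, γ ≠ 1 → (stabilizer Y γ).index = d := by
  have := h.cyc
  have := h.nt
  have := Fact.mk h.hq
  obtain ⟨x, hx⟩ := h.exists_not
  have gen : ∀ γ : Γ, ∃ y ∈ stabilizer Y γ,
      orderOf (QuotientGroup.mk' A y) = Nat.card ((stabilizer Y γ).map (QuotientGroup.mk' A)) := fun γ => by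
    obtain ⟨⟨_, y, hy, rfl⟩, e⟩ := IsCyclic.exists_ofOrder_eq_natCard (α := (stabilizer Y γ).map (QuotientGroup.mk' A))
    exact ⟨y, hy, (Subgroup.orderOf_mk _ _).symm.trans e⟩
  have dv : ∀ {γ η : Γ}, γ ≠ 1 → η ≠ 1 → Nat.card ((stabilizer Y γ).map (QuotientGroup.mk' A)) ∣
      Nat.card ((stabilizer Y η).map (QuotientGroup.mk' A)) → (stabilizer Y η).index = (stabilizer Y γ).index :=
    fun {γ η} a b ⟨c, e⟩ => h.nd _ _ b a ⟨c, Nat.eq_of_mul_eq_mul_left Nat.card_pos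
      ((h.idx_mul a).trans ((h.idx_mul b).symm.trans (by rw [e]; ring)))⟩
  have key : ∀ γ δ : Γ, γ ≠ 1 → δ ≠ 1 → stabilizer Y γ ≤ 𝐂[x] → stabilizer Y δ ≤ 𝐂[x] →
      (stabilizer Y γ).index = (stabilizer Y δ).index := fun γ δ a b ca cb => by
    obtain ⟨y₁, m₁, e₁⟩ := gen γ
    obtain ⟨y₂, m₂, e₂⟩ := gen δ
    obtain ⟨t, ht⟩ : ∃ t, t = orderOf (QuotientGroup.mk' A y₁) := ⟨_, rfl⟩
    obtain ⟨s, hs⟩ : ∃ s, s = orderOf (QuotientGroup.mk' A y₂) := ⟨_, rfl⟩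
    have t0 : t ≠ 0 := ht ▸ (orderOf_pos _).ne'
    have s0 : s ≠ 0 := hs ▸ (orderOf_pos _).ne'
    obtain ⟨u, hu, ou⟩ : ∃ u ∈ stabilizer Y γ, orderOf (QuotientGroup.mk' A u) = t.factorizationLCMLeft s :=
      ⟨y₁ ^ (t / t.factorizationLCMLeft s), pow_mem m₁ _, by
        rw [map_pow, ht]; exact orderOf_pow_orderOf_div (ht ▸ t0) (Nat.factorizationLCMLeft_dvd_left _ _)⟩
    obtain ⟨v, hv, ov⟩ : ∃ v ∈ stabilizer Y δ, orderOf (QuotientGroup.mk' A v) = t.factorizationLCMRight s :=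
      ⟨y₂ ^ (s / t.factorizationLCMRight s), pow_mem m₂ _, by
        rw [map_pow, hs]; exact orderOf_pow_orderOf_div (hs ▸ s0) (Nat.factorizationLCMRight_dvd_right _ _)⟩
    have c : Commute u v := (h.cent hx).1 u (ca hu) v (cb hv)
    have o := (c.map (QuotientGroup.mk' A)).orderOf_mul_eq_mul_orderOf_of_coprime
      (by rw [ou, ov]; exact Nat.coprime_factorizationLCMLeft_factorizationLCMRight _ _)
    rw [← map_mul] at o
    obtain ⟨η, η1, e⟩ := h.fix_ne (z := u * v) fun n hn ε => by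
      have d := o ▸ orderOf_dvd_of_pow_eq_one ((map_pow _ _ n).symm.trans ((QuotientGroup.eq_one_iff _).2 hn))
      have k : ∀ {g : Y} {θ : Γ}, θ ≠ 1 → g ∈ stabilizer Y θ → orderOf (QuotientGroup.mk' A g) ∣ n →
          ∀ ε : Γ, g ^ n • ε = ε := fun {g θ} θ1 m d => h.ker_of_mem ((QuotientGroup.eq_one_iff _).1
        ((map_pow (QuotientGroup.mk' A) g n).trans (orderOf_dvd_iff_pow_eq_one.1 d))) θ1 (pow_mem m n)
      rw [c.mul_pow, mul_smul, k b hv (dvd_of_mul_left_dvd d), k a hu (dvd_of_mul_right_dvd d)]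
    have d := Subgroup.orderOf_dvd_natCard ((stabilizer Y η).map (QuotientGroup.mk' A)) (mem_map_of_mem _ e)
    rw [o, ou, ov, Nat.factorizationLCMLeft_mul_factorizationLCMRight t0 s0] at d
    exact (dv a η1 (by rw [← e₁, ← ht]; exact (Nat.dvd_lcm_left _ _).trans d)).symm.trans
      (dv b η1 (by rw [← e₂, ← hs]; exact (Nat.dvd_lcm_right _ _).trans d))
  obtain ⟨Q⟩ : Nonempty (Sylow q Y) := inferInstance
  obtain ⟨γ, hγ, γ1⟩ := Q.isPGroup'.exists_fixed_point_of_prime_dvd_card_of_fixed_point Γ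
    (h.pq.card_eq_or_dvd.resolve_left Finite.one_lt_card.ne') (a := 1) fun _ => smul_one _
  refine ⟨_, fun d => Q.not_dvd_index (d.trans (index_dvd_of_le (K := stabilizer Y γ) fun g hg => hγ ⟨g, hg⟩)),
    fun δ δ1 => ?_⟩
  obtain ⟨w, -, a⟩ := h.conj_le hx δ1
  obtain ⟨w', -, b⟩ := h.conj_le hx γ1.symm
  rw [← idx_smul w, ← idx_smul w' γ]
  exact key _ _ (smul_ne w δ1) (smul_ne w' γ1.symm) a b

omit h in
/-- `T0` is abelian, `B0 = T0 ∩ A`, `T0 / B0` cyclic of order `n` generated by `g`. All `T` have the same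
order `n0 = |Y| / d`, `n0 ∤ |A|` (else `A.index ∣ d`), so `n0 ∤ |B0|`: fix a prime `r` with
`v_r n0 > v_r |B0|`, let `k` be the `r'`-part of `|T0|` and `x = g ^ (n / r * k) ∉ A`. For `T`: with
`m = |T B0 / B0|`, `j = |B0 : T ∩ B0|`, `n0 j = m |B0|` so `v_r m > v_r j`, `j ∣ m / r * k`; some
`y = g ^ (n / m) b ∈ T`, and `y ^ (m / r * k) = x b ^ (m / r * k)` with the last factor in `T`.
(If there is no such `T` take any `x ∉ A`.) -/
theorem common (hc : IsCyclic (Y ⧸ A)) {d : ℕ} (hd : ¬ A.index ∣ d) {T0 : Subgroup Y}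
    (hT : T0 ⊓ A ≤ center Y) : ∃ x ∉ A, ∀ T ≤ T0, T.index = d → x ∈ T := by
  exact common' hc hd hT

/-- Take `x₀ ∉ A`, `x` from `common` for `T0 = C(x₀)`, `F = fx Γ (zpowers x)`, `Q = |F|`. Every `γ ≠ 1` is
`w⁻¹ • (w • γ)` with `w • γ ∈ F \ 1` (`conj_le`, `const`): `|Γ| - 1 ≤ |W| (Q - 1)`. For `1 ≠ w ∈ W`,
`F ∩ w • F = 1` (fixed by `x` and `w x w⁻¹`, so by `⁅w, x⁆ ≠ 1`), so `Q² ≤ |Γ| = q ^ n`. If
`|W| ∣ q ^ l - 1` then `|W| ∣ q ^ g - 1`, `g = gcd l n`, `2 g ≤ n` (`card_dvd`,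
`Nat.pow_sub_one_gcd_pow_sub_one`), and `a = q ^ g ≥ 2`, `a² ≤ |Γ|`, `a Q ≤ |Γ|`,
`|Γ| - 1 ≤ (a - 1) (Q - 1) < a Q - 1`. -/
theorem not_dvd {l : ℕ} (h0 : 0 < l) (hl : q ^ l < Nat.card Γ) :
    ¬ Nat.card (_root_.commutator Y) ∣ q ^ l - 1 := by
  intro hd
  have := h.nt
  have := Fact.mk h.hq
  obtain ⟨x₀, hx₀⟩ := h.exists_not
  obtain ⟨d, -, cd⟩ := h.const
  obtain ⟨γ₀, hγ₀⟩ := exists_ne (1 : Γ)
  obtain ⟨x, hx, cx⟩ := common h.cyc (cd γ₀ hγ₀ ▸ h.nf γ₀ hγ₀) (h.cent hx₀).2.2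
  let F : Subgroup Γ := (MulDistribMulAction.toMonoidHom Γ x).eqLocus (MonoidHom.id Γ)
  have c1 : Nat.card {v : Γ // v ∈ (⊤ : Subgroup Γ) ∧ v ≠ 1} ≤
      Nat.card (_root_.commutator Y × {v : Γ // v ∈ F ∧ v ≠ 1}) :=
    Nat.card_le_card_of_surjective (fun p => ⟨p.1.1⁻¹ • p.2.1, trivial, smul_ne _ p.2.2.2⟩) fun γ => by
      obtain ⟨w, hw, e⟩ := h.conj_le hx₀ γ.2.2
      have n := smul_ne w γ.2.2
      exact ⟨(⟨w, hw⟩, ⟨w • γ.1, cx _ e (cd _ n), n⟩), Subtype.ext (inv_smul_smul _ _)⟩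
  obtain ⟨w, hw, w1⟩ := (bot_or_exists_ne_one _).resolve_left h.W1
  have c2 : Nat.card (F × F) ≤ Nat.card Γ := Nat.card_le_card_of_injective (fun p => p.1.1 * w • p.2.1) (by
    rintro ⟨a, b⟩ ⟨a', b'⟩ e
    have e1 : (a'⁻¹ * a).1 = w • (b' * b⁻¹).1 := by
      have e : a.1 * w • b.1 = a'.1 * w • b'.1 := e
      rw [coe_mul, coe_mul, coe_inv, coe_inv, smul_mul', smul_inv', eq_mul_inv_iff_mul_eq, mul_assoc, e,
        inv_mul_cancel_left]
    have f1 : x • (a'⁻¹ * a).1 = (a'⁻¹ * a).1 := (a'⁻¹ * a).2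
    have f2 : x • (b' * b⁻¹).1 = (b' * b⁻¹).1 := (b' * b⁻¹).2
    have e2 := (h.fixW (commutator_mem_commutator (mem_top w) (mem_top x)) (γ := (a'⁻¹ * a).1) (by
      rw [commutatorElement_def, mul_smul, mul_smul, mul_smul, inv_smul_eq_iff.2 f1.symm, e1, inv_smul_smul,
        f2])).resolve_left fun k => w1 (h.fW x hx w hw (commutatorElement_eq_one_iff_mul_comm.1 k).symm)
    replace e1 : (b' * b⁻¹).1 = 1 := by_contra fun k => smul_ne w k (e1.symm.trans e2)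
    exact Prod.ext (inv_mul_eq_one.1 (Subtype.ext e2)).symm (mul_inv_eq_one.1 (Subtype.ext e1)).symm)
  have n1 := Pal.card_ne_one (⊤ : Subgroup Γ)
  have n2 := Pal.card_ne_one F
  obtain ⟨n, hn⟩ := h.pq.exists_card_eq
  have q1 := h.hq.one_lt
  have ln : l < n := (Nat.pow_lt_pow_iff_right q1).1 (hn ▸ hl)
  have g1 := Nat.dvd_gcd hd (hn ▸ h.card_dvd)
  rw [Nat.pow_sub_one_gcd_pow_sub_one] at g1
  have g0 := Nat.gcd_pos_of_pos_left n h0
  have g2 : 2 * l.gcd n ≤ n := by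
    obtain ⟨c, hc⟩ := Nat.gcd_dvd_right l n
    have := Nat.gcd_le_left n h0
    rcases c with _ | _ | c <;> nlinarith
  have a2 : 1 < q ^ l.gcd n := Nat.one_lt_pow g0.ne' q1
  have a3 : q ^ l.gcd n * q ^ l.gcd n ≤ Nat.card Γ := by
    rw [← pow_add, hn]; exact Nat.pow_le_pow_right q1.le (by omega)
  have a4 := Nat.le_of_dvd (by omega) g1
  rw [card_top] at n1
  rw [Nat.card_prod] at c1 c2
  have a5 : q ^ l.gcd n * Nat.card F ≤ Nat.card Γ := Nat.mul_self_le_mul_self_iff.1 (by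
    rw [mul_mul_mul_comm]; exact Nat.mul_le_mul a3 c2)
  obtain ⟨a, ha⟩ := Nat.exists_eq_add_one_of_ne_zero (show q ^ l.gcd n ≠ 0 by omega)
  rw [ha] at a2 a4 a5
  rw [← n2] at a5
  have := Nat.mul_le_mul_right (Nat.card {v : Γ // v ∈ F ∧ v ≠ 1}) a4
  rw [Nat.add_sub_cancel] at this
  nlinarith

/-- `|Γ| ≥ 3` (`card_dvd`, `W1`, `nt`), so every `γ` is `η / η'` with `η, η' ≠ 1`; `mem_of_ker`. -/
theorem mem_of_div {x : Y} (hx : ∀ η η' : Γ, η ≠ 1 → η' ≠ 1 → x • (η / η') = η / η') : x ∈ A := by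
  have := h.nt
  have c1 := Finite.one_lt_card (α := Γ)
  have c2 := Nat.le_of_dvd (by omega) h.card_dvd
  have c3 := (one_lt_card_iff_ne_bot _).2 h.W1
  refine h.mem_of_ker fun γ => ?_
  obtain ⟨η, a, b⟩ := ENat.exists_ne_ne_of_three_le (α := Γ) (by
    rw [ENat.card_eq_coe_natCard]; exact_mod_cast (by omega : 3 ≤ Nat.card Γ)) 1 γ⁻¹
  simpa using hx (γ * η) η (fun e => b (eq_inv_of_mul_eq_one_right e)) a

end Top

end Cfsg.Lib.Nd4
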