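import Cfsg.Agent.Lib.Nd4.Gen
import Cfsg.Agent.Lib.Nd4.Top

/-!
# Case β-I: the top chief factor of the complemented subgroup `N'`
-/

set_option autoImplicit false

namespace Cfsg.Lib.Nd4
open Cfsg.Lib.Char Cfsg.Lib.CharDeg Cfsg.Lib.Clifford Cfsg.Lib.Induce Cfsg.Lib.Core Cfsg.Lib.Gar
  Cfsg.Lib.RelGraph Cfsg.Lib.Nda Cfsg.Lib.BG Subgroup MulAction
open scoped commutatorElement

variable {G : Type*} [Group G] [Fintype G] {N Y L : Subgroup G} [N.Normal] {p : ℕ}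

omit [Fintype G] [N.Normal] in
theorem sb_cm {a b : G} (ha : a ∈ Y) (hb : b ∈ Y) : ⁅a, b⁆ ∈ Y :=
  mul_mem (mul_mem (mul_mem ha hb) (inv_mem ha)) (inv_mem hb)

omit [Fintype G] in
theorem sb_ker (N Y : Subgroup G) [N.Normal] :
    N.subgroupOf Y = ((QuotientGroup.mk' N).comp Y.subtype).ker := by
  rw [← MonoidHom.comap_ker, QuotientGroup.ker_mk']; rfl

namespace Sb
variable (h : Sb G N Y p)
include h

/-- Images; `(N' ⊓ Y)` stays trivial since `L ≤ N'`: `y ∈ N' L = N'`. -/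
theorem quot (L : Subgroup G) [L.Normal] (hL : L ≤ ⁅N, N⁆) :
    Sb (G ⧸ L) (N.map (QuotientGroup.mk' L)) (Y.map (QuotientGroup.mk' L)) p := by
  refine ⟨h.toHn.quot L hL, ?_, ?_⟩
  · rw [← map_commutator, eq_bot_iff]
    rintro _ ⟨⟨x, hx, rfl⟩, y, hy, e⟩
    have : y ∈ ⁅N, N⁆ := inv_mem_iff.1 ((mul_mem_cancel_right hx).1 (hL (QuotientGroup.eq.1 e)))
    rw [mem_bot, ← e, mem_bot.1 (h.inf.le ⟨this, hy⟩), map_one]
  · rw [← map_commutator, ← Subgroup.map_sup, h.sup, map_top_of_surjective _ (QuotientGroup.mk'_surjective L)]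

/-- `⁅a, b⁆ ∈ N' ∩ Y = 1`. -/
theorem cA {a b : G} (ha : a ∈ N ⊓ Y) (hb : b ∈ N ⊓ Y) : a * b = b * a := by
  exact commutatorElement_eq_one_iff_mul_comm.1 (mem_bot.1 (h.inf.le
    ⟨commutator_mem_commutator ha.1 hb.1, sb_cm ha.2 hb.2⟩))

/-- (→) `⁅y, c⁆ ∈ N' ∩ Y`. (←) `g = x y`, `⁅x y, c⁆ = ⁅x, c⁆ ∈ N'`. -/
theorem mem_Lc_iff {c : G} (hc : c ∈ N ⊓ Y) : c ∈ Lc N ↔ ∀ y ∈ Y, y * c = c * y := by
  refine ⟨fun e y hy => commutatorElement_eq_one_iff_mul_comm.1 (mem_bot.1 (h.inf.le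
    ⟨mem_Lc.1 e y, sb_cm hy hc.2⟩)), fun e => mem_Lc.2 fun g => ?_⟩
  obtain ⟨x, hx, y, hy, rfl⟩ := mem_sup_of_normal_left.1 (h.sup.ge (mem_top g))
  have : ⁅x * y, c⁆ = x * (c * x⁻¹ * c⁻¹) := by
    rw [commutatorElement_def, mul_assoc x y c, e y hy]; group
  exact this ▸ mul_mem hx (Normal.conj_mem inferInstance _ (inv_mem hx) c)

/-- By `cam` (for `b⁻¹`), every `z ∈ N'` is `⁅b, n⁆` with `n = x a`, `x ∈ N'`, `a ∈ N ∩ Y`, so `z = ⁅b, x⁆`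
(`cA`). So `x ↦ ⁅b, x⁆` is onto the finite set `N'`, hence injective. -/
theorem fpfX {b x : G} (hb : b ∈ N ⊓ Y) (hL : b ∉ Lc N) (hx : x ∈ ⁅N, N⁆) (h1 : ⁅b, x⁆ = 1) :
    x = 1 := by
  let f : (⁅N, N⁆ : Subgroup G) → (⁅N, N⁆ : Subgroup G) := fun v =>
    ⟨⁅b, (v : G)⁆, mul_mem (Normal.conj_mem inferInstance _ v.2 b) (inv_mem v.2)⟩
  have hf : Function.Surjective f := fun z => by
    obtain ⟨n, hn, e⟩ := h.cam (inv_mem hb.1) (fun e => hL (inv_mem_iff.1 e)) z.2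
    obtain ⟨v, hv, a, ha, rfl⟩ := mem_sup_of_normal_left.1 (h.sup.ge (mem_top n))
    have c := h.cA (inv_mem hb) ⟨(mul_mem_cancel_left (commutator_le_left N N hv)).1 hn, ha⟩
    refine ⟨⟨v, hv⟩, Subtype.ext ?_⟩
    change ⁅b, v⁆ = z
    rw [mul_assoc v a, ← c] at e
    rw [← mul_inv_cancel_left b (z : G), ← e]; group
  exact congrArg Subtype.val ((Finite.injective_iff_surjective.2 hf (a₁ := ⟨x, hx⟩) (a₂ := 1))
    (Subtype.ext (h1.trans (commutatorElement_one_right b).symm)))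

/-- `surj_of_fpf` with `Y = ⊥`: every element of `X` is `⁅b, v⁆`, and `a ⁅b, v⁆ = 1`. -/
theorem fixL {X : Subgroup G} [X.Normal] (hX : X ≤ ⁅N, N⁆) {b : G} (hb : b ∈ N ⊓ Y) (hL : b ∉ Lc N)
    {a : Lin X} (h1 : cj b a = a) : a = 1 := by
  refine lin_injective (funext fun w => ?_)
  obtain ⟨v, hv, e⟩ := surj_of_fpf (X := X) (Y := ⊥) (g := b)
    (fun x hx e => mem_bot.2 (h.fpfX hb hL (hX hx) (mem_bot.1 e))) w.2
  have e' : (w : G) = ⁅b, v⁆ := inv_mul_eq_one.1 (mem_bot.1 e)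
  have := Hy.cj_ap b a ⟨v, hv⟩ (e' ▸ w.2)
  rw [h1, right_eq_mul] at this
  have e2 : w = ⟨_, e' ▸ w.2⟩ := Subtype.ext e'
  rw [e2]
  exact congrArg Units.val this

/-- `w ∈ G' ∩ Lc N ≤ N'` (`inf_le`). -/
theorem W_inf {w : G} (hw : w ∈ ⁅Y, Y⁆) (hL : w ∈ Lc N) : w = 1 := by
  exact mem_bot.1 (h.inf.le ⟨h.inf_le ⟨commutator_mono le_top le_top hw, hL⟩,
    commutator_le.2 (fun _ ha _ hb => sb_cm ha hb) hw⟩)

/-- Otherwise `G ⧸ N'` is abelian, against `not_le'`. -/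
theorem W_ne : ⁅Y, Y⁆ ≠ ⊥ := by
  refine fun e => h.not_le' ?_
  have e1 : (⊤ : Subgroup G).map (QuotientGroup.mk' ⁅N, N⁆) = Y.map (QuotientGroup.mk' ⁅N, N⁆) := by
    rw [← h.sup, Subgroup.map_sup, (Subgroup.map_eq_bot_iff _).2 (QuotientGroup.ker_mk' _).ge, bot_sup_eq]
  refine le_trans ((Subgroup.map_eq_bot_iff _).1 ?_) (QuotientGroup.ker_mk' ⁅N, N⁆).le
  rw [_root_.commutator, map_commutator, e1, ← map_commutator, e, Subgroup.map_bot]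

/-- `idx_mul_mem` with `n = 1`. Index `1` is impossible by `W_ne`, `W_inf`, `fixL`. If `f ∣ index` then
`f = index`; take `χ` over `a`; `index ∣ χ(1)` (`idx_dvd`) so `χ(1) = f`; but `χ` is not trivial on `N'`
so lies over a nonlinear `ψ ∈ Irr N` (`kr_iff`) and `p ∣ χ(1)` (`pm`, `deg_dvd`). -/
theorem idx {a : Lin (⁅N, N⁆ : Subgroup G)} (h0 : a ≠ 1) :
    (inertia _ (lin a)).index ∈ cd G ∧ (inertia _ (lin a)).index ≠ 1 ∧
      ¬ N.index ∣ (inertia _ (lin a)).index := by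
  refine ⟨mul_one (inertia _ (lin a)).index ▸ idx_mul_mem h.inf h.sup a one_mem_cd, fun e => ?_, fun e => ?_⟩
  · obtain ⟨⟨w, hw⟩, h1⟩ := ne_bot_iff_exists_ne_one.1 h.W_ne
    exact h0 (h.fixL le_rfl ⟨h.cm (commutator_mono le_top le_top hw),
      commutator_le.2 (fun _ ha _ hb => sb_cm ha hb) hw⟩ (fun e' => h1 (Subtype.ext (h.W_inf hw e')))
      (mem_inertia_lin.1 ((index_eq_one.1 e).ge (mem_top w))))
  · obtain ⟨χ, h1, h2⟩ := exists_irr_above _ (irr_lin a)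
    obtain ⟨ψ, h3, h4⟩ := exists_irr_below N h1
    have e1 := h.nd _ h.f_mem _ (charDegree_mem_cd h1) h.f1 (e.trans (idx_dvd h1 (irr_lin a) h2))
    have e2 : charDegree ψ ≠ 1 := fun e' => h0 (lin_injective (funext fun x => congrArg Units.val
      (lam_of_kr (μ := a.hom) h1 h2 ((kr_iff h1 h3 h4).2 e') x x.2)))
    exact h.np (e1 ▸ (h.pm _ (charDegree_mem_cd h3) e2).trans
      ((dvd_mul_left _ _).trans (deg_dvd h1 h3 h4)))

/-- `idx_Y`, `stab_Tr`. -/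
theorem idx_stab [L.Normal] (γ : Tr ⁅N, N⁆ L) :
    (stabilizer Y γ).index = (inertia _ (lin γ.1)).index := by
  rw [← idx_Y h.sup (le_inertia _ (irr_lin γ.1).isClassFunction), ← stab_Tr]
  rfl

/-- The annihilator in `N'` of a `Y`-invariant subgroup of `Tr N' L` is normal in `G`. -/
theorem irr [L.Normal] (hL : L ≤ ⁅N, N⁆) (c : ⁅⁅N, N⁆, ⁅N, N⁆⁆ ≤ L)
    (hm : ∀ J : Subgroup G, J.Normal → L ≤ J → J ≤ ⁅N, N⁆ → J = L ∨ J = ⁅N, N⁆)
    (Δ : Subgroup (Tr ⁅N, N⁆ L)) (hΔ : ∀ y : Y, ∀ γ ∈ Δ, y • γ ∈ Δ) : Δ = ⊥ ∨ Δ = ⊤ := by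
  let Φ : (⁅N, N⁆ : Subgroup G) →* (Δ →* ℂˣ) :=
    { toFun := fun x => { toFun := fun δ => δ.1.1.hom x, map_one' := rfl, map_mul' := fun _ _ => rfl }
      map_one' := MonoidHom.ext fun δ => map_one δ.1.1.hom
      map_mul' := fun x y => MonoidHom.ext fun δ => map_mul δ.1.1.hom x y }
  have hG : ∀ g : G, ∀ γ ∈ Δ, g • γ ∈ Δ := fun g γ hγ => by
    obtain ⟨x, hx, y, hy, rfl⟩ := mem_sup_of_normal_left.1 (h.sup.ge (mem_top g))
    have e : x • (y • γ) = y • γ := Subtype.ext (cj_of_mem (inv_mem hx) _)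
    rw [mul_smul, e]
    exact hΔ ⟨y, hy⟩ γ hγ
  have hJ : (Φ.ker.map (Subgroup.subtype _)).Normal := ⟨by
    rintro _ ⟨n, hn, rfl⟩ g
    refine ⟨⟨g * n * g⁻¹, Normal.conj_mem inferInstance _ n.2 g⟩, MonoidHom.ext fun δ => ?_, rfl⟩
    have := DFunLike.congr_fun (MonoidHom.mem_ker.1 hn) ⟨g⁻¹ • δ.1, hG _ _ δ.2⟩
    change (cj g⁻¹⁻¹ δ.1.1).hom n = 1 at this
    rw [inv_inv] at this
    exact this⟩
  rcases hm _ hJ (fun x hx => ⟨⟨x, hL hx⟩, MonoidHom.ext fun δ => Units.ext (δ.1.2 _ hx), rfl⟩)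
    (map_subtype_le _) with e | e
  · refine Or.inr (eq_top_of_le_card _ ?_)
    have := finite_hom_units Δ
    have e1 : Φ.ker = L.subgroupOf _ := by
      exact (comap_map_eq_self_of_injective (Subgroup.subtype_injective _) _).symm.trans
        (congrArg (comap _) e)
    rw [card_Tr c, relIndex, ← e1, index_ker]
    refine (card_le_card_group _).trans ?_
    rw [card_hom_units]
    exact Nat.le_of_dvd Nat.card_pos (index_dvd_card _)
  · refine Or.inl (eq_bot_iff.2 fun δ hδ => Subtype.ext (lin_injective (funext fun x => ?_)))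
    obtain ⟨y, hy, e'⟩ := e.ge x.2
    rw [← show y = x from Subtype.ext e']
    exact congrArg Units.val (DFunLike.congr_fun (MonoidHom.mem_ker.1 hy) ⟨δ, hδ⟩)

/-- `X = N'`. `X' ⊔ L` is normal and `≠ X` (solvable: in `G ⧸ L` the image of `X` is not perfect), so
`X' ≤ L`. For a prime `q ∣ |X : L|`, `{x ∈ X | x ^ q ∈ L}` is normal and `> L`, so all of `X`; hence
`Tr X L` has exponent `q`. `nt`: `sep`. `cyc`: `isCyclic_quotient_subgroupOf_of_map`-like injection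
`Y ⧸ N.subgroupOf Y → G ⧸ N`. `fW`: `Hn.fpf`. `fA`: `mem_Lc_iff`, `fixL`. `irr`: the annihilator `J` of
`Δ` in `X` is normal in `G = X Y` with `L ≤ J ≤ X`; `J = X` gives `Δ = ⊥`; if `J = L`, `X → Lin Δ` has
kernel `L` so `|Tr X L| = |X : L| ≤ |Δ|` (`card_Tr`). `nd`, `nf`: `idx`, `idx_stab`, `idx_Y`
(`(N.subgroupOf Y).index = N.index`). -/
theorem top [L.Normal] (hL : L < ⁅N, N⁆)
    (hm : ∀ J : Subgroup G, J.Normal → L ≤ J → J ≤ ⁅N, N⁆ → J = L ∨ J = ⁅N, N⁆) :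
    ⁅⁅N, N⁆, ⁅N, N⁆⁆ ≤ L ∧ ∃ q, Top Y (Tr ⁅N, N⁆ L) (N.subgroupOf Y) q := by
  have := h.sol
  have c : ⁅⁅N, N⁆, ⁅N, N⁆⁆ ≤ L := by
    rcases hm (⁅⁅N, N⁆, ⁅N, N⁆⁆ ⊔ L) inferInstance le_sup_right
      (sup_le (commutator_le_left _ _) hL.le) with e | e
    · exact le_sup_left.trans e.le
    · have e0 : (⁅N, N⁆ : Subgroup G).map (QuotientGroup.mk' L) ≠ ⊥ := fun e' =>
        hL.not_ge (by rwa [Subgroup.map_eq_bot_iff, QuotientGroup.ker_mk'] at e')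
      refine absurd (Group.IsSolvable.commutator_lt_of_ne_bot e0) (not_lt_of_ge ?_)
      rw [← map_commutator]
      conv_lhs => rw [← e, Subgroup.map_sup, (Subgroup.map_eq_bot_iff L).2 (QuotientGroup.ker_mk' _).ge, sup_bot_eq]
  have nt : Nontrivial (Tr ⁅N, N⁆ L) := by
    obtain ⟨x, hx, hx'⟩ := SetLike.exists_of_lt hL
    obtain ⟨a, ha, h1⟩ := sep c (x := ⟨x, hx⟩) hx'
    exact ⟨⟨a, ha⟩, 1, fun e => h1 (by rw [show a = 1 from congrArg Subtype.val e, map_one])⟩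
  have irr := h.irr hL.le c hm
  obtain ⟨q, hq, hd⟩ := Nat.exists_prime_and_dvd (Finite.one_lt_card (α := Tr ⁅N, N⁆ L)).ne'
  have := Fact.mk hq
  obtain ⟨γ, hγ⟩ := exists_prime_orderOf_dvd_card' q hd
  have ne : ∀ {γ : Tr ⁅N, N⁆ L}, γ ≠ 1 → γ.1 ≠ 1 := fun e e' => e (Subtype.ext e')
  have := h.cyc
  refine ⟨c, q, hq, fun δ => ⟨1, ?_⟩, nt, isCyclic_of_injective (QuotientGroup.lift (N.subgroupOf Y)
    ((QuotientGroup.mk' N).comp Y.subtype) (sb_ker N Y).le) ((QuotientGroup.injective_lift_iff _ _ _).2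
      (sb_ker N Y)), fun a ha b hb => Subtype.ext (h.cA ⟨ha, a.2⟩ ⟨hb, b.2⟩),
    fun e => h.W_ne (by rw [← map_subtype_commutator, e, Subgroup.map_bot]),
    fun y hy w hw e => Subtype.ext (mem_bot.1 (h.inf.le ⟨h.fpf (g := y) hy ?_ ?_, w.2⟩)),
    fun a ha h1 δ e => Subtype.ext (h.fixL le_rfl (inv_mem ⟨ha, a.2⟩) (fun e' => h1 ?_)
      (congrArg Subtype.val e)), irr, fun γ δ h1 h2 e => ?_, fun γ h1 => ?_⟩
  · rcases irr (powMonoidHom q).ker (fun y δ hδ => by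
      rw [MonoidHom.mem_ker, powMonoidHom_apply] at hδ ⊢
      rw [← smul_pow', hδ, smul_one]) with e | e
    · have : γ = 1 := mem_bot.1 (e.le (show γ ^ q = 1 from hγ ▸ pow_orderOf_eq_one γ))
      exact absurd (by rw [← hγ, this, orderOf_one]) hq.ne_one
    · rw [pow_one]; exact e.ge (mem_top δ)
  · exact commutator_mono le_top le_top ((map_subtype_commutator Y).le (mem_map_of_mem _ hw))
  · rw [commutatorElement_eq_one_iff_mul_comm.2 (congrArg Subtype.val e)]; exact one_mem _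
  · exact mem_center_iff.2 fun y => Subtype.ext ((h.mem_Lc_iff ⟨ha, a.2⟩).1 (inv_mem_iff.1 e') y y.2)
  · rw [h.idx_stab, h.idx_stab] at e ⊢
    exact h.nd _ (h.idx (ne h1)).1 _ (h.idx (ne h2)).1 (h.idx (ne h1)).2.1 e
  · rw [h.idx_stab, idx_Y h.sup (commutator_le_left N N)]
    exact (h.idx (ne h1)).2.2

/-- `top` for `L = ⊥`, `Top.const`. If `χ` is not trivial on the abelian group `N'`, it lies over some
`γ ≠ 1` (`lam_below`, `kr_of_lam`), `index ∣ χ(1)` (`idx_dvd`), and `nd`, `idx` give `χ(1) = d`. Otherwise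
`deg_kr`. `G''' ≤ ⁅N', N'⁆ = 1`. -/
theorem res_min (hL : IsMinNormal ⁅N, N⁆) : Res G := by
  obtain ⟨c, q, t⟩ := h.top (L := ⊥) (bot_lt_iff_ne_bot.2 hL.ne_bot) fun J hJ _ e => hL.min J hJ e
  obtain ⟨d, -, hd⟩ := t.const
  refine ⟨card_le_four (a := N.index) (b := d) (c := d) fun χ hχ => ?_, ?_⟩
  · by_cases hk : Kr χ ⁅N, N⁆
    · exact (h.deg_kr hχ hk).imp_right Or.inl
    obtain ⟨μ, h1, h2⟩ := lam_below c hχ fun x hx => by rw [mem_bot.1 hx]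
    have h0 : (μ : Lin (⁅N, N⁆ : Subgroup G)) ≠ 1 := fun e =>
      hk (kr_of_lam le_rfl hχ (fun n _ => by rw [show μ = 1 from e]; rfl) h2)
    have e := hd ⟨μ, fun n hn => congrArg Units.val (h1 n hn)⟩ fun e => h0 (congrArg Subtype.val e)
    rw [h.idx_stab] at e
    exact Or.inr (Or.inr (Or.inl ((h.nd _ (h.idx h0).1 _ (charDegree_mem_cd hχ) (h.idx h0).2.1
      (idx_dvd hχ (irr_lin _) h2)).symm.trans e)))
  · have := commutator_mono h.cm h.cm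
    rw [derivedSeries_succ, derivedSeries_succ, derivedSeries_one]
    exact le_bot_iff.1 ((commutator_mono this this).trans c)

end Sb

end Cfsg.Lib.Nd4
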