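import Cfsg.Agent.Lib.Nd4.Sb1

/-!
# Case β-I: the commutator form on the top chief factor is nondegenerate
-/

set_option autoImplicit false

namespace Cfsg.Lib.Nd4
open Cfsg.Lib.Char Cfsg.Lib.CharDeg Cfsg.Lib.Clifford Cfsg.Lib.Induce Cfsg.Lib.Core Cfsg.Lib.Gar
  Cfsg.Lib.RelGraph Cfsg.Lib.Nda Cfsg.Lib.BG Subgroup MulAction
open scoped commutatorElement

/-- The `q'`-part of an abelian subgroup. -/
theorem exists_qpart {Y : Type*} [Group Y] [Finite Y] {q : ℕ} (hq : q.Prime) {T0 : Subgroup Y}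
    (ab : ∀ a ∈ T0, ∀ b ∈ T0, a * b = b * a) : ∃ S0 ≤ T0, ¬ q ∣ Nat.card S0 ∧
      ∀ T ≤ T0, ∀ d, ¬ q ∣ d → d ∣ (T ⊓ S0).index → d ∣ T.index := by
  have := Fact.mk hq
  obtain ⟨k, n, h1, h2⟩ := Nat.exists_eq_pow_mul_and_not_dvd (Nat.card_pos (α := Y)).ne' q hq.ne_one
  let S0 : Subgroup Y :=
    { carrier := {x | x ∈ T0 ∧ x ^ n = 1}
      one_mem' := ⟨one_mem _, one_pow _⟩
      mul_mem' := fun {a b} ha hb => ⟨mul_mem ha.1 hb.1, by
        rw [Commute.mul_pow (ab a ha.1 b hb.1), ha.2, hb.2, mul_one]⟩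
      inv_mem' := fun {a} ha => ⟨inv_mem ha.1, by rw [inv_pow, ha.2, inv_one]⟩ }
  refine ⟨S0, fun _ hx => hx.1, fun e => ?_, fun T hT d hd e => ?_⟩
  · obtain ⟨x, hx⟩ := exists_prime_orderOf_dvd_card' q e
    exact h1 (hx ▸ orderOf_dvd_of_pow_eq_one (Subtype.ext x.2.2))
  · have : (S0.subgroupOf T).Normal := ⟨fun a ha g => by
      rwa [show g * a * g⁻¹ = a from Subtype.ext (by
        rw [coe_mul, coe_mul, ab _ (hT g.2) _ (hT a.2), coe_inv, mul_inv_cancel_right])]⟩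
    have pg : IsPGroup q (T ⧸ S0.subgroupOf T) := fun g => QuotientGroup.induction_on g fun x => ⟨k, by
      rw [← QuotientGroup.mk_pow, QuotientGroup.eq_one_iff]
      exact ⟨pow_mem (hT x.2) _, by
        rw [coe_subtype, coe_pow, ← pow_mul, ← h2, pow_card_eq_one']⟩⟩
    obtain ⟨j, hj⟩ := IsPGroup.iff_card.1 pg
    rw [← relIndex_mul_index inf_le_left, inf_relIndex_left, relIndex, index_eq_card, hj] at e
    exact (((Nat.Prime.coprime_iff_not_dvd hq).2 hd).pow_left j).symm.dvd_of_dvd_mul_left e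

variable {G : Type*} [Group G] [Fintype G] {N Y L : Subgroup G} [N.Normal] {p : ℕ}

omit [Fintype G] [N.Normal] in
theorem Ly.tw {X : Subgroup G} {h : L ≤ X} {θ : X → ℂ} {μ : Lin L} (hl : Ly h θ μ) (η : Tr X L) :
    Ly h (tw η.1 θ) μ := fun g u => by
  rw [RelGraph.tw, RelGraph.tw, ev_mul, η.2 ⟨u, h u.2⟩ u.2, hl, mul_one, mul_assoc]

/-- `nondeg`, given `exists_inv`. -/
theorem Sb.nondeg' (h : Sb G N Y p) [L.Normal] (hL : L < ⁅N, N⁆)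
    (hm : ∀ J : Subgroup G, J.Normal → L ≤ J → J ≤ ⁅N, N⁆ → J = L ∨ J = ⁅N, N⁆)
    {μ : Lin L} (h0 : μ ≠ 1) {v : G} (hv : v ∈ ⁅N, N⁆) (hv' : v ∉ L)
    (hinv : ∀ S : Subgroup G, S ≤ inertia L (lin μ) → (Nat.card S).Coprime (L.relIndex ⁅N, N⁆) →
      ∃ θ : (⁅N, N⁆ : Subgroup G) → ℂ, IsIrrCharacter _ θ ∧ Ly hL.le θ μ ∧ S ≤ inertia _ θ) :
    ∃ y ∈ ⁅N, N⁆, ∃ hz : ⁅v, y⁆ ∈ L, ev (⟨_, hz⟩ : L) μ ≠ 1 := by
  obtain ⟨hX, q, t⟩ := h.top hL hm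
  obtain ⟨d, qd, cd⟩ := t.const
  have := Fact.mk t.hq
  have := t.nt
  obtain ⟨γ, hγ⟩ := exists_ne (1 : Tr ⁅N, N⁆ L)
  have d1 := h.idx (a := γ.1) fun e => hγ (Subtype.ext e)
  rw [← h.idx_stab γ, cd γ hγ] at d1
  let T0 := (inertia L (lin μ)).subgroupOf Y
  have c0 : T0 ⊓ N.subgroupOf Y ≤ center Y := fun b hb => mem_center_iff.2 fun y => Subtype.ext
    ((h.mem_Lc_iff ⟨hb.2, b.2⟩).1 (by_contra fun c =>
      h0 (h.fixL hL.le ⟨hb.2, b.2⟩ c (mem_inertia_lin.1 hb.1))) y y.2)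
  obtain ⟨S0, s1, s2, s3⟩ := exists_qpart t.hq (t.comm c0)
  obtain ⟨n, hn⟩ := t.pq.exists_card_eq
  have cp : ∀ S ≤ S0, (Nat.card S).Coprime (Nat.card (Tr ⁅N, N⁆ L)) := fun S hS => hn ▸
    (((Nat.Prime.coprime_iff_not_dvd t.hq).2 fun e => s2 (e.trans (card_dvd_of_le hS))).pow_left n).symm
  obtain ⟨θ, t1, t2, t3⟩ := hinv (S0.map Y.subtype) (map_le_iff_le_comap.2 s1) (by
    rw [card_map_of_injective Y.subtype_injective, ← card_Tr hX]; exact cp _ le_rfl)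
  let Δ : Subgroup (Tr ⁅N, N⁆ L) :=
    { carrier := {η | tw η.1 θ = θ}
      one_mem' := tw_one θ
      mul_mem' := fun {a b} (ha : tw a.1 θ = θ) (hb : tw b.1 θ = θ) => by
        change tw (a.1 * b.1) θ = θ
        rw [← tw_tw, hb, ha]
      inv_mem' := fun {a} (ha : tw a.1 θ = θ) => tw_injective a.1 (by
        rw [tw_tw, coe_inv, mul_inv_cancel, tw_one, ha]) }
  have cs : ∀ s ∈ S0, ∀ η : Tr ⁅N, N⁆ L, conjChar _ (Y.subtype s⁻¹) (tw η.1 θ) = tw (s • η).1 θ :=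
    fun s hs η => by
    rw [conjChar_tw, (mem_inertia _).1 (t3 (mem_map_of_mem Y.subtype (inv_mem hs)))]
    rfl
  have l0 : ∀ η : Tr ⁅N, N⁆ L, (inertia _ (tw η.1 θ)).subgroupOf Y ≤ T0 := fun η =>
    comap_mono ((t2.tw η).inertia_le (irr_tw _ t1))
  have K : ∀ η ∉ Δ, charDegree θ = 1 ∧ ((inertia _ (tw η.1 θ)).subgroupOf Y).index = d := fun η hη => by
    have i := irr_tw η.1 t1
    obtain ⟨δ, hδ, e⟩ := fix_coset (S := (inertia _ (tw η.1 θ)).subgroupOf Y ⊓ S0) (cp _ inf_le_right)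
      (Δ := Δ) (fun s hs δ (hδ : tw δ.1 θ = θ) => show tw (s • δ).1 θ = θ by
        rw [← cs s hs.2, hδ, (mem_inertia _).1 (t3 (mem_map_of_mem Y.subtype (inv_mem hs.2)))])
      (η := η) fun s hs => tw_injective η.1 (by
        rw [tw_tw, coe_div, mul_div_cancel, ← cs s hs.2]
        exact (mem_inertia _).1 (inv_mem hs.1))
    have a1 := s3 _ (l0 η) d qd (cd (η * δ) (fun e => hη (by
      rw [eq_inv_of_mul_eq_one_left e]; exact inv_mem hδ)) ▸ index_dvd_of_le e)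
    obtain ⟨χ, x1, x2, -⟩ := ex_over ⁅N, N⁆ i.isCharacter (m := 0) (by
      rw [zero_dvd_iff]; exact mul_ne_zero index_ne_zero_of_finite i.charDegree_pos.ne')
    have a2 := deg_dvd x1 i x2
    rw [← idx_Y h.sup (Clifford.le_inertia _ i.isClassFunction), deg_tw] at a2
    rw [← h.nd d d1.1 _ (charDegree_mem_cd x1) d1.2.1 ((a1.mul_right _).trans a2)] at a2
    have a3 := Nat.dvd_antisymm ((dvd_mul_right _ _).trans a2) a1
    refine ⟨?_, a3⟩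
    rw [a3] at a2
    exact Nat.dvd_one.1 ((Nat.mul_dvd_mul_iff_left (Nat.pos_of_ne_zero (a3 ▸ index_ne_zero_of_finite))).1
      (by rwa [mul_one]))
  have top : ∀ η, η ∈ Δ := by
    by_contra! c
    obtain ⟨η, hη⟩ := c
    obtain ⟨a, rfl⟩ := exists_eq_lin t1.isCharacter (K η hη).1
    obtain ⟨x, x1, x2⟩ := Top.common t.cyc (cd γ hγ ▸ t.nf γ hγ) c0
    have f : ∀ η : Tr ⁅N, N⁆ L, η ≠ 1 → cj ((x : G)⁻¹) (η.1 * a) = η.1 * a := fun η h1 => by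
      refine mem_inertia_lin.1 (inv_mem ?_)
      rw [← tw_lin]
      exact x2 _ (l0 η) (K η fun (e : tw η.1 (lin a) = lin a) => h1 (Subtype.ext (by
        rw [tw_lin] at e; exact mul_eq_right.1 (lin_injective e)))).2
    refine x1 (t.mem_of_div fun η η' a1 a2 => Subtype.ext ?_)
    change cj ((x : G)⁻¹) (η.1 / η'.1) = η.1 / η'.1
    rw [← mul_div_mul_right_eq_div η.1 η'.1 a, map_div, f η a1, f η' a2]
  obtain ⟨a, a1, a2⟩ := sep hX (x := ⟨v, hv⟩) hv'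
  have z : θ ⟨v, hv⟩ = 0 := by
    have := congrFun (top ⟨a, a1⟩) ⟨v, hv⟩
    exact (mul_left_eq_self₀.1 this).resolve_left a2
  by_contra! c
  exact Pal.ne_zero_of_comm t1 (fun y => (t2.apply_eq_iff t1
    ⟨⁅v, (y : G)⁆, hX (commutator_mem_commutator hv y.2)⟩).2 (c y y.2 _)) z

end Cfsg.Lib.Nd4
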