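import Cfsg.Agent.Lib.Nd4.Def

/-!
# Tools: linear characters of sections, coprime actions on abelian groups
-/

set_option autoImplicit false

namespace Cfsg.Lib.Nd4
open Cfsg.Lib.Char Cfsg.Lib.CharDeg Cfsg.Lib.Clifford Cfsg.Lib.Induce Cfsg.Lib.Core Cfsg.Lib.Gar
  Cfsg.Lib.RelGraph Cfsg.Lib.Nda Cfsg.Lib.BG Subgroup MulAction
open scoped commutatorElement

section Act
variable {Y Γ : Type*} [Group Y] [Finite Y] [CommGroup Γ] [Finite Γ] [MulDistribMulAction Y Γ]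

/-- An invariant coset has a fixed point (coprime). With `π = ∏ s ∈ S, s • η` (fixed by `S`, and
`π / η ^ |S| ∈ Δ`) and `k |S| ≡ 1 (mod |Γ|)`, take `η * δ = π ^ k`. -/
theorem fix_coset {S : Subgroup Y} (hc : (Nat.card S).Coprime (Nat.card Γ)) {Δ : Subgroup Γ}
    (hΔ : ∀ s ∈ S, ∀ δ ∈ Δ, s • δ ∈ Δ) {η : Γ} (h : ∀ s ∈ S, s • η / η ∈ Δ) :
    ∃ δ ∈ Δ, ∀ s ∈ S, s • (η * δ) = η * δ := by
  have := Fintype.ofFinite S
  obtain ⟨m, hm⟩ := exists_pow_eq_self_of_coprime (x := η) (hc.coprime_dvd_right (orderOf_dvd_natCard η))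
  have e : η * (∏ s : S, s.1 • η / η) ^ m = (∏ s : S, s.1 • η) ^ m := by
    rw [Finset.prod_div_distrib, Finset.prod_const, Finset.card_univ, ← Nat.card_eq_fintype_card, div_pow, hm,
      mul_div_cancel]
  refine ⟨(∏ s : S, s.1 • η / η) ^ m, pow_mem (prod_mem fun s _ => h s.1 s.2) m, fun t ht => ?_⟩
  rw [e, smul_pow', Finset.smul_prod']
  congr 1
  exact Fintype.prod_equiv (Equiv.mulLeft (⟨t, ht⟩ : S)) _ _ fun s => (mul_smul t s.1 η).symm

/-- Take `γ ≠ 1` whose stabilizer `B` in `A` is maximal; `A ⧸ B` acts semiregularly on `Pal.fx Γ B`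
so it is cyclic (`Pal.isCyclic_of_fpf`); or `Coprime.le_of_forall_cocyclic` in `Pal.SD Y Γ`
(see the proofs in Lib/Pal/Act.lean). -/
theorem exists_cocyc [Nontrivial Γ] {A : Subgroup Y} (hA : ∀ a ∈ A, ∀ b ∈ A, a * b = b * a)
    (hc : (Nat.card A).Coprime (Nat.card Γ)) :
    ∃ γ : Γ, γ ≠ 1 ∧ ∃ a ∈ A, A ≤ zpowers a ⊔ (A ⊓ stabilizer Y γ) := by
  by_contra! hn
  have hA' : IsMulCommutative A := ⟨⟨fun a b => Subtype.ext (hA _ a.2 _ b.2)⟩⟩
  have := Coprime.le_of_forall_cocyclic (A := A.map (SemidirectProduct.inr : Y →* Pal.SD Y Γ)) (H := ⊥) inferInstance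
    (Pal.sd_norm A) (Pal.sd_cop hc) ?_
  · exact top_ne_bot ((map_eq_bot_iff_of_injective _ SemidirectProduct.inl_injective).1 (le_bot_iff.1 this))
  rintro B hB ⟨_, ⟨a, ha, rfl⟩, e⟩ _ ⟨⟨γ, -, rfl⟩, hγ⟩
  by_contra k
  refine hn γ (fun e => k (by rw [e, map_one]; exact one_mem _)) a ha ?_
  rw [← map_le_map_iff_of_injective (f := (SemidirectProduct.inr : Y →* Pal.SD Y Γ)) SemidirectProduct.inr_injective,
    Subgroup.map_sup, MonoidHom.map_zpowers, sup_comm]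
  refine e.ge.trans (sup_le_sup_right (fun b hb => ?_) _)
  obtain ⟨y, hy, rfl⟩ := hB hb
  exact ⟨y, ⟨hy, Pal.sd_comm.1 (hγ _ hb)⟩, rfl⟩

end Act

variable {G : Type*} [Group G] [Fintype G] {X Y : Subgroup G}

/-- `Gar.ex_lam` with `K = Y`. -/
theorem sep (h : ⁅X, X⁆ ≤ Y) {x : X} (hx : (x : G) ∉ Y) : ∃ a ∈ Tr X Y, ev x a ≠ 1 := by
  obtain ⟨μ, h1, h2⟩ := ex_lam h x.2 hx
  exact ⟨μ, fun n hn => congrArg Units.val (h1 n hn), fun e => h2 (Units.ext e)⟩

/-- `Tr X Y ≃ (X ⧸ Y.subgroupOf X →* ℂˣ)`; see `RelGraph.card_lin` for the case `Y = X'`. -/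
theorem card_Tr (h : ⁅X, X⁆ ≤ Y) : Nat.card (Tr X Y) = Y.relIndex X := by
  have := nrm_of h
  have e : _root_.commutator (X ⧸ Y.subgroupOf X) = ⊥ := by
    rw [_root_.commutator_def, commutator_eq_bot_iff_le_centralizer]
    intro a _ b _
    obtain ⟨a, rfl⟩ := QuotientGroup.mk_surjective a
    obtain ⟨b, rfl⟩ := QuotientGroup.mk_surjective b
    exact commutatorElement_eq_one_iff_mul_comm.1 ((QuotientGroup.eq_one_iff ⁅b, a⁆).2
      (h (commutator_mem_commutator b.2 a.2)))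
  rw [relIndex, index_eq_card, ← index_bot (G := X ⧸ Y.subgroupOf X), ← e, ← card_hom_units]
  exact Nat.card_congr
    { toFun := fun a => QuotientGroup.lift _ a.1.hom fun n hn => Units.ext (a.2 n hn)
      invFun := fun f => ⟨f.comp (QuotientGroup.mk' _), fun n hn => congrArg Units.val
        ((congrArg f ((QuotientGroup.eq_one_iff n).2 hn)).trans (map_one f))⟩
      left_inv := fun a => rfl
      right_inv := fun f => QuotientGroup.monoidHom_ext _ rfl }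

/-- A linear character of `U ≤ X` trivial on `Y ≥ X'` extends to `X` (e.g. an irreducible character of
`X` over it, `hom_of_kr`; or injectivity of `ℂˣ`). -/
theorem exists_ext {U : Subgroup G} (hU : U ≤ X) (hY : Y ≤ U) (h : ⁅X, X⁆ ≤ Y) {κ : Lin U}
    (hκ : κ ∈ Tr U Y) : ∃ ν ∈ Tr X Y, ∀ u : U, ev (⟨u, hU u.2⟩ : X) ν = ev u κ := by
  let f : U →* Abelianization X := Abelianization.of.comp (inclusion hU)
  let κ' : f.range →* ℂˣ := f.rangeRestrict.liftOfSurjective f.rangeRestrict_surjective ⟨κ.hom, fun u hu => by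
    rw [MonoidHom.ker_rangeRestrict, MonoidHom.mem_ker] at hu
    have : inclusion hU u ∈ _root_.commutator X := (QuotientGroup.eq_one_iff _).1 hu
    exact Units.ext (hκ u (h (map_subtype_commutator X ▸ mem_map_of_mem X.subtype this)))⟩
  have : NeZero (Monoid.exponent (Abelianization X)) := ⟨Monoid.exponent_ne_zero_of_finite⟩
  obtain ⟨ν, hν⟩ := MonoidHom.domRestrict_surjective ℂ f.range κ'
  have k : ∀ u : U, ev (⟨u, hU u.2⟩ : X) (ν.comp Abelianization.of) = ev u κ := fun u => congrArg Units.val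
    ((DFunLike.congr_fun hν (f.rangeRestrict u)).trans (MonoidHom.liftOfRightInverse_comp_apply _ _ _ _ _))
  exact ⟨_, fun n hn => (k ⟨n, hY hn⟩).trans (hκ _ hn), k⟩

variable [X.Normal] [Y.Normal]

/-- `x ↦ ⁅g, x⁆` is injective on the finite set `X ⧸ Y`, so onto
(`MonoidHom.FixedPointFree.commutatorMap_surjective` for the automorphism of `X.map (mk' Y)`). -/
theorem surj_of_fpf {g : G} (h : ∀ x ∈ X, ⁅g, x⁆ ∈ Y → x ∈ Y) {w : G} (hw : w ∈ X) :
    ∃ v ∈ X, w⁻¹ * ⁅g, v⁆ ∈ Y := by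
  let π := QuotientGroup.mk' Y
  have m : ∀ x ∈ X, ⁅g, x⁆ ∈ X := fun x hx => commutator_le_right ⊤ X (commutator_mem_commutator (mem_top g) hx)
  let φ : X.map π → X.map π := fun x => ⟨⁅π g, x.1⁆, by
    obtain ⟨_, x, hx, rfl⟩ := x
    exact ⟨_, m x hx, map_commutatorElement _ _ _⟩⟩
  have i : Function.Injective φ := by
    rintro ⟨_, x, hx, rfl⟩ ⟨_, y, hy, rfl⟩ e
    have e : ⁅π g, π x⁆ = ⁅π g, π y⁆ := congrArg Subtype.val e
    refine Subtype.ext (QuotientGroup.eq.2 (h _ (mul_mem (inv_mem hx) hy) ((QuotientGroup.eq_one_iff _).1 ?_)))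
    change π _ = 1
    rw [map_commutatorElement, map_mul, map_inv, show ⁅π g, (π x)⁻¹ * π y⁆ =
      π g * (π x)⁻¹ * (π g)⁻¹ * ⁅π g, π y⁆ * π x by simp only [commutatorElement_def]; group, ← e,
      commutatorElement_def]
    group
  obtain ⟨⟨_, v, hv, rfl⟩, e⟩ := Finite.surjective_of_injective i ⟨_, w, hw, rfl⟩
  exact ⟨v, hv, QuotientGroup.eq.1 ((congrArg Subtype.val e).symm.trans (map_commutatorElement π g v).symm)⟩

/-- (→) `a ↦ cj g a / a` is injective on the finite group `Tr X Y`, so onto, and `cj g b / b` is `1` at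
`x` when `⁅g, x⁆ ∈ Y` (`Nda.Hy.cj_ap`); use `sep`. (←) `surj_of_fpf`. -/
theorem fpf_dual (h : ⁅X, X⁆ ≤ Y) {g : G} :
    (∀ a ∈ Tr X Y, cj g a = a → a = 1) ↔ ∀ x ∈ X, ⁅g, x⁆ ∈ Y → x ∈ Y := by
  have m : ∀ x : X, ⁅g, (x : G)⁆ ∈ X := fun x =>
    commutator_le_right ⊤ X (commutator_mem_commutator (mem_top g) x.2)
  refine ⟨fun k x hx e => by_contra fun n => ?_, fun k a ha e => MonoidHom.ext fun w => ?_⟩
  · obtain ⟨a, ha, h1⟩ := sep h (x := ⟨x, hx⟩) n
    let φ : Tr X Y → Tr X Y := fun b => ⟨cj g b.1 / b.1, div_mem (cj_mem_Tr g b.2) b.2⟩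
    have i : Function.Injective φ := fun b c e => Subtype.ext (div_eq_one.1 (k _ (div_mem b.2 c.2) (by
      have e : cj g b.1 / b.1 = cj g c.1 / c.1 := congrArg Subtype.val e
      rw [map_div, div_eq_div_iff_mul_eq_mul, div_eq_div_iff_mul_eq_mul.1 e, mul_comm])))
    obtain ⟨b, hb⟩ := Finite.surjective_of_injective i ⟨a, ha⟩
    have e1 : cj g b.1 = a * b.1 := div_eq_iff_eq_mul.1 (congrArg Subtype.val hb)
    have e2 := Hy.cj_ap g b.1 ⟨x, hx⟩ (m ⟨x, hx⟩)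
    rw [e1, show b.1.hom ⟨_, m ⟨x, hx⟩⟩ = 1 from Units.ext (b.2 _ e)] at e2
    exact h1 (congrArg Units.val (mul_right_cancel e2))
  · obtain ⟨v, hv, e1⟩ := surj_of_fpf k w.2
    have e2 := Hy.cj_ap g a ⟨v, hv⟩ (m ⟨v, hv⟩)
    rw [e, right_eq_mul] at e2
    have e3 : a.hom (w⁻¹ * ⟨_, m ⟨v, hv⟩⟩) = 1 := Units.ext (ha _ e1)
    rwa [map_mul, e2, mul_one, map_inv, inv_eq_one] at e3

/-- `sep`. -/
theorem mem_Kn_iff (h : ⁅X, X⁆ ≤ Y) {g : G} : g ∈ Kn X Y ↔ ∀ x ∈ X, ⁅g, x⁆ ∈ Y := by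
  have m : ∀ x : X, ⁅g, (x : G)⁆ ∈ X := fun x =>
    commutator_le_right ⊤ X (commutator_mem_commutator (mem_top g) x.2)
  rw [mem_Kn]
  refine ⟨fun k x hx => by_contra fun n => ?_, fun k a ha => MonoidHom.ext fun w => ?_⟩
  · obtain ⟨a, ha, h1⟩ := sep h (x := ⟨_, m ⟨x, hx⟩⟩) n
    have e2 := Hy.cj_ap g a ⟨x, hx⟩ (m ⟨x, hx⟩)
    rw [k a ha, right_eq_mul] at e2
    exact h1 (congrArg Units.val e2)
  · refine (Hy.cj_ap g a w (m w)).trans ?_
    rw [show a.hom ⟨_, m w⟩ = 1 from Units.ext (ha _ (k _ w.2)), one_mul]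
    rfl

/-- ORB. Put `μ = cj k ν / ν ≠ 1`. An element `ξ = cj k η / η` fixed by `cj k` is `1`
(`cj (k ^ n) η = ξ ^ n η`, so `ξ ^ orderOf k = 1`, and `ξ ^ card X = 1`). So `μ`, `a μ` are not fixed
by `k`. If `h ∈ H` fixes `a μ` then `cj h a / a = (cj h μ / μ)⁻¹` is fixed by `k` (as `h k = k h`) and of
the form `cj k η / η` with `η = (cj h ν / ν)⁻¹`, so it is `1`. -/
theorem orb {H : Subgroup G} (hH : ∀ a ∈ H, ∀ b ∈ H, a * b = b * a)
    (hc : (Nat.card H).Coprime (Nat.card X)) {a ν : Lin X} {k : G} (hk : k ∈ H) (h1 : cj k a = a)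
    (h2 : cj k ν ≠ ν) : cj k (a * (cj k ν / ν)) ≠ a * (cj k ν / ν) ∧
      ∀ h ∈ H, cj h (a * (cj k ν / ν)) = a * (cj k ν / ν) → cj h a = a := by
  have key : ∀ η : Lin X, cj k (cj k η / η) = cj k η / η → cj k η = η := fun η e => by
    have e1 : ∀ n : ℕ, cj (k ^ n) η = (cj k η / η) ^ n * η := fun n => by
      induction n with
      | zero => rw [pow_zero, cj_one, pow_zero, one_mul]
      | succ n ih => rw [pow_succ, cj_mul, ih, map_mul, map_pow, e, pow_succ, mul_assoc, div_mul_cancel]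
    have e2 := e1 (Nat.card H)
    rw [show k ^ Nat.card H = 1 from congrArg Subtype.val (pow_card_eq_one' (x := (⟨k, hk⟩ : H))), cj_one,
      right_eq_mul] at e2
    exact div_eq_one.1 ((pow_eq_one_iff_of_coprime hc).1 ⟨e2, MonoidHom.ext fun x =>
      (map_pow (cj k η / η).hom x _).symm.trans (by rw [pow_card_eq_one', map_one]; rfl)⟩)
  refine ⟨fun e => h2 (key ν (by rwa [map_mul, h1, mul_right_inj] at e)), fun h hh e => ?_⟩
  have c : ∀ b : Lin X, cj k (cj h b) = cj h (cj k b) := fun b => by rw [← cj_mul, ← cj_mul, hH h hh k hk]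
  have e1 : cj k (ν / cj h ν) / (ν / cj h ν) = cj h a / a := by
    rw [map_mul, map_div] at e
    rw [map_div, c, eq_mul_inv_of_mul_eq e]
    simp only [div_eq_mul_inv, mul_inv_rev, inv_inv, mul_assoc, mul_comm, mul_left_comm, mul_inv_cancel_left]
  have e2 := key (ν / cj h ν) (by rw [e1, map_div, c, h1])
  rwa [e2, div_self', eq_comm, div_eq_one] at e1

omit [X.Normal] [Y.Normal] in
/-- If `Y` is a supplement of the normal subgroup `X ≤ T` then `|Y : T ∩ Y| = |G : T|`. -/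
theorem idx_Y [X.Normal] (h : X ⊔ Y = ⊤) {T : Subgroup G} (hT : X ≤ T) :
    (T.subgroupOf Y).index = T.index := by
  have : IsPretransitive Y (G ⧸ T) := (isPretransitive_iff_base ((1 : G) : G ⧸ T)).2 fun g => by
    obtain ⟨g, rfl⟩ := QuotientGroup.mk_surjective g
    have : g ∈ ((Y ⊔ X : Subgroup G) : Set G) := by rw [sup_comm, h]; trivial
    rw [mul_normal] at this
    obtain ⟨y, hy, x, hx, rfl⟩ := this
    exact ⟨⟨y, hy⟩, QuotientGroup.eq.2 (by simpa using hT hx)⟩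
  rw [index_eq_card T, ← index_stabilizer_of_transitive Y ((1 : G) : G ⧸ T)]
  congr 1
  ext y
  exact ⟨fun e => QuotientGroup.eq.2 (by simpa using T.inv_mem e), fun e => mem_subgroupOf.2 (by
    simpa using T.inv_mem (QuotientGroup.eq.1 e))⟩

end Cfsg.Lib.Nd4
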