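import Cfsg.Agent.Lib.Nd4.Def

/-!
# A common element of subgroups of the same index
-/

set_option autoImplicit false

namespace Cfsg.Lib.Nd4
open Subgroup

/-- `T0` is abelian; if `g` generates `T0` modulo `A` then `g ^ |T0 : T|` lies in `T` and not in `A`. -/
theorem Top.common' {Y : Type*} [Group Y] [Finite Y] {A : Subgroup Y} [A.Normal] (hc : IsCyclic (Y ⧸ A)) {d : ℕ}
    (hd : ¬ A.index ∣ d) {T0 : Subgroup Y} (hT : T0 ⊓ A ≤ center Y) :
    ∃ x ∉ A, ∀ T ≤ T0, T.index = d → x ∈ T := by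
  by_cases ex : ∃ T ≤ T0, T.index = d
  swap
  · obtain ⟨x, hx⟩ : ∃ x, x ∉ A := by
      by_contra! H
      exact hd (by rw [(eq_top_iff' A).2 H, index_top]; exact one_dvd d)
    exact ⟨x, hx, fun T l e => absurd ⟨T, l, e⟩ ex⟩
  obtain ⟨T₁, l₁, rfl⟩ := ex
  let φ : T0 →* Y ⧸ A := (QuotientGroup.mk' A).comp T0.subtype
  have c := commutative_of_cyclic_center_quotient φ fun t ht => mem_center_iff.2 fun s =>
    Subtype.ext (mem_center_iff.1 (hT ⟨t.2, (QuotientGroup.eq_one_iff _).1 ht⟩) s)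
  obtain ⟨⟨_, g, rfl⟩, hg⟩ := IsCyclic.exists_ofOrder_eq_natCard (α := φ.range)
  refine ⟨(g ^ T₁.relIndex T0 : T0), fun hx => hd ?_, fun T l e => ?_⟩
  · have : A.relIndex T0 ∣ T₁.relIndex T0 := by
      rw [show A.relIndex T0 = φ.ker.index by rw [← MonoidHom.comap_ker, QuotientGroup.ker_mk']; rfl, index_ker, ← hg,
        ← orderOf_coe]
      exact orderOf_dvd_of_pow_eq_one ((map_pow φ g _).symm.trans ((QuotientGroup.eq_one_iff _).2 hx))
    rw [← relIndex_mul_index l₁]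
    refine (index_dvd_of_le (inf_le_left : A ⊓ T0 ≤ A)).trans ?_
    rw [← relIndex_mul_index (inf_le_right : A ⊓ T0 ≤ T0), inf_relIndex_right]
    exact mul_dvd_mul_right this _
  · haveI : (T.subgroupOf T0).Normal := ⟨fun a ha b => by rwa [c b a, mul_inv_cancel_right]⟩
    rw [← Nat.eq_of_mul_eq_mul_right (Nat.pos_of_ne_zero index_ne_zero_of_finite)
      ((relIndex_mul_index l).trans (e.trans (relIndex_mul_index l₁).symm))]
    exact (T.subgroupOf T0).pow_index_mem g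

end Cfsg.Lib.Nd4
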